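import Cfsg.Agent.Helper55.N9Defs

/-!
# S4409 (CALL of helper55), piece F1a (helper72, double)
-/

set_option autoImplicit false

namespace Cfsg.Agent.Helper72.N9

open Subgroup Cfsg.Agent.Helper55.N9

variable {G : Type*} [Group G] [Finite G]

-- F1a
theorem n9_exists_min (Y K : Subgroup G) (hinv : K ≤ normalizer (Y : Set G))
    (hnt : ¬ Y ≤ centralizer (K : Set G)) : ∃ D : Subgroup G, D ≤ Y ∧ MinCfg K D := by
  have key : ∀ n : ℕ, ∀ Y : Subgroup G, Nat.card Y = n → K ≤ normalizer (Y : Set G) →
      ¬ Y ≤ centralizer (K : Set G) → ∃ D : Subgroup G, D ≤ Y ∧ MinCfg K D := by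
    intro n
    induction n using Nat.strong_induction_on with
    | _ n IH =>
      intro Y hn hinv hnt
      by_cases hmin : ∀ E : Subgroup G, E ≤ Y → E ≠ Y → K ≤ normalizer (E : Set G) →
          E ≤ centralizer (K : Set G)
      · exact ⟨Y, le_rfl, ⟨hinv, hnt, hmin⟩⟩
      · push Not at hmin
        obtain ⟨E, hEY, hne, hEinv, hEnt⟩ := hmin
        have hlt : Nat.card E < n := by
          rw [← hn]
          by_contra hge
          push Not at hge
          exact hne (Subgroup.eq_of_le_of_card_ge hEY hge)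
        obtain ⟨D, hD, hmc⟩ := IH _ hlt E rfl hEinv hEnt
        exact ⟨D, hD.trans hEY, hmc⟩
  exact key _ Y rfl hinv hnt

end Cfsg.Agent.Helper72.N9
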