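import Cfsg.Agent.Helper55.N9Defs

/-!
# S4409 (CALL of helper55), piece F1c (helper72, double)
-/

set_option autoImplicit false

namespace Cfsg.Agent.Helper72.N9

open Subgroup Cfsg.Agent.Helper55.N9

variable {G : Type*} [Group G] [Finite G]

-- F1c
theorem n9_normalizer_cond (D Y : Subgroup G) (hY : IsPGroup 2 Y) (hDY : D ≤ Y)
    (h : Y ⊓ normalizer (D : Set G) ≤ D) : D = Y := by
  by_contra hne
  have : Fact (Nat.Prime 2) := ⟨Nat.prime_two⟩
  have : Group.IsNilpotent Y := hY.isNilpotent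
  have hnc := Group.normalizerCondition_of_isNilpotent (G := Y)
  have hlt : D.subgroupOf Y < ⊤ := by
    rw [lt_top_iff_ne_top, Ne, Subgroup.subgroupOf_eq_top]
    intro hYD
    exact hne (le_antisymm hDY hYD)
  have h1 := hnc (D.subgroupOf Y) hlt
  rw [← Subgroup.subgroupOf_normalizer_eq hDY] at h1
  have h2 : (normalizer (D : Set G)).subgroupOf Y ≤ D.subgroupOf Y := by
    intro y hy
    rw [Subgroup.mem_subgroupOf] at hy ⊢
    exact h ⟨y.2, hy⟩
  exact absurd h1 (not_lt_of_ge h2)

end Cfsg.Agent.Helper72.N9
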