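import Cfsg.Agent.Helper55.N9Defs

/-!
# S4409 (CALL of helper55), piece IDX (helper72, double)
-/

set_option autoImplicit false

namespace Cfsg.Agent.Helper72.N9

open Subgroup Cfsg.Agent.Helper55.N9
open scoped commutatorElement

variable {G : Type*} [Group G] [Finite G]

-- IDX
theorem n9_idx (N K M : Subgroup G) (hinv : K ≤ normalizer (N : Set G)) (hM : M ≤ N)
    (hidx : M.relIndex N = 2) (hMinv : K ≤ normalizer (M : Set G)) : ⁅N, K⁆ ≤ M := by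
  rw [Subgroup.commutator_le]
  intro n hn k hk
  have hkn : k * n⁻¹ * k⁻¹ ∈ N := (mem_normalizer_iff.mp (hinv hk) n⁻¹).mp (N.inv_mem hn)
  have e : ⁅n, k⁆ = n * (k * n⁻¹ * k⁻¹) := by
    rw [commutatorElement_def]
    group
  rw [e]
  have h2 : (M.subgroupOf N).index = 2 := hidx
  have h3 := Subgroup.mul_mem_iff_of_index_two h2 (a := (⟨n, hn⟩ : N))
    (b := (⟨k * n⁻¹ * k⁻¹, hkn⟩ : N))
  have h4 : (⟨n, hn⟩ : N) * ⟨k * n⁻¹ * k⁻¹, hkn⟩ ∈ M.subgroupOf N := by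
    rw [h3, Subgroup.mem_subgroupOf, Subgroup.mem_subgroupOf]
    show n ∈ M ↔ k * n⁻¹ * k⁻¹ ∈ M
    have h5 := mem_normalizer_iff.mp (hMinv hk) n⁻¹
    rw [← inv_mem_iff (x := n)]
    exact h5
  exact Subgroup.mem_subgroupOf.mp h4

end Cfsg.Agent.Helper72.N9
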