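import Cfsg.Agent.Helper55.N9Defs

/-!
# S4409 (CALL of helper55), piece T5 (helper72, double)
-/

set_option autoImplicit false

namespace Cfsg.Agent.Helper72.N9

open Subgroup Cfsg.Agent.Helper55.N9
open scoped commutatorElement

variable {G : Type*} [Group G] [Finite G]

-- T5
theorem n9_star (Y K E : Subgroup G) (hYK : ⁅Y, K⁆ = Y) (hE : E ≤ Y)
    (hEn : Y ≤ normalizer (E : Set G)) (hEc : E ≤ centralizer (K : Set G)) :
    E ≤ centralizer (Y : Set G) := by
  have h1 : ⁅K, E⁆ = ⊥ := by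
    rw [Subgroup.commutator_eq_bot_iff_le_centralizer]
    exact Subgroup.le_centralizer_iff.mp hEc
  have h2 : ⁅⁅K, E⁆, Y⁆ = ⊥ := by rw [h1, Subgroup.commutator_bot_left]
  have h3 : ⁅E, Y⁆ ≤ E := by
    rw [Subgroup.commutator_le]
    intro e he y hy
    have h : ⁅e, y⁆ = e * (y * e⁻¹ * y⁻¹) := by
      rw [commutatorElement_def]
      group
    rw [h]
    exact E.mul_mem he ((mem_normalizer_iff.mp (hEn hy) e⁻¹).mp (E.inv_mem he))
  have h4 : ⁅⁅E, Y⁆, K⁆ = ⊥ := by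
    have h : ⁅E, K⁆ = ⊥ := Subgroup.commutator_eq_bot_iff_le_centralizer.mpr hEc
    exact le_bot_iff.mp (h ▸ Subgroup.commutator_mono h3 le_rfl)
  have h5 : ⁅⁅Y, K⁆, E⁆ = ⊥ := Subgroup.commutator_commutator_eq_bot_of_rotate h2 h4
  rw [hYK, Subgroup.commutator_eq_bot_iff_le_centralizer] at h5
  exact Subgroup.le_centralizer_iff.mp h5

end Cfsg.Agent.Helper72.N9
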