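import Cfsg.Agent.Helper55.N9Defs

/-!
# S4409 (CALL of helper55), piece T6 (helper72, double)
-/

set_option autoImplicit false

namespace Cfsg.Agent.Helper72.N9

open Subgroup Cfsg.Agent.Helper55.N9
open scoped commutatorElement

variable {G : Type*} [Group G] [Finite G]

-- T6
theorem n9_comm_inv (Y K : Subgroup G) (hinv : K ≤ normalizer (Y : Set G)) :
    ⁅Y, K⁆ ≤ Y ∧ Y ≤ normalizer ((⁅Y, K⁆ : Subgroup G) : Set G) ∧
      K ≤ normalizer ((⁅Y, K⁆ : Subgroup G) : Set G) := by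
  have hKY : ∀ k ∈ K, ∀ y ∈ Y, k * y * k⁻¹ ∈ Y :=
    fun k hk y hy => (mem_normalizer_iff.mp (hinv hk) y).mp hy
  have h1 : ⁅Y, K⁆ ≤ Y := by
    rw [Subgroup.commutator_le]
    intro y hy k hk
    have h : ⁅y, k⁆ = y * (k * y⁻¹ * k⁻¹) := by
      rw [commutatorElement_def]
      group
    rw [h]
    exact Y.mul_mem hy (hKY k hk _ (Y.inv_mem hy))
  have key : ∀ X : Subgroup G, (∀ x ∈ X, ∀ h ∈ ⁅Y, K⁆, x * h * x⁻¹ ∈ ⁅Y, K⁆) →
      X ≤ normalizer ((⁅Y, K⁆ : Subgroup G) : Set G) := by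
    intro X hX x hx
    rw [mem_normalizer_iff]
    intro h
    constructor
    · exact hX x hx h
    · intro hh
      have h2 := hX x⁻¹ (X.inv_mem hx) _ hh
      have e : x⁻¹ * (x * h * x⁻¹) * x⁻¹⁻¹ = h := by group
      rwa [e] at h2
  have gen : ∀ x : G, (∀ y ∈ Y, ∀ k ∈ K, x * ⁅y, k⁆ * x⁻¹ ∈ ⁅Y, K⁆) →
      ∀ h ∈ ⁅Y, K⁆, x * h * x⁻¹ ∈ ⁅Y, K⁆ := by
    intro x hx h hh
    have hh' : h ∈ closure {g | ∃ g₁ ∈ Y, ∃ g₂ ∈ K, ⁅g₁, g₂⁆ = g} := by
      rw [← Subgroup.commutator_def]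
      exact hh
    refine Subgroup.closure_induction (p := fun g _ => x * g * x⁻¹ ∈ ⁅Y, K⁆) ?_ ?_ ?_ ?_ hh'
    · rintro g ⟨y, hy, k, hk, rfl⟩
      exact hx y hy k hk
    · rw [mul_one, mul_inv_cancel]
      exact Subgroup.one_mem _
    · intro a b _ _ ha hb
      have e : x * (a * b) * x⁻¹ = (x * a * x⁻¹) * (x * b * x⁻¹) := by group
      rw [e]
      exact Subgroup.mul_mem _ ha hb
    · intro a _ ha
      have e : x * a⁻¹ * x⁻¹ = (x * a * x⁻¹)⁻¹ := by group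
      rw [e]
      exact Subgroup.inv_mem _ ha
  refine ⟨h1, key Y ?_, key K ?_⟩
  · intro y' hy'
    apply gen
    intro y hy k hk
    have e : y' * ⁅y, k⁆ * y'⁻¹ = ⁅y' * y, k⁆ * ⁅y', k⁆⁻¹ := by
      simp only [commutatorElement_def]
      group
    rw [e]
    exact Subgroup.mul_mem _ (Subgroup.commutator_mem_commutator (Y.mul_mem hy' hy) hk)
      (Subgroup.inv_mem _ (Subgroup.commutator_mem_commutator hy' hk))
  · intro k' hk'
    apply gen
    intro y hy k hk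
    have e : k' * ⁅y, k⁆ * k'⁻¹ = ⁅k' * y * k'⁻¹, k' * k * k'⁻¹⁆ := by
      simp only [commutatorElement_def]
      group
    rw [e]
    exact Subgroup.commutator_mem_commutator (hKY k' hk' y hy)
      (K.mul_mem (K.mul_mem hk' hk) (K.inv_mem hk'))

end Cfsg.Agent.Helper72.N9
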