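import Mathlib
import Cfsg.Agent.Helper9.OrdTools
import Cfsg.Agent.Helper9.OrdTools2
import Cfsg.Agent.Helper9.OrdCount
import Cfsg.Agent.Helper8.SylFix
import Cfsg.Agent.Helper8.SylSub
import Cfsg.Agent.Helper82.SylCent

/-!
# Packaged Sylow data for simple groups with a Sylow subgroup of prime order (helper72)

Used for the ad hoc orders of CALL S0983.

* `o983_data`: for `|G| = p m`, `p ∤ m`, the numbers `n = n_p`, `e = |N(P) : C(P)|`,
  `c = |C(P)| / p` satisfy `n ∣ m`, `n ≡ 1 (mod p)`, `n ≠ 1`, `1 < e ∣ p - 1`, `e c n = m`;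
* `o983_ruleT`: a prime `r ≠ p` dividing `|C(P)|` satisfies `r p + 1 ≤ n_p`;
* `o983_swap`: a prime `r` dividing `|C(P)|` whose Sylow subgroups have order `r`:
  `|P|` divides the order of the centralizer of every Sylow `r`-subgroup;
* `o983_count`: the number of elements of order `p` is at least `n_p (p - 1)`;
* `o983_sum_le`: the numbers of elements of pairwise different orders add up to at most `|G|`.
-/

set_option autoImplicit false
set_option linter.style.haveILetI false

namespace Cfsg.Agent.Helper72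

open Subgroup

variable {G : Type*} [Group G] [Finite G]

/-- Sylow data for a Sylow subgroup of prime order in a simple group. -/
theorem o983_data [IsSimpleGroup G] {p : ℕ} [Fact p.Prime] (m : ℕ) (hcard : Nat.card G = p * m)
    (hm : ¬ p ∣ m) (hm1 : 1 < m) (P : Sylow p G) :
    Nat.card (P : Subgroup G) = p ∧
    ∃ e c, Nat.card (Sylow p G) ∣ m ∧ Nat.card (Sylow p G) % p = 1 ∧
      Nat.card (Sylow p G) ≠ 1 ∧ e ∣ p - 1 ∧ 1 < e ∧ e * c * Nat.card (Sylow p G) = m ∧
      Nat.card (centralizer ((P : Subgroup G) : Set G)) = p * c ∧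
      Nat.card (normalizer ((P : Subgroup G) : Set G)) = e * (p * c) := by
  have hp : p.Prime := Fact.out
  have hP : Nat.card (P : Subgroup G) = p := by
    have := Cfsg.Agent.Helper9.OrdTools.sylow_card 1 m (by rw [hcard, pow_one]) hm P
    simpa using this
  refine ⟨hP, ?_⟩
  have hlt : p < Nat.card G := by
    rw [hcard]
    exact lt_mul_of_one_lt_right hp.pos hm1
  obtain ⟨hd, hmod, hne, hN⟩ := Cfsg.Agent.Helper9.OrdTools.sylow_num P
    (by rw [hP]; exact hp.one_lt) (by rw [hP]; exact hlt)
  have hidx : (P : Subgroup G).index = m := by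
    have := (P : Subgroup G).card_mul_index
    rw [hP, hcard] at this
    exact Nat.eq_of_mul_eq_mul_left hp.pos this
  rw [hidx] at hd
  obtain ⟨e, he, he1, hNe, ⟨c, hc⟩⟩ :=
    Cfsg.Agent.Helper9.OrdTools.normalizer_centralizer_prime P hP hlt
  refine ⟨e, c, hd, hmod, hne, he, he1, ?_, hc, ?_⟩
  · rw [hNe, hc, hcard] at hN
    have : p * (e * c * Nat.card (Sylow p G)) = p * m := by
      rw [← hN]; ring
    exact Nat.eq_of_mul_eq_mul_left hp.pos this
  · rw [hNe, hc]

/-- RULE T for a prime dividing the order of the centralizer of a Sylow subgroup. -/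
theorem o983_ruleT [IsSimpleGroup G] {p r : ℕ} [Fact p.Prime] [Fact r.Prime] (hrp : r ≠ p)
    (P : Sylow p G) (hr : r ∣ Nat.card (centralizer ((P : Subgroup G) : Set G)))
    (h1 : Nat.card (Sylow p G) ≠ 1) : r * p + 1 ≤ Nat.card (Sylow p G) := by
  obtain ⟨y, hy⟩ := exists_prime_orderOf_dvd_card' (G := centralizer ((P : Subgroup G) : Set G))
    r hr
  have hyo : orderOf (y : G) = r := by rw [Subgroup.orderOf_coe]; exact hy
  have hpos : 0 < Nat.card (Sylow p G) := Nat.card_pos
  exact Cfsg.Agent.Helper82.prime_mul_lt_card_sylow hrp P (y : G) y.2 hyo (by omega)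

/-- a prime `r` dividing `|C(P)|` whose Sylow subgroups have order `r`: `|P|` divides the order
of the centralizer of every Sylow `r`-subgroup. -/
theorem o983_swap {p r : ℕ} [Fact p.Prime] [Fact r.Prime]
    (hS : ∀ Q : Sylow r G, Nat.card (Q : Subgroup G) = r)
    (P : Sylow p G) (hr : r ∣ Nat.card (centralizer ((P : Subgroup G) : Set G)))
    (Q : Sylow r G) :
    Nat.card (P : Subgroup G) ∣ Nat.card (centralizer ((Q : Subgroup G) : Set G)) := by
  obtain ⟨y, hy⟩ := exists_prime_orderOf_dvd_card' (G := centralizer ((P : Subgroup G) : Set G))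
    r hr
  have hyo : orderOf (y : G) = r := by rw [Subgroup.orderOf_coe]; exact hy
  obtain ⟨Q', hQ'⟩ := Cfsg.Agent.Helper9.OrdTools.exists_sylow_of_orderOf hS hyo
  rw [Cfsg.Agent.Helper9.OrdTools.card_centralizer_sylow_eq Q Q']
  apply Subgroup.card_dvd_of_le
  intro x hx
  rw [← hQ', Subgroup.mem_centralizer_iff]
  intro w hw
  obtain ⟨k, rfl⟩ := Subgroup.mem_zpowers_iff.mp hw
  have h1 : Commute (y : G) x := (Subgroup.mem_centralizer_iff.mp y.2 x hx).symm
  exact (h1.zpow_left k).eq

/-- the number of elements of order `p` is at least `n_p (p - 1)` when the Sylow `p`-subgroups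
have order `p`. -/
theorem o983_count {p : ℕ} [Fact p.Prime]
    (hS : ∀ P : Sylow p G, Nat.card (P : Subgroup G) = p) :
    Nat.card (Sylow p G) * (p - 1) ≤ Nat.card {g : G // orderOf g = p} := by
  have hp : p.Prime := Fact.out
  have h1 := Cfsg.Agent.Helper9.OrdTools.card_ti_ge (G := G) (ι := Sylow p G)
    (fun P => (P : Subgroup G)) p hS (by
      intro P Q hPQ g hgP hgQ
      by_contra hg1
      apply hPQ
      have e1 := Cfsg.Agent.Helper9.OrdTools.zpowers_eq_sylow P (hS P) hgP hg1
      have e2 := Cfsg.Agent.Helper9.OrdTools.zpowers_eq_sylow Q (hS Q) hgQ hg1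
      exact Sylow.ext (e1.symm.trans e2))
  refine h1.trans (Cfsg.Agent.Helper9.OrdTools.card_mono _ _ ?_)
  rintro g ⟨hg1, P, hgP⟩
  have h2 : orderOf g ∣ p := by
    have := orderOf_dvd_natCard (⟨g, hgP⟩ : (P : Subgroup G))
    rwa [hS P, ← Subgroup.orderOf_coe] at this
  rcases (Nat.dvd_prime hp).mp h2 with h3 | h3
  · exact absurd (orderOf_eq_one_iff.mp h3) hg1
  · exact h3

/-- the numbers of elements of pairwise different orders add up to at most `|G|`. -/
theorem o983_sum_le (s : Finset ℕ) :
    ∑ n ∈ s, Nat.card {g : G // orderOf g = n} ≤ Nat.card G := by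
  classical
  haveI : Fintype G := Fintype.ofFinite G
  have h1 : ∀ n, Nat.card {g : G // orderOf g = n} =
      (Finset.univ.filter (fun g : G => orderOf g = n)).card := by
    intro n
    rw [Nat.card_eq_fintype_card, Fintype.card_subtype]
  simp_rw [h1]
  rw [← Finset.card_biUnion]
  · rw [Nat.card_eq_fintype_card]
    exact Finset.card_le_univ _
  · intro a _ b _ hab
    rw [Function.onFun, Finset.disjoint_filter]
    intro g _ h2 h3
    exact hab (h2.symm.trans h3)

end Cfsg.Agent.Helper72

namespace Cfsg.Agent.Helper72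

open Subgroup

/-- a simple group with `n_p ≠ 1` has order dividing `n_p !`. -/
theorem o983_fact {G : Type*} [Group G] [Finite G] [IsSimpleGroup G] {p : ℕ} [Fact p.Prime]
    (h1 : Nat.card (Sylow p G) ≠ 1) : Nat.card G ∣ (Nat.card (Sylow p G)).factorial := by
  obtain ⟨P⟩ : Nonempty (Sylow p G) := inferInstance
  have hidx : (normalizer ((P : Subgroup G) : Set G)).index = Nat.card (Sylow p G) :=
    (Sylow.card_eq_index_normalizer P).symm
  have htop : normalizer ((P : Subgroup G) : Set G) ≠ ⊤ := by
    intro hh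
    rw [hh, Subgroup.index_top] at hidx
    exact h1 hidx.symm
  have := Cfsg.Agent.Helper9.OrdTools.card_dvd_factorial_index _ htop
  rwa [hidx] at this

end Cfsg.Agent.Helper72
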