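import Cfsg.Agent.Helper35.CoprimeSylow

/-!
# Coprime action given as a `MulDistribMulAction` (helper72)

Transfer of `Helper35.exists_invariant_sylow` (internal coprime action) to an abstract action
of `A` on `G`, through the semidirect product.
-/

set_option autoImplicit false

namespace Cfsg.Agent.Helper72

open Subgroup

section
universe u v
variable {A : Type u} {G : Type v} [Group A] [Finite A] [Group G] [Finite G]
  [MulDistribMulAction A G]

/-- Under a coprime action (with `A` or `G` solvable) there is an `A`-invariant Sylow
`p`-subgroup of `G`. -/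
theorem coprimeAct_exists_invariant_sylow (hcop : (Nat.card A).Coprime (Nat.card G))
    (hsol : Group.IsSolvable A ∨ Group.IsSolvable G) (p : ℕ) [Fact p.Prime] :
    ∃ P : Sylow p G, ∀ a : A, ∀ x ∈ P, a • x ∈ P := by
  let Γ := G ⋊[MulDistribMulAction.toMulAut A G] A
  let iG : G →* Γ := SemidirectProduct.inl
  let iA : A →* Γ := SemidirectProduct.inr
  have hiG : Function.Injective iG := SemidirectProduct.inl_injective
  have hiA : Function.Injective iA := SemidirectProduct.inr_injective
  have : Finite Γ := Finite.of_equiv (G × A) SemidirectProduct.equivProd.symm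
  have hnormal : iG.range.Normal := by
    have : iG.range = (SemidirectProduct.rightHom : Γ →* A).ker :=
      SemidirectProduct.range_inl_eq_ker_rightHom
    rw [this]; infer_instance
  have hnorm : iA.range ≤ normalizer (iG.range : Set Γ) := by
    rw [Subgroup.normalizer_eq_top]; exact le_top
  have hcardG : Nat.card iG.range = Nat.card G :=
    Nat.card_congr (Equiv.ofInjective iG hiG).symm
  have hcardA : Nat.card iA.range = Nat.card A :=
    Nat.card_congr (Equiv.ofInjective iA hiA).symm
  have hcop' : (Nat.card iA.range).Coprime (Nat.card iG.range) := by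
    rw [hcardG, hcardA]; exact hcop
  have hsol' : Group.IsSolvable iA.range ∨ Group.IsSolvable iG.range := by
    rcases hsol with h | h
    · left
      exact Group.isSolvable_of_surjective (f := iA.rangeRestrict) iA.rangeRestrict_surjective
    · right
      exact Group.isSolvable_of_surjective (f := iG.rangeRestrict) iG.rangeRestrict_surjective
  obtain ⟨P, hP, hPA⟩ := Helper35.exists_invariant_sylow hnorm hcop' hsol' p
  have hPle : P ≤ iG.range := hP.1
  have hPcard : Nat.card P = p ^ (Nat.card G).factorization p := by
    rw [hP.2, hcardG]
  have hmap : (P.comap iG).map iG = P := Subgroup.map_comap_eq_self hPle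
  have hQcard : Nat.card (P.comap iG) = Nat.card P := by
    conv_rhs => rw [← hmap]
    exact (Subgroup.card_map_of_injective hiG).symm
  refine ⟨Sylow.ofCard (P.comap iG) (by rw [hQcard, hPcard]), ?_⟩
  intro a x hx
  have hx' : iG x ∈ P := hx
  show iG (a • x) ∈ P
  have h1 : iG (a • x) = iA a * iG x * (iA a)⁻¹ := by
    have := SemidirectProduct.inl_aut (φ := MulDistribMulAction.toMulAut A G) a x
    rw [map_inv] at this
    exact this
  rw [h1]
  have ha : iA a ∈ normalizer (P : Set Γ) := hPA ⟨a, rfl⟩
  exact (Subgroup.mem_normalizer_iff.mp ha (iG x)).mp hx'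

end

end Cfsg.Agent.Helper72
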