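import Mathlib
import Cfsg.Agent.Helper72.CaminaHerzog

/-!
# Camina–Herzog for fusion systems: the abstract automorphism-group core (helper72)

`no_max_aut`: a finite group `C`, a group `A` of automorphisms of `C` with a Sylow `2`-subgroup `T`,
and a set `W` of elements fixed by `T` such that a fixed point in `Z(C)` of an element of `T` acting
nontrivially on `Z(C)` lies in `W`.  Then no `τ, α ∈ A` and `x ∈ Z(C)` exist with `τ` an involution
on `Z(C)` moving `x` by "involution translations" and `α x ∈ W`.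
-/

set_option autoImplicit false

namespace Cfsg.Agent.Helper72

section abstractF4
variable {C : Type*} [Group C] [Finite C]

omit [Finite C] in
theorem mulAut_map_center (a : MulAut C) {u : C} (hu : u ∈ Subgroup.center C) :
    a u ∈ Subgroup.center C := by
  rw [Subgroup.mem_center_iff] at hu ⊢
  intro g
  have h1 := hu (a⁻¹ g)
  have h2 := congrArg a h1
  rw [map_mul, map_mul, MulAut.apply_inv_self] at h2
  exact h2

/-- The abstract core of step F4 of the Camina–Herzog argument. -/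
theorem no_max_aut (A : Subgroup (MulAut C)) (T : Sylow 2 A) (W : Set C)
    (h1 : ∀ t : A, t ∈ (T : Subgroup A) → ∀ u ∈ W, (t : MulAut C) u = u)
    (h2 : ∀ t : A, t ∈ (T : Subgroup A) → ∀ u ∈ Subgroup.center C, (t : MulAut C) u = u →
      (∃ v ∈ Subgroup.center C, (t : MulAut C) v ≠ v) → u ∈ W)
    (τ α : MulAut C) (hτ : τ ∈ A) (hα : α ∈ A) (x : C) (hx : x ∈ Subgroup.center C)
    (hτ2 : ∀ u ∈ Subgroup.center C, τ (τ u) = u) (hτx : τ x ≠ x) (hαx : α x ∈ W)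
    (h5 : ∀ u ∈ Subgroup.center C, (u⁻¹ * τ u) * (u⁻¹ * τ u) = 1)
    (h6 : ∀ e : C, e * e = 1 → e ∈ W)
    (h7 : ∀ u ∈ W, τ u = u) : False := by
  have : Fact (Nat.Prime 2) := ⟨Nat.prime_two⟩
  classical
  -- the kernel of the action on `Z(C)`
  obtain ⟨K, hK⟩ : ∃ K : Subgroup A, ∀ a : A, a ∈ K ↔
      ∀ u ∈ Subgroup.center C, (a : MulAut C) u = u := by
    refine ⟨{ carrier := {a | ∀ u ∈ Subgroup.center C, (a : MulAut C) u = u}
              one_mem' := fun u _ => rfl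
              mul_mem' := ?_
              inv_mem' := ?_ }, fun a => Iff.rfl⟩
    · intro a b ha hb u hu
      show (a : MulAut C) ((b : MulAut C) u) = u
      rw [hb u hu, ha u hu]
    · intro a ha u hu
      show (a : MulAut C)⁻¹ u = u
      have := ha u hu
      conv_lhs => rw [← this]
      exact MulAut.inv_apply_self _ _ _
  have hKn : K.Normal := by
    constructor
    intro a ha b
    rw [hK] at ha ⊢
    intro u hu
    show (b : MulAut C) ((a : MulAut C) ((b : MulAut C)⁻¹ u)) = u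
    rw [ha _ (mulAut_map_center _ hu)]
    exact MulAut.apply_inv_self _ _ _
  obtain ⟨ρ, hρdef⟩ : ∃ ρ : A →* A ⧸ K, ρ = QuotientGroup.mk' K := ⟨_, rfl⟩
  have hρ : ∀ a b : A, ρ a = ρ b ↔
      ∀ u ∈ Subgroup.center C, (a : MulAut C) u = (b : MulAut C) u := by
    intro a b
    rw [hρdef]
    show ((a : A ⧸ K) = (b : A ⧸ K)) ↔ _
    rw [QuotientGroup.eq, hK]
    constructor
    · intro h u hu
      have h3 := h u hu
      have h4 : ((a⁻¹ * b : A) : MulAut C) u = (a : MulAut C)⁻¹ ((b : MulAut C) u) := rfl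
      rw [h4] at h3
      have h5 := congrArg (fun c => (a : MulAut C) c) h3
      simp only [MulAut.apply_inv_self] at h5
      exact h5.symm
    · intro h u hu
      show (a : MulAut C)⁻¹ ((b : MulAut C) u) = u
      rw [← h u hu]
      exact MulAut.inv_apply_self _ _ _
  -- the two "translations by involutions"
  have hf : ∀ u ∈ Subgroup.center C, ∃ e ∈ Subgroup.center C, e * e = 1 ∧ τ u = u * e := by
    intro u hu
    refine ⟨u⁻¹ * τ u, Subgroup.mul_mem _ (Subgroup.inv_mem _ hu) (mulAut_map_center τ hu),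
      h5 u hu, by group⟩
  have hτinv : ∀ e : C, e * e = 1 → τ e = e := fun e he => h7 e (h6 e he)
  have hαinv : ∀ e : C, e * e = 1 → α e * α e = 1 := by
    intro e he
    rw [← map_mul, he, map_one]
  have hαinv' : ∀ e : C, e * e = 1 → α⁻¹ e * α⁻¹ e = 1 := by
    intro e he
    rw [← map_mul, he, map_one]
  obtain ⟨τ₁, hτ₁def⟩ : ∃ τ₁ : MulAut C, τ₁ = α⁻¹ * τ * α := ⟨_, rfl⟩
  have hτ₁app : ∀ u : C, τ₁ u = α⁻¹ (τ (α u)) := by
    intro u; rw [hτ₁def]; rfl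
  have hτ₁A : τ₁ ∈ A := by
    rw [hτ₁def]
    exact A.mul_mem (A.mul_mem (A.inv_mem hα) hτ) hα
  have hτ₁inv : ∀ e : C, e * e = 1 → τ₁ e = e := by
    intro e he
    rw [hτ₁app, hτinv _ (hαinv e he)]
    exact MulAut.inv_apply_self _ _ _
  have hf₁ : ∀ u ∈ Subgroup.center C, ∃ e : C, e * e = 1 ∧ τ₁ u = u * e := by
    intro u hu
    obtain ⟨e₀, -, he₀, h⟩ := hf (α u) (mulAut_map_center α hu)
    refine ⟨α⁻¹ e₀, hαinv' e₀ he₀, ?_⟩
    rw [hτ₁app, h, map_mul]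
    congr 1
    exact MulAut.inv_apply_self _ _ _
  have hcomm : ∀ u ∈ Subgroup.center C, τ (τ₁ u) = τ₁ (τ u) := by
    intro u hu
    obtain ⟨e, heZ, he, hτu⟩ := hf u hu
    obtain ⟨e₁, he₁, hτ₁u⟩ := hf₁ u hu
    rw [hτ₁u, hτu, map_mul, map_mul, hτu, hτ₁u, hτinv e₁ he₁, hτ₁inv e he, mul_assoc, mul_assoc]
    congr 1
    exact (Subgroup.mem_center_iff.mp heZ e₁).symm
  have hτ₁2 : ∀ u ∈ Subgroup.center C, τ₁ (τ₁ u) = u := by
    intro u hu
    rw [hτ₁app, hτ₁app]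
    have : α (α⁻¹ (τ (α u))) = τ (α u) := MulAut.apply_inv_self _ _ _
    rw [this, hτ2 _ (mulAut_map_center α hu)]
    exact MulAut.inv_apply_self _ _ _
  have hτ₁x : τ₁ x = x := by
    rw [hτ₁app, h7 _ hαx]
    exact MulAut.inv_apply_self _ _ _
  -- images in `A ⧸ K`
  have hρτ2 : ρ ⟨τ, hτ⟩ * ρ ⟨τ, hτ⟩ = 1 := by
    rw [← map_mul, ← map_one ρ, hρ]
    intro u hu
    exact hτ2 u hu
  have hρτ₁2 : ρ ⟨τ₁, hτ₁A⟩ * ρ ⟨τ₁, hτ₁A⟩ = 1 := by
    rw [← map_mul, ← map_one ρ, hρ]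
    intro u hu
    exact hτ₁2 u hu
  have hρcomm : ρ ⟨τ, hτ⟩ * ρ ⟨τ₁, hτ₁A⟩ = ρ ⟨τ₁, hτ₁A⟩ * ρ ⟨τ, hτ⟩ := by
    rw [← map_mul, ← map_mul, hρ]
    intro u hu
    exact hcomm u hu
  have hV : IsPGroup 2 ↥(Subgroup.zpowers (ρ ⟨τ, hτ⟩) ⊔ Subgroup.zpowers (ρ ⟨τ₁, hτ₁A⟩)) :=
    IsPGroup.to_sup_of_normal_right' (isPGroup_zpowers_of_sq hρτ2) (isPGroup_zpowers_of_sq hρτ₁2)
      (zpowers_le_normalizer_of_commute hρcomm)
  obtain ⟨m, t₁, ht₁, t₂, ht₂, e₁, e₂⟩ := exists_common_conj ρ ⟨τ, hτ⟩ ⟨τ₁, hτ₁A⟩ hV T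
  rw [hρ] at e₁ e₂
  have e₁' : ∀ u ∈ Subgroup.center C,
      τ u = (m : MulAut C) ((t₁ : MulAut C) ((m : MulAut C)⁻¹ u)) := fun u hu => e₁ u hu
  have e₂' : ∀ u ∈ Subgroup.center C,
      τ₁ u = (m : MulAut C) ((t₂ : MulAut C) ((m : MulAut C)⁻¹ u)) := fun u hu => e₂ u hu
  have hx' : (m : MulAut C)⁻¹ x ∈ Subgroup.center C := mulAut_map_center _ hx
  have ht₂x : (t₂ : MulAut C) ((m : MulAut C)⁻¹ x) = (m : MulAut C)⁻¹ x := by
    have h3 := e₂' x hx
    rw [hτ₁x] at h3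
    have h4 := congrArg (fun c => (m : MulAut C)⁻¹ c) h3
    simp only [MulAut.inv_apply_self] at h4
    exact h4.symm
  have ht₂ne : ∃ v ∈ Subgroup.center C, (t₂ : MulAut C) v ≠ v := by
    by_contra hcon
    push Not at hcon
    have hαx' : α⁻¹ x ∈ Subgroup.center C := mulAut_map_center _ hx
    have h3 := e₂' _ hαx'
    rw [hcon _ (mulAut_map_center _ hαx'), MulAut.apply_inv_self, hτ₁app,
      MulAut.apply_inv_self] at h3
    exact hτx (α⁻¹.injective h3)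
  have hx'W := h2 t₂ ht₂ _ hx' ht₂x ht₂ne
  have h8 := e₁' x hx
  rw [h1 t₁ ht₁ _ hx'W, MulAut.apply_inv_self] at h8
  exact hτx h8

end abstractF4

end Cfsg.Agent.Helper72
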