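import Mathlib
import Cfsg.Prelude.Def_FusionSystem
import Cfsg.Agent.Helper88.Fusion
import Cfsg.Agent.Helper84.FusionSat2
import Cfsg.Agent.Helper72.FusCHa

/-!
# Camina–Herzog for fusion systems: steps F1–F3 (helper72)

`F` a saturated fusion system over a finite `2`-group `S` in which every element of `S` is
`F`-conjugate into `Z(S)`.

* `fus_f1`: `N_S(⟨w⟩) = C_S(w)`;
* `fus_invol_commute`: involutions of `S` commute;
* `fus_invol_central`: involutions of `S` are central in `S`.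
-/

set_option autoImplicit false

namespace Cfsg.Agent.Helper72

open Cfsg Cfsg.FusionSystem Cfsg.Agent.Helper88

section fusionCH
variable {Ω : Type*} [Group Ω] {S : Subgroup Ω}

/-- Every element of `S` is `F`-conjugate to an element of `Z(S)`. -/
def CentralFus (F : FusionSystem S) : Prop :=
  ∀ x ∈ S, ∃ z ∈ S ⊓ Subgroup.centralizer (S : Set Ω), F.IsConjElt x z

theorem isMap_map_zpow {F : FusionSystem S} {P : Subgroup Ω} {f : Ω → Ω} (hf : IsMap F P f) {x : Ω}
    (hx : x ∈ P) (n : ℤ) : f (x ^ n) = f x ^ n := by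
  obtain ⟨φ, -, hφf⟩ := hf
  have h1 : φ (⟨x, hx⟩ ^ n) = (φ ⟨x, hx⟩) ^ n := map_zpow φ _ n
  have h2 := hφf (⟨x, hx⟩ ^ n)
  rw [h1, hφf ⟨x, hx⟩] at h2
  have h3 : (((⟨x, hx⟩ : P) ^ n : P) : Ω) = x ^ n := Subgroup.coe_zpow _ _ _
  rw [h3] at h2
  exact h2.symm

theorem isMap_map_pow {F : FusionSystem S} {P : Subgroup Ω} {f : Ω → Ω} (hf : IsMap F P f) {x : Ω}
    (hx : x ∈ P) (n : ℕ) : f (x ^ n) = f x ^ n := by
  have := isMap_map_zpow hf hx (n : ℤ)
  simpa using this

/-- A subgroup of `Z(S)` is fully automized and receptive in a saturated fusion system. -/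
theorem central_sat [Finite S] (hS : IsPGroup 2 S) (F : FusionSystem S) (hF : F.IsSaturated 2)
    {P : Subgroup Ω} (hP : P ≤ S ⊓ Subgroup.centralizer (S : Set Ω)) :
    F.IsFullyAutomized 2 P ∧ F.IsReceptive P := by
  have : Fact (Nat.Prime 2) := ⟨Nat.prime_two⟩
  have hPS : P ≤ S := hP.trans inf_le_left
  have hN : normalizerIn S P = S := by
    apply le_antisymm inf_le_left
    intro s hs
    refine mem_normalizerIn_iff.mpr ⟨hs, ?_⟩
    apply Subgroup.centralizer_le_normalizer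
    rw [Subgroup.mem_centralizer_iff]
    intro p hp
    exact ((Subgroup.mem_centralizer_iff.mp (hP hp).2) s hs).symm
  have hFN : F.IsFullyNormalized P := by
    refine ⟨hPS, fun Q _ => ?_⟩
    rw [hN]
    exact Subgroup.card_le_of_le (Helper84.normalizerIn_le_S S Q)
  exact Helper84.saturated_fullyNormalized hS F hF hFN

/-- For `x ∈ S` some map of the system defined on `N_S(⟨x⟩)` sends `x` into `Z(S)`. -/
theorem exists_map_central [Finite S] (hS : IsPGroup 2 S) (F : FusionSystem S)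
    (hF : F.IsSaturated 2) (h : CentralFus F) {x : Ω} (hx : x ∈ S) :
    ∃ f, IsMap F (normalizerIn S (Subgroup.zpowers x)) f ∧
      f x ∈ S ⊓ Subgroup.centralizer (S : Set Ω) := by
  have : Fact (Nat.Prime 2) := ⟨Nat.prime_two⟩
  obtain ⟨z, hz, φ, hφ, hφx⟩ := h x hx
  have hrange : φ.range ≤ S ⊓ Subgroup.centralizer (S : Set Ω) := by
    rintro _ ⟨p, rfl⟩
    obtain ⟨i, hi⟩ := Subgroup.mem_zpowers_iff.mp p.2
    have hp : p = (⟨x, Subgroup.mem_zpowers x⟩ : Subgroup.zpowers x) ^ i := by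
      apply Subtype.ext
      rw [Subgroup.coe_zpow]
      exact hi.symm
    rw [hp, map_zpow, hφx]
    exact Subgroup.zpow_mem _ hz i
  obtain ⟨hA, hR⟩ := central_sat hS F hF hrange
  obtain ⟨f, hf, himg⟩ := exists_normalizer_map hS hA hR ⟨φ, hφ, rfl⟩
  refine ⟨f, hf, ?_⟩
  have hxN : Subgroup.zpowers x ≤ normalizerIn S (Subgroup.zpowers x) :=
    Helper84.le_normalizerIn (Subgroup.zpowers_le.mpr hx)
  have h1 := (hf.restrict hxN).apply_mem_img (Subgroup.mem_zpowers x)
  rw [himg] at h1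
  exact hrange h1

/-- **F1.** An element of `S` normalizing `⟨w⟩` centralizes `w`. -/
theorem fus_f1 [Finite S] (hS : IsPGroup 2 S) (F : FusionSystem S) (hF : F.IsSaturated 2)
    (h : CentralFus F) {w g : Ω} (hw : w ∈ S) (hg : g ∈ S)
    (hgN : g ∈ Subgroup.normalizer ((Subgroup.zpowers w : Subgroup Ω) : Set Ω)) :
    g * w = w * g := by
  obtain ⟨f, hf, hfz⟩ := exists_map_central hS F hF h hw
  have hgN' : g ∈ normalizerIn S (Subgroup.zpowers w) := mem_normalizerIn_iff.mpr ⟨hg, hgN⟩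
  have hwN' : w ∈ normalizerIn S (Subgroup.zpowers w) :=
    Helper84.le_normalizerIn (Subgroup.zpowers_le.mpr hw) (Subgroup.mem_zpowers w)
  have h1 : f (g * w * g⁻¹) = f g * f w * (f g)⁻¹ := hf.map_conj hgN' hwN'
  have h2 : f g * f w * (f g)⁻¹ = f w := by
    have h3 := (Subgroup.mem_centralizer_iff.mp hfz.2) (f g) (hf.mem hgN')
    rw [h3, mul_inv_cancel_right]
  have h3 : g * w * g⁻¹ = w :=
    hf.inj (Subgroup.mul_mem _ (Subgroup.mul_mem _ hgN' hwN') (Subgroup.inv_mem _ hgN')) hwN'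
      (h1.trans h2)
  calc g * w = g * w * g⁻¹ * g := by group
    _ = w * g := by rw [h3]

theorem normalizes_of_inverts {r s : Ω} (h : s * r * s⁻¹ = r⁻¹) :
    s ∈ Subgroup.normalizer ((Subgroup.zpowers r : Subgroup Ω) : Set Ω) := by
  rw [Subgroup.mem_normalizer_iff]
  intro a
  constructor
  · intro ha
    obtain ⟨i, rfl⟩ := Subgroup.mem_zpowers_iff.mp ha
    rw [← conj_zpow, h]
    exact Subgroup.zpow_mem _ (Subgroup.inv_mem _ (Subgroup.mem_zpowers r)) i
  · intro ha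
    obtain ⟨i, hi⟩ := Subgroup.mem_zpowers_iff.mp ha
    have h' : s⁻¹ * r * s = r⁻¹ := by
      have h0 : r = s⁻¹ * r⁻¹ * s := by rw [← h]; group
      calc s⁻¹ * r * s = (s⁻¹ * r⁻¹ * s)⁻¹ := by group
        _ = r⁻¹ := by rw [← h0]
    have h1 : a = (s⁻¹ * r * s) ^ i := by
      have hc := conj_zpow (a := s⁻¹) (b := r) (i := i)
      rw [inv_inv] at hc
      rw [hc, hi]
      group
    rw [h1, h']
    exact Subgroup.zpow_mem _ (Subgroup.inv_mem _ (Subgroup.mem_zpowers r)) i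

/-- An element of `S` inverted by an element of `S` has order at most `2`. -/
theorem invol_of_inverts [Finite S] (hS : IsPGroup 2 S) (F : FusionSystem S)
    (hF : F.IsSaturated 2) (h : CentralFus F) {w g : Ω} (hw : w ∈ S) (hg : g ∈ S)
    (hinv : g * w * g⁻¹ = w⁻¹) : w * w = 1 := by
  have hc := fus_f1 hS F hF h hw hg (normalizes_of_inverts hinv)
  have h1 : w⁻¹ = w := by rw [← hinv, hc, mul_inv_cancel_right]
  calc w * w = w⁻¹ * w := by rw [h1]
    _ = 1 := inv_mul_cancel w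

/-- **F2.** Two involutions of `S` commute. -/
theorem fus_invol_commute [Finite S] (hS : IsPGroup 2 S) (F : FusionSystem S)
    (hF : F.IsSaturated 2) (h : CentralFus F) {s t : Ω} (hs : s ∈ S) (ht : t ∈ S)
    (hs2 : s * s = 1) (ht2 : t * t = 1) : s * t = t * s := by
  have hsinv : s⁻¹ = s := inv_eq_of_mul_eq_one_left hs2
  have htinv : t⁻¹ = t := inv_eq_of_mul_eq_one_left ht2
  have hconj : s * (s * t) * s⁻¹ = (s * t)⁻¹ := by
    rw [mul_inv_rev, hsinv, htinv, ← mul_assoc, hs2, one_mul]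
  have h2 := invol_of_inverts hS F hF h (S.mul_mem hs ht) hs hconj
  symm
  calc t * s = (s * s) * (t * s) * (t * t) := by rw [hs2, ht2, one_mul, mul_one]
    _ = s * ((s * t) * (s * t)) * t := by group
    _ = s * t := by rw [h2, mul_one]

/-- `Ω₁(S)`: the elements of order at most `2` of `S`, a subgroup when involutions commute. -/
def fusOmega (S : Subgroup Ω)
    (hcomm : ∀ a ∈ S, ∀ b ∈ S, a * a = 1 → b * b = 1 → a * b = b * a) : Subgroup Ω where
  carrier := {v | v ∈ S ∧ v * v = 1}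
  one_mem' := ⟨Subgroup.one_mem _, mul_one 1⟩
  mul_mem' := by
    rintro a b ⟨ha, ha2⟩ ⟨hb, hb2⟩
    refine ⟨Subgroup.mul_mem _ ha hb, ?_⟩
    have hab := hcomm a ha b hb ha2 hb2
    calc a * b * (a * b) = a * (b * a) * b := by group
      _ = a * (a * b) * b := by rw [hab]
      _ = (a * a) * (b * b) := by group
      _ = 1 := by rw [ha2, hb2, mul_one]
  inv_mem' := by
    rintro a ⟨ha, ha2⟩
    have : a⁻¹ = a := inv_eq_of_mul_eq_one_left ha2
    rw [this]
    exact ⟨ha, ha2⟩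

theorem mem_fusOmega (S : Subgroup Ω)
    (hcomm : ∀ a ∈ S, ∀ b ∈ S, a * a = 1 → b * b = 1 → a * b = b * a) {v : Ω} :
    v ∈ fusOmega S hcomm ↔ v ∈ S ∧ v * v = 1 := Iff.rfl

/-- Maps of the system defined on a subgroup containing `Ω₁(S)` permute `Ω₁(S)`. -/
theorem fusOmega_map [Finite S] {F : FusionSystem S}
    (hcomm : ∀ a ∈ S, ∀ b ∈ S, a * a = 1 → b * b = 1 → a * b = b * a)
    {N : Subgroup Ω} {f : Ω → Ω} (hf : IsMap F N f) (hEN : fusOmega S hcomm ≤ N) :
    (∀ e ∈ fusOmega S hcomm, f e ∈ fusOmega S hcomm) ∧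
      (∀ e' ∈ fusOmega S hcomm, ∃ e ∈ fusOmega S hcomm, f e = e') := by
  have h1 : ∀ e ∈ fusOmega S hcomm, f e ∈ fusOmega S hcomm := by
    intro e he
    refine ⟨hf.mem (hEN he), ?_⟩
    rw [← hf.map_mul (hEN he) (hEN he), he.2, hf.map_one]
  refine ⟨h1, fun e' he' => ?_⟩
  have hr := hf.restrict hEN
  have h2 := hr.img_eq_of_mapsTo h1
  have h3 : e' ∈ img (fusOmega S hcomm) f := by rw [h2]; exact he'
  exact hr.mem_img.mp h3

/-- For `x ∈ S` some map of the system defined on `C_S(x)` sends `x` into `Z(S)`. -/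
theorem exists_map_centralizer [Finite S] (hS : IsPGroup 2 S) (F : FusionSystem S)
    (hF : F.IsSaturated 2) (h : CentralFus F) {x : Ω} (hx : x ∈ S) :
    ∃ θ, IsMap F (S ⊓ Subgroup.centralizer ({x} : Set Ω)) θ ∧
      θ x ∈ S ⊓ Subgroup.centralizer (S : Set Ω) := by
  obtain ⟨f, hf, hfz⟩ := exists_map_central hS F hF h hx
  refine ⟨f, hf.restrict ?_, hfz⟩
  intro c hc
  refine mem_normalizerIn_iff.mpr ⟨hc.1, ?_⟩
  have hcx : c * x = x * c := Subgroup.mem_centralizer_singleton_iff.mp hc.2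
  exact zpowers_le_normalizer_of_commute hcx (Subgroup.mem_zpowers c)

end fusionCH

end Cfsg.Agent.Helper72
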