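import Mathlib
import Cfsg.Agent.Helper72.FusCHb

/-!
# Camina–Herzog for fusion systems: step F3 (helper72)

`fus_invol_central`: in a saturated fusion system over a finite `2`-group `S` in which every element
is conjugate into `Z(S)`, the involutions of `S` are central in `S`.
-/

set_option autoImplicit false

namespace Cfsg.Agent.Helper72

open Cfsg Cfsg.FusionSystem Cfsg.Agent.Helper88

section fusionCH3
variable {Ω : Type*} [Group Ω] {S : Subgroup Ω}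

/-- The subgroup `⟨y⟩ E` for a subgroup `E` centralized by `y` (in any group). -/
def zpowMul (y : Ω) (E : Subgroup Ω) (hE : ∀ e ∈ E, y * e = e * y) : Subgroup Ω where
  carrier := {a | ∃ j : ℤ, ∃ e ∈ E, a = y ^ j * e}
  one_mem' := ⟨0, 1, E.one_mem, by simp⟩
  mul_mem' := by
    rintro _ _ ⟨j, e, he, rfl⟩ ⟨j', e', he', rfl⟩
    refine ⟨j + j', e * e', E.mul_mem he he', ?_⟩
    have hcomm : Commute e (y ^ j') := Commute.zpow_right (hE e he).symm j'
    calc y ^ j * e * (y ^ j' * e') = y ^ j * (e * y ^ j') * e' := by group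
      _ = y ^ j * (y ^ j' * e) * e' := by rw [hcomm.eq]
      _ = y ^ (j + j') * (e * e') := by rw [zpow_add]; group
  inv_mem' := by
    rintro _ ⟨j, e, he, rfl⟩
    refine ⟨-j, e⁻¹, E.inv_mem he, ?_⟩
    have hcomm : Commute e⁻¹ (y ^ (-j)) :=
      (Commute.inv_left (show Commute e y from (hE e he).symm)).zpow_right (-j)
    rw [mul_inv_rev, ← zpow_neg, hcomm.eq]

theorem mem_zpowMul (y : Ω) (E : Subgroup Ω) (hE : ∀ e ∈ E, y * e = e * y) {a : Ω} :
    a ∈ zpowMul y E hE ↔ ∃ j : ℤ, ∃ e ∈ E, a = y ^ j * e := Iff.rfl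

theorem mem_normalizer_of_invol {Y : Subgroup Ω} {w : Ω} (hw : w * w = 1)
    (h : ∀ a ∈ Y, w * a * w⁻¹ ∈ Y) : w ∈ Subgroup.normalizer (Y : Set Ω) := by
  rw [Subgroup.mem_normalizer_iff]
  intro a
  refine ⟨h a, fun ha => ?_⟩
  have hwinv : w⁻¹ = w := inv_eq_of_mul_eq_one_left hw
  have h1 := h _ ha
  have h2 : w * (w * a * w⁻¹) * w⁻¹ = a := by
    rw [hwinv]
    calc w * (w * a * w) * w = (w * w) * a * (w * w) := by group
      _ = a := by rw [hw, one_mul, mul_one]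
  rwa [h2] at h1

/-- **F3.** The involutions of `S` are central in `S`. -/
theorem fus_invol_central [Finite S] (hS : IsPGroup 2 S) (F : FusionSystem S)
    (hF : F.IsSaturated 2) (h : CentralFus F) :
    ∀ v ∈ S, v * v = 1 → ∀ u ∈ S, v * u = u * v := by
  have : Fact (Nat.Prime 2) := ⟨Nat.prime_two⟩
  classical
  have hcomm : ∀ a ∈ S, ∀ b ∈ S, a * a = 1 → b * b = 1 → a * b = b * a :=
    fun a ha b hb ha2 hb2 => fus_invol_commute hS F hF h ha hb ha2 hb2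
  by_contra hcon
  push Not at hcon
  obtain ⟨v₀, hv₀S, hv₀2, u₀, hu₀S, hne⟩ := hcon
  obtain ⟨E, hEdef⟩ : ∃ E : Subgroup Ω, E = fusOmega S hcomm := ⟨_, rfl⟩
  have hmemE : ∀ v : Ω, v ∈ E ↔ v ∈ S ∧ v * v = 1 := by
    intro v; rw [hEdef]; exact Iff.rfl
  have hES : E ≤ S := fun v hv => ((hmemE v).mp hv).1
  have hEcomm : ∀ a ∈ E, ∀ b ∈ E, a * b = b * a := fun a ha b hb =>
    hcomm a ((hmemE a).mp ha).1 b ((hmemE b).mp hb).1 ((hmemE a).mp ha).2 ((hmemE b).mp hb).2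
  have hmemCE : ∀ g : Ω, g ∈ Subgroup.centralizer ((E : Subgroup Ω) : Set Ω) ↔
      ∀ e ∈ E, e * g = g * e := fun g => Subgroup.mem_centralizer_iff
  have hu₀CE : u₀ ∉ Subgroup.centralizer ((E : Subgroup Ω) : Set Ω) := by
    intro h'
    exact hne ((hmemCE u₀).mp h' v₀ ((hmemE v₀).mpr ⟨hv₀S, hv₀2⟩))
  -- choose `y ∈ S` not centralizing `E` with `y² ∈ C(E)`
  obtain ⟨m, hm⟩ : ∃ m : ℕ, u₀ ^ (2 ^ m) = 1 := by
    obtain ⟨m, hm⟩ := hS ⟨u₀, hu₀S⟩
    exact ⟨m, by simpa using congrArg Subtype.val hm⟩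
  have hex : ∃ j : ℕ, u₀ ^ (2 ^ j) ∈ Subgroup.centralizer ((E : Subgroup Ω) : Set Ω) :=
    ⟨m, by rw [hm]; exact Subgroup.one_mem _⟩
  have hj0 : Nat.find hex ≠ 0 := by
    intro h0
    have := Nat.find_spec hex
    rw [h0, pow_zero, pow_one] at this
    exact hu₀CE this
  obtain ⟨j, hj⟩ := Nat.exists_eq_succ_of_ne_zero hj0
  obtain ⟨y, hydef⟩ : ∃ y : Ω, y = u₀ ^ (2 ^ j) := ⟨_, rfl⟩
  have hyS : y ∈ S := by rw [hydef]; exact Subgroup.pow_mem _ hu₀S _
  have hyCE : y ∉ Subgroup.centralizer ((E : Subgroup Ω) : Set Ω) := by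
    intro h'
    rw [hydef] at h'
    have := Nat.find_min' hex h'
    omega
  have hy2CE : y * y ∈ Subgroup.centralizer ((E : Subgroup Ω) : Set Ω) := by
    have := Nat.find_spec hex
    rw [hj, Nat.succ_eq_add_one, pow_succ, pow_mul, ← hydef, pow_two] at this
    exact this
  obtain ⟨k, hk⟩ : ∃ k : ℕ, orderOf y = 2 ^ k := by
    obtain ⟨k, hk⟩ := (IsPGroup.iff_orderOf.mp hS) ⟨y, hyS⟩
    exact ⟨k, by rw [← hk, Subgroup.orderOf_mk]⟩
  have hk2 : 2 ≤ k := by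
    by_contra hlt
    have hyy : y * y = 1 := by
      have hd : orderOf y ∣ 2 := by
        rw [hk]
        have : k = 0 ∨ k = 1 := by omega
        rcases this with rfl | rfl <;> norm_num
      have := orderOf_dvd_iff_pow_eq_one.mp hd
      rwa [pow_two] at this
    apply hyCE
    rw [hmemCE]
    intro e he
    exact hEcomm e he y ((hmemE y).mpr ⟨hyS, hyy⟩)
  have hypow : y ^ (2 ^ k) = 1 := by rw [← hk]; exact pow_orderOf_eq_one y
  -- `E_y = C_E(y)` and `Y = ⟨y⟩ E_y`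
  have hFy : ∀ e ∈ E ⊓ Subgroup.centralizer ({y} : Set Ω), y * e = e * y := by
    intro e he
    exact (Subgroup.mem_centralizer_singleton_iff.mp he.2).symm
  obtain ⟨Y, hYdef⟩ : ∃ Y : Subgroup Ω,
      Y = zpowMul y (E ⊓ Subgroup.centralizer ({y} : Set Ω)) hFy := ⟨_, rfl⟩
  have hmemY : ∀ a : Ω, a ∈ Y ↔ ∃ i : ℤ, ∃ e ∈ E ⊓ Subgroup.centralizer ({y} : Set Ω),
      a = y ^ i * e := by
    intro a
    rw [hYdef]
    exact Iff.rfl
  have hyY : y ∈ Y := (hmemY y).mpr ⟨1, 1, Subgroup.one_mem _, by simp⟩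
  have heY : ∀ e ∈ E ⊓ Subgroup.centralizer ({y} : Set Ω), e ∈ Y :=
    fun e he => (hmemY e).mpr ⟨0, e, he, by simp⟩
  have hYS : Y ≤ S := by
    intro a ha
    obtain ⟨i, e, he, rfl⟩ := (hmemY a).mp ha
    exact S.mul_mem (S.zpow_mem hyS i) (hES he.1)
  -- (1) `E` normalizes `Y`
  have hEN : E ≤ normalizerIn S Y := by
    intro w hw
    have hw' := (hmemE w).mp hw
    refine mem_normalizerIn_iff.mpr ⟨hw'.1, mem_normalizer_of_invol hw'.2 ?_⟩
    intro a ha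
    obtain ⟨i, e, he, rfl⟩ := (hmemY a).mp ha
    have hwinv : w⁻¹ = w := inv_eq_of_mul_eq_one_left hw'.2
    have hyyw : w * (y * y) = (y * y) * w := (hmemCE _).mp hy2CE w hw
    have hsplit : w * (y ^ i * e) * w⁻¹ = (w * y * w⁻¹) ^ i * (w * e * w⁻¹) := by
      rw [conj_zpow]; group
    rw [hsplit]
    refine Y.mul_mem (Y.zpow_mem ?_ i) ?_
    · -- `w y w⁻¹ = y c` with `c = (y w y⁻¹) w ∈ C_E(y)`
      have hw₁ : y * w * y⁻¹ ∈ E := by
        refine (hmemE _).mpr ⟨Subgroup.mul_mem _ (Subgroup.mul_mem _ hyS hw'.1)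
          (Subgroup.inv_mem _ hyS), ?_⟩
        calc y * w * y⁻¹ * (y * w * y⁻¹) = y * (w * w) * y⁻¹ := by group
          _ = 1 := by rw [hw'.2]; group
      have hcE : y * w * y⁻¹ * w ∈ E := Subgroup.mul_mem _ hw₁ hw
      have hcomm1 : w * (y * w * y⁻¹) = (y * w * y⁻¹) * w := hEcomm w hw _ hw₁
      have hA : w * y * w⁻¹ = y * (y * w * y⁻¹ * w) := by
        calc w * y * w⁻¹ = w * (y * y) * y⁻¹ * w := by rw [hwinv]; group
          _ = (y * y) * w * y⁻¹ * w := by rw [hyyw]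
          _ = y * (y * w * y⁻¹ * w) := by group
      have hcy : y * w * y⁻¹ * w * y = y * (y * w * y⁻¹ * w) := by
        calc y * w * y⁻¹ * w * y = (w * (y * w * y⁻¹)) * y := by rw [hcomm1]
          _ = w * y * w := by group
          _ = w * y * w⁻¹ := by rw [hwinv]
          _ = y * (y * w * y⁻¹ * w) := hA
      rw [hA]
      exact (hmemY _).mpr ⟨1, y * w * y⁻¹ * w,
        ⟨hcE, Subgroup.mem_centralizer_singleton_iff.mpr hcy⟩, by simp⟩
    · have : w * e * w⁻¹ = e := by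
        rw [hEcomm w hw e he.1, mul_inv_cancel_right]
      rw [this]
      exact heY e he
  -- (2) a map defined on `C_S(y)` sending `y` into `Z(S)`
  obtain ⟨θ, hθ, hθz⟩ := exists_map_centralizer hS F hF h hyS
  have hYC : Y ≤ S ⊓ Subgroup.centralizer ({y} : Set Ω) := by
    intro a ha
    refine Subgroup.mem_inf.mpr ⟨hYS ha, ?_⟩
    obtain ⟨i, e, he, rfl⟩ := (hmemY a).mp ha
    rw [Subgroup.mem_centralizer_singleton_iff]
    have h1 : e * y = y * e := (hFy e he).symm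
    show y ^ i * e * y = y * (y ^ i * e)
    calc y ^ i * e * y = y ^ i * (e * y) := mul_assoc _ _ _
      _ = y ^ i * (y * e) := by rw [h1]
      _ = (y ^ i * y) * e := (mul_assoc _ _ _).symm
      _ = (y * y ^ i) * e := by rw [(Commute.zpow_left (Commute.refl y) i).eq]
      _ = y * (y ^ i * e) := mul_assoc _ _ _
  have hθY : IsMap F Y θ := hθ.restrict hYC
  obtain ⟨Y₁, hY₁def⟩ : ∃ Y₁ : Subgroup Ω, Y₁ = img Y θ := ⟨_, rfl⟩
  have hYY₁ : F.IsConj Y Y₁ := by rw [hY₁def]; exact hθY.isConj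
  have hY₁S : Y₁ ≤ S := by rw [hY₁def]; exact hθY.img_le
  obtain ⟨z, hzdef⟩ : ∃ z : Ω, z = θ y := ⟨_, rfl⟩
  have hzZ : z ∈ S ⊓ Subgroup.centralizer (S : Set Ω) := by rw [hzdef]; exact hθz
  have hzcomm : ∀ s ∈ S, s * z = z * s := fun s hs => Subgroup.mem_centralizer_iff.mp hzZ.2 s hs
  have hzY₁ : z ∈ Y₁ := by rw [hY₁def, hzdef]; exact hθY.apply_mem_img hyY
  have hEN₁ : E ≤ normalizerIn S Y₁ := by
    intro w hw
    refine mem_normalizerIn_iff.mpr ⟨hES hw, ?_⟩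
    apply Subgroup.centralizer_le_normalizer
    rw [Subgroup.mem_centralizer_iff]
    intro a ha
    rw [hY₁def] at ha
    obtain ⟨b, hb, rfl⟩ := hθY.mem_img.mp ha
    obtain ⟨i, e, he, rfl⟩ := (hmemY b).mp hb
    have hyiY : y ^ i ∈ Y := Y.zpow_mem hyY i
    have heY' : e ∈ Y := heY e he
    rw [hθY.map_mul hyiY heY', isMap_map_zpow hθY hyY i, ← hzdef]
    have hθe : θ e ∈ E := by
      refine (hmemE _).mpr ⟨hθY.mem heY', ?_⟩
      rw [← hθY.map_mul heY' heY', ((hmemE e).mp he.1).2, hθY.map_one]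
    have h1 : z ^ i * w = w * z ^ i :=
      ((Commute.zpow_right (show Commute w z from hzcomm w (hES hw)) i).eq).symm
    have h2 : θ e * w = w * θ e := hEcomm _ hθe w hw
    calc z ^ i * θ e * w = z ^ i * (θ e * w) := mul_assoc _ _ _
      _ = z ^ i * (w * θ e) := by rw [h2]
      _ = (z ^ i * w) * θ e := (mul_assoc _ _ _).symm
      _ = (w * z ^ i) * θ e := by rw [h1]
      _ = w * (z ^ i * θ e) := mul_assoc _ _ _
  -- (3) a fully automized receptive conjugate `Q` of `Y` and maps `N_S(Y) → S`, `N_S(Y₁) → S`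
  obtain ⟨Q, hYQ, hQa, hQr⟩ := hF Y hYS
  obtain ⟨κ, hκ, hκimg⟩ := exists_normalizer_map hS hQa hQr hYQ
  obtain ⟨ξ, hξ, hξimg⟩ := exists_normalizer_map hS hQa hQr
    (isConj_trans F (isConj_symm F hYY₁) hYQ)
  have hYN : Y ≤ normalizerIn S Y := Helper84.le_normalizerIn hYS
  have hY₁N : Y₁ ≤ normalizerIn S Y₁ := Helper84.le_normalizerIn hY₁S
  obtain ⟨hκE, hκE'⟩ := fusOmega_map hcomm hκ (by rw [← hEdef]; exact hEN)
  obtain ⟨hξE, hξE'⟩ := fusOmega_map hcomm hξ (by rw [← hEdef]; exact hEN₁)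
  rw [← hEdef] at hκE hκE' hξE hξE'
  have hξzQ : ξ z ∈ Q := by
    rw [← hξimg]; exact (hξ.restrict hY₁N).apply_mem_img hzY₁
  rw [← hκimg] at hξzQ
  obtain ⟨a, haY, haξ⟩ := (hκ.restrict hYN).mem_img.mp hξzQ
  have hξzE : ∀ e' ∈ E, e' * ξ z = ξ z * e' := by
    intro e' he'
    obtain ⟨e'', he'', rfl⟩ := hξE' e' he'
    have h1 := hEN₁ he''
    have h2 := hY₁N hzY₁
    rw [← hξ.map_mul h1 h2, ← hξ.map_mul h2 h1, hzcomm e'' (hES he'')]
  have haE : ∀ e ∈ E, e * a = a * e := by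
    intro e he
    have h1 := hEN he
    have h2 := hYN haY
    apply hκ.inj (Subgroup.mul_mem _ h1 h2) (Subgroup.mul_mem _ h2 h1)
    rw [hκ.map_mul h1 h2, hκ.map_mul h2 h1, haξ]
    exact hξzE _ (hκE e he)
  obtain ⟨i, e, he, rfl⟩ := (hmemY a).mp haY
  -- (4) orders
  have heCE : e ∈ Subgroup.centralizer ((E : Subgroup Ω) : Set Ω) := by
    rw [hmemCE]
    intro e' he'
    exact hEcomm e' he' e he.1
  have hyiCE : y ^ i ∈ Subgroup.centralizer ((E : Subgroup Ω) : Set Ω) := by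
    have h1 : y ^ i = (y ^ i * e) * e⁻¹ := by group
    rw [h1]
    exact Subgroup.mul_mem _ ((hmemCE _).mpr haE) (Subgroup.inv_mem _ heCE)
  have hieven : Even i := by
    by_contra hodd
    rw [Int.not_even_iff_odd] at hodd
    obtain ⟨t, ht⟩ := hodd
    apply hyCE
    have h1 : y = y ^ i * (y * y) ^ (-t) := by
      rw [ht, ← pow_two, ← zpow_natCast y 2, ← zpow_mul, ← zpow_add]
      have : (2 * t + 1 + ((2 : ℕ) : ℤ) * -t) = 1 := by push_cast; ring
      rw [this, zpow_one]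
    rw [h1]
    exact Subgroup.mul_mem _ hyiCE (Subgroup.zpow_mem _ hy2CE _)
  obtain ⟨t, ht⟩ := hieven
  have hpow : (y ^ i * e) ^ (2 ^ (k - 1)) = 1 := by
    have hcomm' : Commute (y ^ i) e := Commute.zpow_left (hFy e he) i
    rw [hcomm'.mul_pow]
    have h1 : (y ^ i) ^ (2 ^ (k - 1)) = 1 := by
      rw [ht, ← two_mul, ← zpow_natCast (y ^ (2 * t)), ← zpow_mul]
      have : (2 * t * ((2 ^ (k - 1) : ℕ) : ℤ)) = ((2 ^ k : ℕ) : ℤ) * t := by
        have : (2 : ℤ) ^ k = 2 * 2 ^ (k - 1) := by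
          rw [← pow_succ']; congr 1; omega
        push_cast; rw [this]; ring
      rw [this, zpow_mul, zpow_natCast, hypow, one_zpow]
    have h2 : e ^ (2 ^ (k - 1)) = 1 := by
      have : 2 ^ (k - 1) = 2 * 2 ^ (k - 2) := by
        rw [← pow_succ']; congr 1; omega
      rw [this, pow_mul, pow_two, ((hmemE e).mp he.1).2, one_pow]
    rw [h1, h2, one_mul]
  have h1 : ξ z ^ (2 ^ (k - 1)) = 1 := by
    rw [← haξ, ← isMap_map_pow hκ (hYN haY), hpow, hκ.map_one]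
  have h2 : ξ (θ (y ^ (2 ^ (k - 1)))) = 1 := by
    rw [isMap_map_pow hθY hyY, ← hzdef, isMap_map_pow hξ (hY₁N hzY₁)]
    exact h1
  have h3 : θ (y ^ (2 ^ (k - 1))) = 1 := by
    have hmem : θ (y ^ (2 ^ (k - 1))) ∈ normalizerIn S Y₁ := by
      apply hY₁N
      rw [hY₁def]
      exact hθY.apply_mem_img (Y.pow_mem hyY _)
    exact hξ.inj hmem (Subgroup.one_mem _) (h2.trans hξ.map_one.symm)
  have h4 : y ^ (2 ^ (k - 1)) = 1 :=
    hθY.inj (Y.pow_mem hyY _) Y.one_mem (h3.trans hθY.map_one.symm)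
  have hdvd : 2 ^ k ∣ 2 ^ (k - 1) := by
    rw [← hk]
    exact orderOf_dvd_of_pow_eq_one h4
  have := (Nat.pow_dvd_pow_iff_le_right (by norm_num : 1 < 2)).mp hdvd
  omega

end fusionCH3

end Cfsg.Agent.Helper72
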