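import Mathlib
import Cfsg.Agent.Helper72.FusCHc

/-!
# Camina–Herzog for fusion systems: step F4 and the theorem (helper72)

`fus_camina_herzog`: if `F` is a saturated fusion system over a finite `2`-group `S` and every
element of `S` is `F`-conjugate into `Z(S)`, then `S` is abelian.
-/

set_option autoImplicit false

namespace Cfsg.Agent.Helper72

open Cfsg Cfsg.FusionSystem Cfsg.Agent.Helper88

section fusionCH4
variable {Ω : Type*} [Group Ω] {S : Subgroup Ω}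

/-- **F4, core.** A noncentral `x ∈ S` with `C = C_S(x)` of maximal order and fully automized,
receptive cannot exist. -/
theorem fus_no_max [Finite S] (hS : IsPGroup 2 S) (F : FusionSystem S) (hF : F.IsSaturated 2)
    (h : CentralFus F) (x : Ω) (hxS : x ∈ S) (hx : ∃ w ∈ S, x * w ≠ w * x)
    (C : Subgroup Ω) (hCdef : C = S ⊓ Subgroup.centralizer ({x} : Set Ω))
    (hmax : ∀ u ∈ S, (∃ w ∈ S, u * w ≠ w * u) →
      Nat.card ↥(S ⊓ Subgroup.centralizer ({u} : Set Ω)) ≤ Nat.card ↥C)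
    (hCa : F.IsFullyAutomized 2 C) (hCr : F.IsReceptive C) : False := by
  have : Fact (Nat.Prime 2) := ⟨Nat.prime_two⟩
  classical
  have hmemC : ∀ c : Ω, c ∈ C ↔ c ∈ S ∧ c * x = x * c := by
    intro c
    rw [hCdef, Subgroup.mem_inf, Subgroup.mem_centralizer_singleton_iff]
  have hCS : C ≤ S := fun c hc => ((hmemC c).mp hc).1
  have hxC : x ∈ C := (hmemC x).mpr ⟨hxS, rfl⟩
  have hxZ : ∀ c ∈ C, x * c = c * x := fun c hc => ((hmemC c).mp hc).2.symm
  have hE := fus_invol_central hS F hF h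
  have hfinC : Finite C := finite_of_le hCS
  -- an element of `Z(C)` commuting with an element of `S` outside `C` is central in `S`
  have hkey : ∀ u ∈ C, (∀ c ∈ C, u * c = c * u) → ∀ s ∈ S, s ∉ C →
      s * u = u * s → ∀ w ∈ S, u * w = w * u := by
    intro u hu huZ s hsS hsC hsu
    by_contra hcon
    push Not at hcon
    obtain ⟨w, hw, hne⟩ := hcon
    have hcard := hmax u (hCS hu) ⟨w, hw, hne⟩
    have hle : C ≤ S ⊓ Subgroup.centralizer ({u} : Set Ω) := by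
      intro c hc
      exact Subgroup.mem_inf.mpr
        ⟨hCS hc, Subgroup.mem_centralizer_singleton_iff.mpr (huZ c hc).symm⟩
    have hfin : Finite ↥(S ⊓ Subgroup.centralizer ({u} : Set Ω)) := finite_of_le inf_le_left
    have heq := Subgroup.eq_of_le_of_card_ge hle hcard
    apply hsC
    rw [heq]
    exact Subgroup.mem_inf.mpr ⟨hsS, Subgroup.mem_centralizer_singleton_iff.mpr hsu⟩
  obtain ⟨w₀, hw₀S, hw₀⟩ := hx
  have hw₀C : w₀ ∉ C := fun h' => hw₀ (hxZ w₀ h')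
  have hCne : C ≠ S := fun h' => hw₀C (h' ▸ hw₀S)
  -- `α ∈ Aut_F(C)` with `α x ∈ Z(S)`
  obtain ⟨θ, hθ', hθz⟩ := exists_map_centralizer hS F hF h hxS
  have hθ : IsMap F C θ := by rw [hCdef]; exact hθ'
  obtain ⟨D, hDdef⟩ : ∃ D : Subgroup Ω, D = img C θ := ⟨_, rfl⟩
  have hCD : F.IsConj C D := by rw [hDdef]; exact hθ.isConj
  have hDS : D ≤ S := by rw [hDdef]; exact hθ.img_le
  have hDcard : Nat.card D = Nat.card C := by rw [hDdef]; exact hθ.card_img
  have hDne : D ≠ S := by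
    intro h'
    apply hCne
    have h1 : Nat.card S ≤ Nat.card C := by rw [← hDcard, h']
    exact Subgroup.eq_of_le_of_card_ge hCS h1
  obtain ⟨d, hdS, hdN, hdD⟩ := exists_normalizer_of_lt hS hDS hDne
  obtain ⟨ψ, hψ, hψimg⟩ := exists_normalizer_map hS hCa hCr (isConj_symm F hCD)
  have hDN : D ≤ normalizerIn S D := Helper84.le_normalizerIn hDS
  have hdN' : d ∈ normalizerIn S D := mem_normalizerIn_iff.mpr ⟨hdS, hdN⟩
  have hψD : IsMap F D ψ := hψ.restrict hDN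
  have hψC : ∀ c ∈ C, ∃ d' ∈ D, ψ d' = c := by
    intro c hc
    rw [← hψimg] at hc
    exact hψD.mem_img.mp hc
  have hψmem : ∀ d' ∈ D, ψ d' ∈ C := by
    intro d' hd'
    rw [← hψimg]
    exact hψD.apply_mem_img hd'
  have hθD : ∀ c ∈ C, θ c ∈ D := by
    intro c hc; rw [hDdef]; exact hθ.apply_mem_img hc
  obtain ⟨z, hzdef⟩ : ∃ z : Ω, z = θ x := ⟨_, rfl⟩
  have hzZ : z ∈ S ⊓ Subgroup.centralizer (S : Set Ω) := by rw [hzdef]; exact hθz
  have hzcomm : ∀ s ∈ S, s * z = z * s := fun s hs => Subgroup.mem_centralizer_iff.mp hzZ.2 s hs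
  have hzD : z ∈ D := by rw [hzdef]; exact hθD x hxC
  have hψzC : ψ z ∈ C := hψmem z hzD
  have hψzZ : ∀ c ∈ C, ψ z * c = c * ψ z := by
    intro c hc
    obtain ⟨d', hd', rfl⟩ := hψC c hc
    rw [← hψ.map_mul (hDN hzD) (hDN hd'), ← hψ.map_mul (hDN hd') (hDN hzD), hzcomm d' (hDS hd')]
  have hψdC : ψ d ∉ C := by
    intro h'
    obtain ⟨d', hd', hdd'⟩ := hψC _ h'
    have h1 := hψ.inj (hDN hd') hdN' hdd'
    exact hdD (h1 ▸ hd')
  have hψdz : ψ d * ψ z = ψ z * ψ d := by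
    rw [← hψ.map_mul hdN' (hDN hzD), ← hψ.map_mul (hDN hzD) hdN', hzcomm d hdS]
  have hψzcent : ∀ w ∈ S, ψ z * w = w * ψ z :=
    hkey _ hψzC hψzZ _ (hψ.mem hdN') hψdC hψdz
  have hα₀ : IsMap F C (ψ ∘ θ) := hθ.comp hψD hθD
  have hα₀img : img C (ψ ∘ θ) = C := by
    have hg : IsMap F (img C θ) ψ := by rw [← hDdef]; exact hψD
    rw [img_comp hθ hg, ← hDdef, hψimg]
  obtain ⟨α, hαA, hαf⟩ := hα₀.exists_aut hα₀img
  have hαapp : ∀ c : C, ((α c : C) : Ω) = ψ (θ c) := by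
    intro c
    rw [← autFun_apply, hαf c c.2]
    rfl
  -- `y ∈ N_S(C) ∖ C` with `y² ∈ C`
  obtain ⟨y₀, hy₀S, hy₀N, hy₀C⟩ := exists_normalizer_of_lt hS hCS hCne
  obtain ⟨m₀, hm₀⟩ : ∃ m : ℕ, y₀ ^ (2 ^ m) = 1 := by
    obtain ⟨m, hm⟩ := hS ⟨y₀, hy₀S⟩
    exact ⟨m, by simpa using congrArg Subtype.val hm⟩
  have hex : ∃ j : ℕ, y₀ ^ (2 ^ j) ∈ C := ⟨m₀, by rw [hm₀]; exact C.one_mem⟩
  have hj0 : Nat.find hex ≠ 0 := by
    intro h0
    have := Nat.find_spec hex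
    rw [h0, pow_zero, pow_one] at this
    exact hy₀C this
  obtain ⟨j, hj⟩ := Nat.exists_eq_succ_of_ne_zero hj0
  obtain ⟨y, hydef⟩ : ∃ y : Ω, y = y₀ ^ (2 ^ j) := ⟨_, rfl⟩
  have hyS : y ∈ S := by rw [hydef]; exact Subgroup.pow_mem _ hy₀S _
  have hyN : y ∈ Subgroup.normalizer (C : Set Ω) := by
    rw [hydef]; exact Subgroup.pow_mem _ hy₀N _
  have hyC : y ∉ C := by
    intro h'
    rw [hydef] at h'
    have := Nat.find_min' hex h'
    omega
  have hy2C : y * y ∈ C := by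
    have := Nat.find_spec hex
    rw [hj, Nat.succ_eq_add_one, pow_succ, pow_mul, ← hydef, pow_two] at this
    exact this
  have hyx : y * x * y⁻¹ ≠ x := by
    intro h'
    apply hyC
    rw [hmemC]
    refine ⟨hyS, ?_⟩
    calc y * x = y * x * y⁻¹ * y := by group
      _ = x * y := by rw [h']
  -- the automorphism `τ` induced by `y`
  have hτ₀ : IsMap F C (fun c => y * c * y⁻¹) := isMap_conj F hCS hyS
  have hyconj : ∀ c ∈ C, y * c * y⁻¹ ∈ C := fun c hc => conj_mem_of_mem_normalizer hyN hc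
  have hτ₀img : img C (fun c => y * c * y⁻¹) = C := hτ₀.img_eq_of_mapsTo hyconj
  obtain ⟨τ, hτA, hτf⟩ := hτ₀.exists_aut hτ₀img
  have hτapp : ∀ c : C, ((τ c : C) : Ω) = y * c * y⁻¹ := by
    intro c
    rw [← autFun_apply, hτf c c.2]
  -- the Sylow `2`-subgroup `Aut_S(C)` of `Aut_F(C)`
  obtain ⟨T, hT⟩ := hCa.2
  have hTmem : ∀ t : F.autGroup C, t ∈ (T : Subgroup (F.autGroup C)) →
      ∃ s ∈ S, ∀ c : C, (((t : MulAut C) c : C) : Ω) = s * c * s⁻¹ := by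
    intro t ht
    rw [hT, Subgroup.mem_subgroupOf] at ht
    exact (mem_autInducedBy_iff S C _).mp ht
  have hcenter : ∀ u : C, u ∈ Subgroup.center C → ∀ c ∈ C, (u : Ω) * c = c * (u : Ω) := by
    intro u hu c hc
    have h1 := Subgroup.mem_center_iff.mp hu ⟨c, hc⟩
    exact (congrArg Subtype.val h1).symm
  have hcenter' : ∀ u : C, (∀ c ∈ C, (u : Ω) * c = c * (u : Ω)) → u ∈ Subgroup.center C := by
    intro u hu
    rw [Subgroup.mem_center_iff]
    intro g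
    apply Subtype.ext
    exact (hu g g.2).symm
  refine no_max_aut (F.autGroup C) T {u : C | (u : Ω) ∈ S ⊓ Subgroup.centralizer (S : Set Ω)}
    ?_ ?_ τ α hτA hαA ⟨x, hxC⟩ ?_ ?_ ?_ ?_ ?_ ?_ ?_
  · -- h1
    intro t ht u hu
    have hu' : (u : Ω) ∈ S ⊓ Subgroup.centralizer (S : Set Ω) := hu
    obtain ⟨s, hs, hsc⟩ := hTmem t ht
    apply Subtype.ext
    rw [hsc]
    have h1 := Subgroup.mem_centralizer_iff.mp hu'.2 s hs
    rw [h1, mul_inv_cancel_right]
  · -- h2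
    rintro t ht u hu htu ⟨v, hv, htv⟩
    obtain ⟨s, hs, hsc⟩ := hTmem t ht
    have hsC : s ∉ C := by
      intro hsC
      apply htv
      apply Subtype.ext
      rw [hsc]
      have h1 := hcenter v hv s hsC
      rw [← h1, mul_inv_cancel_right]
    have hsu : s * (u : Ω) = (u : Ω) * s := by
      have h1 := congrArg Subtype.val htu
      rw [hsc] at h1
      calc s * (u : Ω) = s * (u : Ω) * s⁻¹ * s := by group
        _ = (u : Ω) * s := by rw [h1]
    have h2 := hkey u u.2 (hcenter u hu) s hs hsC hsu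
    show (u : Ω) ∈ S ⊓ Subgroup.centralizer (S : Set Ω)
    exact Subgroup.mem_inf.mpr ⟨hCS u.2,
      Subgroup.mem_centralizer_iff.mpr (fun w hw => (h2 w hw).symm)⟩
  · -- x central in C
    exact hcenter' _ (fun c hc => hxZ c hc)
  · -- τ² = 1 on Z(C)
    intro u hu
    apply Subtype.ext
    rw [hτapp, hτapp]
    have h1 := hcenter u hu _ hy2C
    calc y * (y * (u : Ω) * y⁻¹) * y⁻¹ = ((u : Ω) * (y * y)) * (y * y)⁻¹ := by rw [h1]; group
      _ = u := by group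
  · -- τ x ≠ x
    intro h'
    apply hyx
    have h1 := congrArg Subtype.val h'
    rw [hτapp] at h1
    exact h1
  · -- α x ∈ W
    show ((α ⟨x, hxC⟩ : C) : Ω) ∈ S ⊓ Subgroup.centralizer (S : Set Ω)
    rw [hαapp]
    show ψ (θ x) ∈ _
    rw [← hzdef]
    exact Subgroup.mem_inf.mpr ⟨hCS hψzC,
      Subgroup.mem_centralizer_iff.mpr (fun w hw => (hψzcent w hw).symm)⟩
  · -- h5
    intro u hu
    apply Subtype.ext
    simp only [Subgroup.coe_mul, Subgroup.coe_inv, Subgroup.coe_one, hτapp]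
    have hyyu : (u : Ω) * (y * y) = (y * y) * (u : Ω) := hcenter u hu _ hy2C
    have hinv : y * ((u : Ω)⁻¹ * (y * (u : Ω) * y⁻¹)) * y⁻¹
        = ((u : Ω)⁻¹ * (y * (u : Ω) * y⁻¹))⁻¹ := by
      calc y * ((u : Ω)⁻¹ * (y * (u : Ω) * y⁻¹)) * y⁻¹
          = (y * (u : Ω) * y⁻¹)⁻¹ * ((y * y) * (u : Ω)) * (y * y)⁻¹ := by group
        _ = (y * (u : Ω) * y⁻¹)⁻¹ * ((u : Ω) * (y * y)) * (y * y)⁻¹ := by rw [hyyu]
        _ = ((u : Ω)⁻¹ * (y * (u : Ω) * y⁻¹))⁻¹ := by group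
    exact invol_of_inverts hS F hF h
      (S.mul_mem (S.inv_mem (hCS u.2)) (S.mul_mem (S.mul_mem hyS (hCS u.2)) (S.inv_mem hyS)))
      hyS hinv
  · -- h6
    intro e he
    have he' : (e : Ω) * (e : Ω) = 1 := by simpa using congrArg Subtype.val he
    show (e : Ω) ∈ S ⊓ Subgroup.centralizer (S : Set Ω)
    exact Subgroup.mem_inf.mpr ⟨hCS e.2,
      Subgroup.mem_centralizer_iff.mpr (fun w hw => (hE e (hCS e.2) he' w hw).symm)⟩
  · -- h7
    intro u hu
    have hu' : (u : Ω) ∈ S ⊓ Subgroup.centralizer (S : Set Ω) := hu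
    apply Subtype.ext
    rw [hτapp]
    have h1 := Subgroup.mem_centralizer_iff.mp hu'.2 y hyS
    rw [h1, mul_inv_cancel_right]

/-- **Camina–Herzog for fusion systems.** If every element of the finite `2`-group `S` is
conjugate, in the saturated fusion system `F` over `S`, to an element of `Z(S)`, then `S` is
abelian. -/
theorem fus_camina_herzog [Finite S] (hS : IsPGroup 2 S) (F : FusionSystem S)
    (hF : F.IsSaturated 2) (h : CentralFus F) : ∀ a ∈ S, ∀ b ∈ S, a * b = b * a := by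
  have : Fact (Nat.Prime 2) := ⟨Nat.prime_two⟩
  classical
  by_contra hcon
  push Not at hcon
  obtain ⟨a₀, ha₀, b₀, hb₀, hab₀⟩ := hcon
  have hne : Nonempty {u : S // ∃ w : S, u * w ≠ w * u} :=
    ⟨⟨⟨a₀, ha₀⟩, ⟨b₀, hb₀⟩, fun h' => hab₀ (congrArg Subtype.val h')⟩⟩
  obtain ⟨⟨⟨x, hxS⟩, hxw⟩, hmax⟩ := Finite.exists_max
    (fun u : {u : S // ∃ w : S, u * w ≠ w * u} =>
      Nat.card ↥(S ⊓ Subgroup.centralizer ({((u : S) : Ω)} : Set Ω)))
  have hmax' : ∀ u ∈ S, (∃ w ∈ S, u * w ≠ w * u) →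
      Nat.card ↥(S ⊓ Subgroup.centralizer ({u} : Set Ω))
        ≤ Nat.card ↥(S ⊓ Subgroup.centralizer ({x} : Set Ω)) := by
    rintro u hu ⟨w, hw, huw⟩
    exact hmax ⟨⟨u, hu⟩, ⟨w, hw⟩, fun h' => huw (congrArg Subtype.val h')⟩
  obtain ⟨w₀, hw₀⟩ := hxw
  have hxw' : x * (w₀ : Ω) ≠ (w₀ : Ω) * x := fun h' => hw₀ (Subtype.ext h')
  obtain ⟨C, hCdef⟩ : ∃ C : Subgroup Ω, C = S ⊓ Subgroup.centralizer ({x} : Set Ω) := ⟨_, rfl⟩
  have hmemC : ∀ c : Ω, c ∈ C ↔ c ∈ S ∧ c * x = x * c := by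
    intro c
    rw [hCdef, Subgroup.mem_inf, Subgroup.mem_centralizer_singleton_iff]
  have hCS : C ≤ S := fun c hc => ((hmemC c).mp hc).1
  have hxC : x ∈ C := (hmemC x).mpr ⟨hxS, rfl⟩
  have hw₀C : (w₀ : Ω) ∉ C := fun h' => hxw' ((hmemC _).mp h').2.symm
  have hCne : C ≠ S := fun h' => hw₀C (h' ▸ w₀.2)
  -- replace `C` by a fully automized receptive conjugate
  obtain ⟨Q, hCQ, hQa, hQr⟩ := hF C hCS
  obtain ⟨f, hf, himg⟩ := exists_normalizer_map hS hQa hQr hCQ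
  have hCN : C ≤ normalizerIn S C := Helper84.le_normalizerIn hCS
  obtain ⟨d, hdS, hdN, hdC⟩ := exists_normalizer_of_lt hS hCS hCne
  have hdN' : d ∈ normalizerIn S C := mem_normalizerIn_iff.mpr ⟨hdS, hdN⟩
  have hfC : IsMap F C f := hf.restrict hCN
  have hfxS : f x ∈ S := hf.mem (hCN hxC)
  have hQle : Q ≤ S ⊓ Subgroup.centralizer ({f x} : Set Ω) := by
    intro q hq
    rw [← himg] at hq
    obtain ⟨c, hc, rfl⟩ := hfC.mem_img.mp hq
    refine Subgroup.mem_inf.mpr ⟨hf.mem (hCN hc), Subgroup.mem_centralizer_singleton_iff.mpr ?_⟩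
    show f c * f x = f x * f c
    rw [← hf.map_mul (hCN hc) (hCN hxC), ← hf.map_mul (hCN hxC) (hCN hc), ((hmemC c).mp hc).2]
  have hfxnc : ∃ w ∈ S, f x * w ≠ w * f x := by
    refine ⟨f d, hf.mem hdN', fun h' => hdC ?_⟩
    rw [← hf.map_mul (hCN hxC) hdN', ← hf.map_mul hdN' (hCN hxC)] at h'
    have h1 := hf.inj (Subgroup.mul_mem _ (hCN hxC) hdN') (Subgroup.mul_mem _ hdN' (hCN hxC)) h'
    exact (hmemC d).mpr ⟨hdS, h1.symm⟩
  have hcardQ : Nat.card Q = Nat.card C := by rw [← himg]; exact hfC.card_img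
  have hcard' := hmax' (f x) hfxS hfxnc
  have hfin : Finite ↥(S ⊓ Subgroup.centralizer ({f x} : Set Ω)) := finite_of_le inf_le_left
  have hQeq : Q = S ⊓ Subgroup.centralizer ({f x} : Set Ω) :=
    Subgroup.eq_of_le_of_card_ge hQle (by rw [hcardQ, hCdef]; exact hcard')
  refine fus_no_max hS F hF h (f x) hfxS hfxnc Q hQeq ?_ hQa hQr
  intro u hu huw
  rw [hcardQ, hCdef]
  exact hmax' u hu huw

end fusionCH4

end Cfsg.Agent.Helper72
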