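import Cfsg.Agent.S0579
import Cfsg.Agent.S0529
import Cfsg.Agent.Helper32.HallHigman
import Cfsg.Prelude.Def_CaseTheorems

/-!
# Groups whose maximal subgroups are `p`-nilpotent or of prime index (helper72)

`mpi_full_of_hypMax`: a finite `p`-solvable group in which every maximal subgroup has a normal
`p`-complement or prime index has a normal series `A ≤ B ≤ C ≤ D` with `A`, `C/B`, `G/D` of
order prime to `p` and `B/A`, `D/C` `p`-groups; for `p = 2` moreover `D = G`.

Ingredients: Huppert's theorem with the ordered chief chain (`S0579`, `S0529`) for groups all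
of whose maximal subgroups have prime index, and Hall–Higman 1.2.3 (`Helper32`).
-/

set_option autoImplicit false

namespace Cfsg.Agent.Helper72

section chain
variable {G : Type*} [Group G]

/-- Relative index along an increasing chain is the product of the step indices. -/
theorem mpi_chain_relIndex (K : ℕ → Subgroup G) (hK : ∀ i, K i ≤ K (i + 1)) (i j : ℕ)
    (hij : i ≤ j) :
    (K i).relIndex (K j) = ∏ t ∈ Finset.Ico i j, (K t).relIndex (K (t + 1)) := by
  have hmono : Monotone K := monotone_nat_of_le_succ hK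
  induction j, hij using Nat.le_induction with
  | base => simp
  | succ j hij ih =>
    rw [Finset.prod_Ico_succ_top hij, ← ih]
    exact (Subgroup.relIndex_mul_relIndex (K i) (K j) (K (j + 1)) (hmono hij) (hK j)).symm

/-- The three-term tail of the series: a normal `p'`-subgroup `C`, a normal `D ≥ C` with `D/C` a
`p`-group and `G/D` a `p'`-group (and `D = G` when `p = 2`). -/
def MpiTail (p : ℕ) (G : Type*) [Group G] : Prop :=
  ∃ C D : Subgroup G, C.Normal ∧ D.Normal ∧ C ≤ D ∧ ¬ p ∣ Nat.card C ∧
    (∃ k : ℕ, C.relIndex D = p ^ k) ∧ ¬ p ∣ D.index ∧ (p = 2 → D = ⊤)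

/-- From a chain of normal subgroups with non-increasing prime step indices. -/
theorem mpi_tail_of_chain (p : ℕ) (hp : p.Prime) (n : ℕ) (K : ℕ → Subgroup G)
    (h0 : K 0 = ⊥) (hn : K n = ⊤) (hnorm : ∀ i, (K i).Normal) (hK : ∀ i, K i ≤ K (i + 1))
    (hprime : ∀ i, i < n → ((K i).relIndex (K (i + 1))).Prime)
    (hanti : ∀ i j, i ≤ j → j < n →
      (K j).relIndex (K (j + 1)) ≤ (K i).relIndex (K (i + 1))) :
    MpiTail p G := by
  classical
  set q : ℕ → ℕ := fun i => (K i).relIndex (K (i + 1)) with hq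
  have hexa : ∃ i, i = n ∨ q i ≤ p := ⟨n, Or.inl rfl⟩
  have hexb : ∃ i, i = n ∨ q i < p := ⟨n, Or.inl rfl⟩
  set a := Nat.find hexa with ha
  set b := Nat.find hexb with hb
  have han : a ≤ n := Nat.find_min' hexa (Or.inl rfl)
  have hbn : b ≤ n := Nat.find_min' hexb (Or.inl rfl)
  have hab : a ≤ b := by
    apply Nat.find_min' hexa
    rcases Nat.find_spec hexb with h | h
    · exact Or.inl h
    · exact Or.inr h.le
  -- below `a` the primes exceed `p`
  have hlow : ∀ t, t < a → t < n ∧ p < q t := by
    intro t ht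
    have h := Nat.find_min hexa ht
    push Not at h
    exact ⟨by omega, h.2⟩
  -- from `a` on the primes are at most `p`
  have hmid : ∀ t, a ≤ t → t < n → q t ≤ p := by
    intro t hat htn
    rcases Nat.find_spec hexa with h | h
    · omega
    · exact (hanti a t hat htn).trans h
  -- below `b` the primes are at least `p`
  have hmid' : ∀ t, t < b → t < n ∧ p ≤ q t := by
    intro t ht
    have h := Nat.find_min hexb ht
    push Not at h
    exact ⟨by omega, h.2⟩
  -- from `b` on the primes are less than `p`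
  have hhigh : ∀ t, b ≤ t → t < n → q t < p := by
    intro t hbt htn
    rcases Nat.find_spec hexb with h | h
    · omega
    · exact lt_of_le_of_lt (hanti b t hbt htn) h
  have hmono : Monotone K := monotone_nat_of_le_succ hK
  refine ⟨K a, K b, hnorm a, hnorm b, hmono hab, ?_, ⟨b - a, ?_⟩, ?_, ?_⟩
  · -- `|K a|` is a product of primes `> p`
    rw [← Subgroup.relIndex_bot_left, ← h0, mpi_chain_relIndex K hK 0 a (Nat.zero_le _)]
    intro hdvd
    obtain ⟨t, ht, hpt⟩ := (Prime.dvd_finsetProd_iff hp.prime _).mp hdvd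
    rw [Finset.mem_Ico] at ht
    obtain ⟨htn, hlt⟩ := hlow t ht.2
    have := (Nat.prime_dvd_prime_iff_eq hp (hprime t htn)).mp hpt
    exact absurd this (ne_of_lt hlt)
  · rw [mpi_chain_relIndex K hK a b hab]
    have : ∀ t ∈ Finset.Ico a b, (K t).relIndex (K (t + 1)) = p := by
      intro t ht
      rw [Finset.mem_Ico] at ht
      obtain ⟨htn, hle⟩ := hmid' t ht.2
      exact le_antisymm (hmid t ht.1 htn) hle
    rw [Finset.prod_congr rfl this, Finset.prod_const, Nat.card_Ico]
  · rw [← Subgroup.relIndex_top_right, ← hn, mpi_chain_relIndex K hK b n hbn]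
    intro hdvd
    obtain ⟨t, ht, hpt⟩ := (Prime.dvd_finsetProd_iff hp.prime _).mp hdvd
    rw [Finset.mem_Ico] at ht
    have hlt := hhigh t ht.1 ht.2
    have := (Nat.prime_dvd_prime_iff_eq hp (hprime t ht.2)).mp hpt
    exact absurd this (ne_of_gt hlt)
  · intro hp2
    have hbn' : b = n := by
      rcases Nat.find_spec hexb with h | h
      · exact h
      · by_contra hne
        have hlt : b < n := lt_of_le_of_ne hbn hne
        have h2 := (hprime b hlt).two_le
        have h3 : q b < 2 := hp2 ▸ h
        exact absurd h2 (not_le.mpr h3)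
    show K b = ⊤
    rw [hbn', hn]

/-- A finite group all of whose maximal subgroups have prime index has the tail series. -/
theorem mpi_tail_of_prime_index (p : ℕ) (hp : p.Prime) [Finite G]
    (h : ∀ M : Subgroup G, IsCoatom M → M.index.Prime) : MpiTail p G := by
  obtain ⟨n, H, h0, hlast, hnorm, hstep, hanti⟩ :=
    Cfsg.Agent.S0529.result (Cfsg.Agent.S0579.result h)
  let K : ℕ → Subgroup G := fun i => H ⟨min i n, by omega⟩
  have hKlt : ∀ i (hi : i < n), K i = H (⟨i, hi⟩ : Fin n).castSucc ∧
      K (i + 1) = H (⟨i, hi⟩ : Fin n).succ := by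
    intro i hi
    constructor
    · show H ⟨min i n, _⟩ = _
      congr 1
      apply Fin.ext
      simp [Nat.min_eq_left hi.le]
    · show H ⟨min (i + 1) n, _⟩ = _
      congr 1
      apply Fin.ext
      simp [Nat.min_eq_left (Nat.succ_le_of_lt hi)]
  have hKge : ∀ i, n ≤ i → K i = ⊤ := by
    intro i hi
    show H ⟨min i n, _⟩ = _
    rw [← hlast]
    congr 1
    apply Fin.ext
    simp [Nat.min_eq_right hi]
  refine mpi_tail_of_chain p hp n K ?_ (hKge n le_rfl) (fun i => hnorm _) ?_ ?_ ?_
  · show H ⟨min 0 n, _⟩ = _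
    rw [← h0]
    congr 1
  · intro i
    by_cases hi : i < n
    · obtain ⟨e1, e2⟩ := hKlt i hi
      rw [e1, e2]
      exact (hstep ⟨i, hi⟩).1
    · rw [hKge (i + 1) (by omega)]
      exact le_top
  · intro i hi
    obtain ⟨e1, e2⟩ := hKlt i hi
    rw [e1, e2]
    exact (hstep ⟨i, hi⟩).2
  · intro i j hij hj
    have hi : i < n := lt_of_le_of_lt hij hj
    obtain ⟨e1, e2⟩ := hKlt i hi
    obtain ⟨e3, e4⟩ := hKlt j hj
    rw [e1, e2, e3, e4]
    exact hanti ⟨i, hi⟩ ⟨j, hj⟩ hij

end chain

section main

universe u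
variable {G : Type*} [Group G]

/-- `M` has a normal `p`-complement (internal form, `K` a subgroup of the ambient group). -/
def MpiNil (p : ℕ) (M : Subgroup G) : Prop :=
  ∃ K : Subgroup G, K ≤ M ∧ M ≤ Subgroup.normalizer (K : Set G) ∧ ¬ p ∣ Nat.card K ∧
    ∃ k : ℕ, K.relIndex M = p ^ k

/-- Every maximal subgroup has a normal `p`-complement or prime index. -/
def MpiHyp (p : ℕ) (G : Type*) [Group G] : Prop :=
  ∀ M : Subgroup G, IsCoatom M → MpiNil p M ∨ M.index.Prime

/-- The full series `A ≤ B ≤ C ≤ D`. -/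
def MpiFull (p : ℕ) (G : Type*) [Group G] : Prop :=
  ∃ A B C D : Subgroup G, A.Normal ∧ B.Normal ∧ C.Normal ∧ D.Normal ∧ A ≤ B ∧ B ≤ C ∧ C ≤ D ∧
    ¬ p ∣ Nat.card A ∧ (∃ k : ℕ, A.relIndex B = p ^ k) ∧ ¬ p ∣ B.relIndex C ∧
    (∃ k : ℕ, C.relIndex D = p ^ k) ∧ ¬ p ∣ D.index ∧ (p = 2 → D = ⊤)

theorem mpi_ker_le_comap {G' : Type*} [Group G'] (f : G →* G') (H : Subgroup G') :
    f.ker ≤ H.comap f := by
  intro x hx
  rw [Subgroup.mem_comap, MonoidHom.mem_ker.mp hx]
  exact H.one_mem

theorem mpi_isCoatom_comap {G' : Type*} [Group G'] (f : G →* G') (hf : Function.Surjective f)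
    {M : Subgroup G'} (hM : IsCoatom M) : IsCoatom (M.comap f) := by
  constructor
  · intro h
    apply hM.1
    rw [← Subgroup.map_comap_eq_self_of_surjective hf M, h, Subgroup.map_top_of_surjective f hf]
  · intro L hL
    have h1 : M ≤ L.map f := by
      rw [← Subgroup.map_comap_eq_self_of_surjective hf M]
      exact Subgroup.map_mono hL.le
    have h2 : M ≠ L.map f := by
      intro h
      have hle : L ≤ M.comap f := by rw [h]; exact Subgroup.le_comap_map f L
      exact absurd (lt_of_lt_of_le hL hle) (lt_irrefl _)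
    have h3 : L.map f = ⊤ := hM.2 _ (lt_of_le_of_ne h1 h2)
    have hker : f.ker ≤ L := (mpi_ker_le_comap f M).trans hL.le
    have h4 : L = (L.map f).comap f := by rw [Subgroup.comap_map_eq, sup_eq_left.mpr hker]
    rw [h4, h3, Subgroup.comap_top]

theorem mpi_relIndex_comap {G' : Type*} [Group G'] (f : G →* G') (hf : Function.Surjective f)
    (H K : Subgroup G') : (H.comap f).relIndex (K.comap f) = H.relIndex K := by
  rw [Subgroup.relIndex_comap, Subgroup.map_comap_eq_self_of_surjective hf]

theorem mpi_relIndex_ker_comap {G' : Type*} [Group G'] (f : G →* G')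
    (hf : Function.Surjective f) (H : Subgroup G') :
    f.ker.relIndex (H.comap f) = Nat.card H := by
  rw [← MonoidHom.comap_bot f, mpi_relIndex_comap f hf, Subgroup.relIndex_bot_left]

theorem mpi_card_comap {G' : Type*} [Group G'] (f : G →* G')
    (hf : Function.Surjective f) (H : Subgroup G') :
    Nat.card (H.comap f) = Nat.card f.ker * Nat.card H := by
  rw [← Subgroup.relIndex_bot_left (H := H.comap f),
    ← Subgroup.relIndex_mul_relIndex ⊥ f.ker (H.comap f) bot_le (mpi_ker_le_comap f H),
    Subgroup.relIndex_bot_left, mpi_relIndex_ker_comap f hf]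

theorem mpi_hyp_quotient {p : ℕ} (hp : p.Prime) (N : Subgroup G) [N.Normal] (h : MpiHyp p G) :
    MpiHyp p (G ⧸ N) := by
  intro M hM
  have hf := QuotientGroup.mk'_surjective N
  rcases h _ (mpi_isCoatom_comap (QuotientGroup.mk' N) hf hM) with
    ⟨K, hKM, hnorm, hcard, k, hk⟩ | hidx
  · left
    refine ⟨K.map (QuotientGroup.mk' N), ?_, ?_, ?_, ?_⟩
    · rw [Subgroup.map_le_iff_le_comap]; exact hKM
    · intro x hx
      obtain ⟨g, rfl⟩ := hf x
      have hg : g ∈ Subgroup.normalizer (K : Set G) := hnorm hx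
      exact Subgroup.le_normalizer_map _ ⟨g, hg, rfl⟩
    · exact fun hd => hcard (hd.trans (Subgroup.card_map_dvd K _))
    · have h1 : (K.map (QuotientGroup.mk' N)).relIndex
          ((M.comap (QuotientGroup.mk' N)).map (QuotientGroup.mk' N)) ∣
          K.relIndex (M.comap (QuotientGroup.mk' N)) := by
        rw [Subgroup.relIndex_map_map, sup_eq_left.mpr (mpi_ker_le_comap (QuotientGroup.mk' N) M)]
        exact Subgroup.relIndex_dvd_of_le_left _ le_sup_left
      rw [Subgroup.map_comap_eq_self_of_surjective hf, hk] at h1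
      obtain ⟨j, -, hj⟩ := (Nat.dvd_prime_pow hp).mp h1
      exact ⟨j, hj⟩
  · right
    rw [Subgroup.index_comap_of_surjective _ hf] at hidx
    exact hidx

theorem mpi_full_of_quotient {p : ℕ} (hp : p.Prime) (N : Subgroup G) [N.Normal]
    (hN : ¬ p ∣ Nat.card N) (h : MpiFull p (G ⧸ N)) : MpiFull p G := by
  obtain ⟨A, B, C, D, hA, hB, hC, hD, hAB, hBC, hCD, hcA, hAB', hBC', hCD', hDi, h2⟩ := h
  have hf : Function.Surjective (QuotientGroup.mk' N) := QuotientGroup.mk'_surjective N
  refine ⟨A.comap (QuotientGroup.mk' N), B.comap (QuotientGroup.mk' N),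
    C.comap (QuotientGroup.mk' N), D.comap (QuotientGroup.mk' N), hA.comap _, hB.comap _,
    hC.comap _, hD.comap _, Subgroup.comap_mono hAB, Subgroup.comap_mono hBC,
    Subgroup.comap_mono hCD, ?_, ?_, ?_, ?_, ?_, ?_⟩
  · rw [mpi_card_comap _ hf, QuotientGroup.ker_mk']
    exact fun hd => (hp.dvd_mul.mp hd).elim hN hcA
  · rw [mpi_relIndex_comap _ hf]; exact hAB'
  · rw [mpi_relIndex_comap _ hf]; exact hBC'
  · rw [mpi_relIndex_comap _ hf]; exact hCD'
  · rw [Subgroup.index_comap_of_surjective _ hf]; exact hDi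
  · intro h; rw [h2 h, Subgroup.comap_top]

theorem mpi_full_of_tail_quotient {p : ℕ} (hp : p.Prime) (P : Subgroup G) [P.Normal]
    (hP : ∃ k : ℕ, Nat.card P = p ^ k) (h : MpiTail p (G ⧸ P)) : MpiFull p G := by
  obtain ⟨C, D, hC, hD, hCD, hcC, hCD', hDi, h2⟩ := h
  have hf : Function.Surjective (QuotientGroup.mk' P) := QuotientGroup.mk'_surjective P
  have hker : (QuotientGroup.mk' P).ker = P := QuotientGroup.ker_mk' P
  have hPC : P ≤ C.comap (QuotientGroup.mk' P) := by
    have := mpi_ker_le_comap (QuotientGroup.mk' P) C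
    rwa [hker] at this
  refine ⟨⊥, P, C.comap (QuotientGroup.mk' P), D.comap (QuotientGroup.mk' P), inferInstance,
    inferInstance, hC.comap _, hD.comap _, bot_le, hPC, Subgroup.comap_mono hCD,
    ?_, ?_, ?_, ?_, ?_, ?_⟩
  · rw [Subgroup.card_bot]
    exact hp.one_lt.ne' ∘ Nat.dvd_one.mp
  · rw [Subgroup.relIndex_bot_left]; exact hP
  · have e := mpi_relIndex_ker_comap (QuotientGroup.mk' P) hf C
    rw [hker] at e
    rw [e]; exact hcC
  · rw [mpi_relIndex_comap _ hf]; exact hCD'
  · rw [Subgroup.index_comap_of_surjective _ hf]; exact hDi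
  · intro h; rw [h2 h, Subgroup.comap_top]

/-- Two subgroups of coprime orders (one a `p`-group, the other of order prime to `p`) meet
trivially. -/
theorem mpi_eq_one_of_mem {p : ℕ} [hp : Fact p.Prime] {K P : Subgroup G} [Finite G]
    (hK : ¬ p ∣ Nat.card K) (hP : IsPGroup p P) {z : G} (hzK : z ∈ K) (hzP : z ∈ P) : z = 1 := by
  obtain ⟨k, hk⟩ := hP ⟨z, hzP⟩
  have h1 : z ^ p ^ k = 1 := by simpa [Subtype.ext_iff] using hk
  have h2 : orderOf z ∣ p ^ k := orderOf_dvd_of_pow_eq_one h1
  have h3 : orderOf z ∣ Nat.card K := by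
    have := Subgroup.orderOf_dvd_natCard K hzK
    exact this
  have hcop : (p ^ k).Coprime (Nat.card K) :=
    Nat.Coprime.pow_left k ((Nat.Prime.coprime_iff_not_dvd hp.out).mpr hK)
  have : orderOf z = 1 := Nat.eq_one_of_dvd_coprimes hcop h2 h3
  exact orderOf_eq_one_iff.mp this

theorem mpi_full_aux (p : ℕ) [hp : Fact p.Prime] : ∀ (n : ℕ) (G : Type u) [Group G] [Finite G],
    Nat.card G ≤ n → Cfsg.IsPSolvable p G → MpiHyp p G → MpiFull p G := by
  intro n
  induction n with
  | zero =>
    intro G _ _ hcard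
    have := Nat.card_pos (α := G)
    omega
  | succ n ih =>
    intro G _ _ hcard hsol hyp
    by_cases hO : ∃ N : Subgroup G, N.Normal ∧ N ≠ ⊥ ∧ ¬ p ∣ Nat.card N
    · obtain ⟨N, hN, hNne, hNp⟩ := hO
      have hlt : Nat.card (G ⧸ N) < Nat.card G := by
        have h1 := Subgroup.card_mul_index N
        rw [Subgroup.index_eq_card] at h1
        have h2 : 1 < Nat.card N := by
          rw [Subgroup.one_lt_card_iff_ne_bot]; exact hNne
        have h3 := Nat.card_pos (α := G ⧸ N)
        nlinarith
      exact mpi_full_of_quotient hp.out N hNp (ih (G ⧸ N) (by omega)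
        (Helper32.isPSolvable_quotient hp.out hsol N) (mpi_hyp_quotient hp.out N hyp))
    · push Not at hO
      have hred : Cfsg.pPrimeCore p G = ⊥ := by
        rw [Cfsg.pPrimeCore, eq_bot_iff]
        apply sSup_le
        rintro N ⟨hN, hcop⟩
        by_contra hne
        have hNne : N ≠ ⊥ := fun h => hne (h ▸ le_rfl)
        exact (Nat.Prime.coprime_iff_not_dvd hp.out).mp hcop.symm (hO N hN hNne)
      have hPp : IsPGroup p (Cfsg.pCore p G) := Helper32.pCore_isPGroup' p G
      have hCP : Subgroup.centralizer (Cfsg.pCore p G : Set G) ≤ Cfsg.pCore p G :=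
        Helper32.centralizer_pCore_le_of_isPSolvable hsol hred
      have hf := QuotientGroup.mk'_surjective (Cfsg.pCore p G)
      have hker : (QuotientGroup.mk' (Cfsg.pCore p G)).ker = Cfsg.pCore p G :=
        QuotientGroup.ker_mk' _
      -- maximal subgroups of `G / O_p(G)` are `p`-groups or of prime index
      have hmax : ∀ M : Subgroup (G ⧸ Cfsg.pCore p G), IsCoatom M →
          IsPGroup p M ∨ M.index.Prime := by
        intro M hM
        rcases hyp _ (mpi_isCoatom_comap (QuotientGroup.mk' (Cfsg.pCore p G)) hf hM) with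
          ⟨K, hKM, hnorm, hcard, k, hk⟩ | hidx
        · left
          have hPM : Cfsg.pCore p G ≤ M.comap (QuotientGroup.mk' (Cfsg.pCore p G)) := by
            have := mpi_ker_le_comap (QuotientGroup.mk' (Cfsg.pCore p G)) M
            rwa [hker] at this
          have hKcent : K ≤ Subgroup.centralizer (Cfsg.pCore p G : Set G) := by
            intro x hx
            rw [Subgroup.mem_centralizer_iff]
            intro y hy
            have hc1 : x * y * x⁻¹ * y⁻¹ ∈ Cfsg.pCore p G :=
              Subgroup.mul_mem _ ((Cfsg.pCore_normal p G).conj_mem y hy x) (Subgroup.inv_mem _ hy)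
            have hc2 : x * y * x⁻¹ * y⁻¹ ∈ K := by
              have hyN : y ∈ Subgroup.normalizer (K : Set G) := hnorm (hPM hy)
              have h3 : y * x⁻¹ * y⁻¹ ∈ K :=
                (Subgroup.mem_normalizer_iff.mp hyN x⁻¹).mp (K.inv_mem hx)
              have e : x * y * x⁻¹ * y⁻¹ = x * (y * x⁻¹ * y⁻¹) := by group
              rw [e]; exact K.mul_mem hx h3
            have h4 := mpi_eq_one_of_mem hcard hPp hc2 hc1
            have e : y * x = (x * y * x⁻¹ * y⁻¹)⁻¹ * (x * y) := by group
            rw [e, h4, inv_one, one_mul]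
          have hK : K = ⊥ := by
            rw [eq_bot_iff]
            intro z hz
            exact mpi_eq_one_of_mem hcard hPp hz (hCP (hKcent hz))
          rw [hK, Subgroup.relIndex_bot_left, mpi_card_comap _ hf] at hk
          have hdvd : Nat.card M ∣ p ^ k := Dvd.intro_left _ hk
          obtain ⟨j, -, hj⟩ := (Nat.dvd_prime_pow hp.out).mp hdvd
          exact IsPGroup.of_card hj
        · right
          rw [Subgroup.index_comap_of_surjective _ hf] at hidx
          exact hidx
      by_cases hall : ∀ M : Subgroup (G ⧸ Cfsg.pCore p G), IsCoatom M → M.index.Prime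
      · exact mpi_full_of_tail_quotient hp.out (Cfsg.pCore p G) (IsPGroup.iff_card.mp hPp)
          (mpi_tail_of_prime_index p hp.out hall)
      · push Not at hall
        obtain ⟨S, hS, hSidx⟩ := hall
        have hSp : IsPGroup p S := (hmax S hS).resolve_right hSidx
        have hnt : (⊤ : Subgroup (G ⧸ Cfsg.pCore p G)) ≠ ⊥ := by
          intro h
          apply hS.1
          rw [eq_top_iff, h]; exact bot_le
        obtain ⟨Nb, hNbn, -, hNbne, hNb⟩ := Helper32.exists_normal_le_of_isPSolvable hp.out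
          (Helper32.isPSolvable_quotient hp.out hsol (Cfsg.pCore p G)) ⊤ hnt
        have hNbcop : ¬ p ∣ Nat.card Nb := by
          rcases hNb with h | h
          · exfalso
            have hcomap : IsPGroup p (Nb.comap (QuotientGroup.mk' (Cfsg.pCore p G))) := by
              obtain ⟨a, ha⟩ := IsPGroup.iff_card.mp hPp
              obtain ⟨b, hb⟩ := IsPGroup.iff_card.mp h
              apply IsPGroup.of_card (n := a + b)
              rw [mpi_card_comap _ hf, hker, ha, hb, pow_add]
            have : (Nb.comap (QuotientGroup.mk' (Cfsg.pCore p G))).Normal := hNbn.comap _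
            have hle := Helper32.le_pCore' (Nb.comap (QuotientGroup.mk' (Cfsg.pCore p G))) hcomap
            apply hNbne
            rw [eq_bot_iff]
            intro x hx
            obtain ⟨g, rfl⟩ := hf x
            have hg : g ∈ Cfsg.pCore p G := hle hx
            rw [Subgroup.mem_bot]
            exact (QuotientGroup.eq_one_iff g).mpr hg
          · exact (Nat.Prime.coprime_iff_not_dvd hp.out).mp h.symm
        have hNS : Nb ⊓ S = ⊥ := by
          rw [eq_bot_iff]
          intro z hz
          exact mpi_eq_one_of_mem hNbcop hSp hz.1 hz.2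
        have hSN : S ⊔ Nb = ⊤ := by
          by_contra hne
          have hle : Nb ≤ S := by
            by_contra hnle
            exact hne (hS.2 (S ⊔ Nb)
              (lt_of_le_of_ne le_sup_left (fun h => hnle (h ▸ le_sup_right))))
          apply hNbne
          rw [← hNS]
          exact (inf_eq_left.mpr hle).symm
        have hidx : ∃ k : ℕ, Nb.index = p ^ k := by
          have h1 : Nb.relIndex (S ⊔ Nb) = Nb.relIndex S := Subgroup.relIndex_sup_right S Nb
          rw [hSN, Subgroup.relIndex_top_right] at h1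
          have h2 : (Nb ⊓ S).relIndex S = Nb.relIndex S := Subgroup.inf_relIndex_right Nb S
          rw [hNS, Subgroup.relIndex_bot_left] at h2
          obtain ⟨k, hk⟩ := IsPGroup.iff_card.mp hSp
          exact ⟨k, by rw [h1, ← h2, hk]⟩
        have htail : MpiTail p (G ⧸ Cfsg.pCore p G) := by
          refine ⟨Nb, ⊤, hNbn, inferInstance, le_top, hNbcop, ?_, ?_, fun _ => rfl⟩
          · rw [Subgroup.relIndex_top_right]; exact hidx
          · rw [Subgroup.index_top]
            exact hp.out.one_lt.ne' ∘ Nat.dvd_one.mp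
        exact mpi_full_of_tail_quotient hp.out (Cfsg.pCore p G) (IsPGroup.iff_card.mp hPp) htail

/-- Conversion from the statement form of "`M` has a normal `p`-complement". -/
theorem mpi_nil_of_subtype {p : ℕ} {M : Subgroup G} (K : Subgroup ↥M) (hK : K.Normal)
    (hc : ¬ p ∣ Nat.card K) (k : ℕ) (hk : K.index = p ^ k) : MpiNil p M := by
  refine ⟨K.map M.subtype, Subgroup.map_subtype_le K, ?_, ?_, k, ?_⟩
  · intro m hm
    rw [Subgroup.mem_normalizer_iff]
    intro x
    constructor
    · rintro ⟨y, hy, rfl⟩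
      exact ⟨⟨m, hm⟩ * y * ⟨m, hm⟩⁻¹, hK.conj_mem y hy ⟨m, hm⟩, rfl⟩
    · rintro ⟨y, hy, hyx⟩
      refine ⟨⟨m, hm⟩⁻¹ * y * ⟨m, hm⟩, ?_, ?_⟩
      · have := hK.conj_mem y hy ⟨m, hm⟩⁻¹
        simpa using this
      · have e : (M.subtype y : G) = m * x * m⁻¹ := hyx
        show (⟨m, hm⟩⁻¹ * y * ⟨m, hm⟩ : ↥M).1 = x
        have e2 : ((⟨m, hm⟩⁻¹ * y * ⟨m, hm⟩ : ↥M) : G) = m⁻¹ * (y : G) * m := rfl
        rw [e2]
        have e3 : (y : G) = m * x * m⁻¹ := e
        rw [e3]; group
  · rw [Subgroup.card_map_of_injective (Subgroup.subtype_injective M)]; exact hc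
  · rw [Subgroup.relIndex, Subgroup.subgroupOf,
      Subgroup.comap_map_eq_self_of_injective (Subgroup.subtype_injective M)]
    exact hk

/-- **Main theorem**: a finite `p`-solvable group whose maximal subgroups are `p`-nilpotent or of
prime index has the series `A ≤ B ≤ C ≤ D` (`p'`, `p`, `p'`, `p`, `p'`), with `D = G` if
`p = 2`. -/
theorem mpi_full_of_hypMax (p : ℕ) [Fact p.Prime] {G : Type u} [Group G] [Finite G]
    (hsol : Cfsg.IsPSolvable p G)
    (hmax : ∀ M : Subgroup G, IsCoatom M →
      (∃ K : Subgroup ↥M, K.Normal ∧ ¬ p ∣ Nat.card K ∧ ∃ k : ℕ, K.index = p ^ k) ∨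
        (M.index).Prime) : MpiFull p G := by
  refine mpi_full_aux p (Nat.card G) G le_rfl hsol ?_
  intro M hM
  rcases hmax M hM with ⟨K, hK, hc, k, hk⟩ | h
  · exact Or.inl (mpi_nil_of_subtype K hK hc k hk)
  · exact Or.inr h

end main

end Cfsg.Agent.Helper72
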