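import Mathlib
import Cfsg.Agent.Helper72.O983Aux

/-!
# CALL S0983, piece N3696: no simple group of order 3696 (helper72)
-/

set_option autoImplicit false
set_option linter.style.haveILetI false
set_option maxHeartbeats 1000000

namespace Cfsg.Agent.Helper72

open Subgroup

variable {G : Type*} [Group G] [Finite G] [IsSimpleGroup G]

theorem o3696_arith11 : ∀ n e c : ℕ, n ∣ 336 → n % 11 = 1 → n ≠ 1 → e ∣ 10 → 1 < e →
    e * c * n = 336 → (n = 12 ∧ 7 ∣ c) ∨ (n = 56 ∧ e = 2 ∧ c = 3) := by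
  intro n e c hn hmod hne he he1 hec
  have hle : n ≤ 336 := Nat.le_of_dvd (by norm_num) hn
  have hele : e ≤ 10 := Nat.le_of_dvd (by norm_num) he
  have key : ∀ n ≤ 336, n ∣ 336 → n % 11 = 1 → n = 1 ∨ n = 12 ∨ n = 56 := by
    decide +kernel
  rcases key n hle hn hmod with h | h | h
  · exact absurd h hne
  · subst h
    interval_cases e <;> omega
  · subst h
    interval_cases e <;> omega

theorem o3696_arith3 : ∀ n e c : ℕ, n ∣ 1232 → n % 3 = 1 → n ≠ 1 → e ∣ 2 → 1 < e →
    e * c * n = 1232 → 11 ∣ c → n = 4 ∨ n = 7 ∨ n = 28 := by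
  intro n e c hn hmod hne he he1 hec h11
  have hele : e ≤ 2 := Nat.le_of_dvd (by norm_num) he
  have he2 : e = 2 := by omega
  subst he2
  obtain ⟨d, rfl⟩ := h11
  have h56 : d * n = 56 := by
    have : 22 * (d * n) = 22 * 56 := by
      have e1 : 22 * (d * n) = 2 * (11 * d) * n := by ring
      rw [e1, hec]
    exact Nat.eq_of_mul_eq_mul_left (by norm_num) this
  have hn56 : n ∣ 56 := ⟨d, by rw [← h56]; ring⟩
  have hle : n ≤ 56 := Nat.le_of_dvd (by norm_num) hn56
  have key : ∀ n ≤ 56, n ∣ 56 → n % 3 = 1 → n = 1 ∨ n = 4 ∨ n = 7 ∨ n = 28 := by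
    decide +kernel
  rcases key n hle hn56 hmod with h | h | h | h
  · exact absurd h hne
  · exact Or.inl h
  · exact Or.inr (Or.inl h)
  · exact Or.inr (Or.inr h)

/-- piece N3696 -/
theorem o3696 : Nat.card G ≠ 3696 := by
  intro h
  haveI : Fact (Nat.Prime 11) := ⟨by norm_num⟩
  haveI : Fact (Nat.Prime 7) := ⟨by norm_num⟩
  haveI : Fact (Nat.Prime 3) := ⟨by norm_num⟩
  have hS11 : ∀ P : Sylow 11 G, Nat.card (P : Subgroup G) = 11 := fun P =>
    (o983_data 336 (h.trans (by norm_num)) (by norm_num) (by norm_num) P).1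
  have hS3 : ∀ P : Sylow 3 G, Nat.card (P : Subgroup G) = 3 := fun P =>
    (o983_data 1232 (h.trans (by norm_num)) (by norm_num) (by norm_num) P).1
  obtain ⟨P⟩ : Nonempty (Sylow 11 G) := inferInstance
  obtain ⟨-, e, c, hd, hmod, hne, he, he1, hec, hC, -⟩ :=
    o983_data 336 (h.trans (by norm_num)) (by norm_num) (by norm_num) P
  rcases o3696_arith11 _ e c hd hmod hne he he1 hec with ⟨h1, h3⟩ | ⟨h1, -, h3⟩
  · have hT := o983_ruleT (p := 11) (r := 7) (by norm_num) P
      (by rw [hC]; exact Dvd.dvd.mul_left h3 11) hne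
    omega
  · -- `n_11 = 56`, `|C(P_11)| = 33`
    obtain ⟨Q⟩ : Nonempty (Sylow 3 G) := inferInstance
    have hsw := o983_swap hS3 P (by rw [hC, h3]; norm_num) Q
    rw [hS11 P] at hsw
    obtain ⟨-, e', c', hd', hmod', hne', he', he1', hec', hC', -⟩ :=
      o983_data 1232 (h.trans (by norm_num)) (by norm_num) (by norm_num) Q
    have hsw' := hsw
    rw [hC'] at hsw'
    have h11 : 11 ∣ c' := by
      rcases (Nat.Prime.dvd_mul (by norm_num : Nat.Prime 11)).mp hsw' with h11 | h11
      · norm_num at h11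
      · exact h11
    rcases o3696_arith3 _ e' c' hd' hmod' hne' he' he1' hec' h11 with h4 | h7 | h28
    · have := o983_fact (G := G) (p := 3) hne'
      rw [h4, h] at this
      norm_num [Nat.factorial] at this
    · have := o983_fact (G := G) (p := 3) hne'
      rw [h7, h] at this
      norm_num [Nat.factorial] at this
    · have hT := o983_ruleT (p := 3) (r := 11) (by norm_num) Q hsw hne'
      omega

end Cfsg.Agent.Helper72
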