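import Mathlib
import Cfsg.Agent.Helper72.O983Aux

/-!
# CALL S0983, piece N3780: no simple group of order 3780 (helper72)
-/

set_option autoImplicit false
set_option linter.style.haveILetI false
set_option maxHeartbeats 1000000

namespace Cfsg.Agent.Helper72

open Subgroup

variable {G : Type*} [Group G] [Finite G] [IsSimpleGroup G]

theorem o3780_arith7 : ∀ n e c : ℕ, n ∣ 540 → n % 7 = 1 → n ≠ 1 → e ∣ 6 → 1 < e →
    e * c * n = 540 → (n = 15 ∧ 3 ∣ c) ∨ (n = 36 ∧ e = 3 ∧ c = 5) := by
  intro n e c hn hmod hne he he1 hec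
  have hle : n ≤ 540 := Nat.le_of_dvd (by norm_num) hn
  have hele : e ≤ 6 := Nat.le_of_dvd (by norm_num) he
  have key : ∀ n ≤ 540, n ∣ 540 → n % 7 = 1 → n = 1 ∨ n = 15 ∨ n = 36 ∨ n = 540 := by
    decide +kernel
  rcases key n hle hn hmod with h | h | h | h
  · exact absurd h hne
  · subst h
    interval_cases e <;> omega
  · subst h
    interval_cases e <;> omega
  · subst h
    interval_cases e <;> omega

theorem o3780_arith5 : ∀ n e c : ℕ, n ∣ 756 → n % 5 = 1 → n ≠ 1 → e ∣ 4 → 1 < e →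
    e * c * n = 756 → 7 ∣ c → n = 6 := by
  intro n e c hn hmod hne he he1 hec h7
  have hle : n ≤ 756 := Nat.le_of_dvd (by norm_num) hn
  have hele : e ≤ 4 := Nat.le_of_dvd (by norm_num) he
  have key : ∀ n ≤ 756, n ∣ 756 → n % 5 = 1 →
      n = 1 ∨ n = 6 ∨ n = 21 ∨ n = 36 ∨ n = 126 ∨ n = 756 := by
    decide +kernel
  rcases key n hle hn hmod with h | h | h | h | h | h
  · exact absurd h hne
  · exact h
  · subst h
    interval_cases e <;> omega
  · subst h
    interval_cases e <;> omega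
  · subst h
    interval_cases e <;> omega
  · subst h
    interval_cases e <;> omega

/-- piece N3780 -/
theorem o3780 : Nat.card G ≠ 3780 := by
  intro h
  haveI : Fact (Nat.Prime 7) := ⟨by norm_num⟩
  haveI : Fact (Nat.Prime 5) := ⟨by norm_num⟩
  haveI : Fact (Nat.Prime 3) := ⟨by norm_num⟩
  have hS7 : ∀ P : Sylow 7 G, Nat.card (P : Subgroup G) = 7 := fun P =>
    (o983_data 540 (h.trans (by norm_num)) (by norm_num) (by norm_num) P).1
  have hS5 : ∀ P : Sylow 5 G, Nat.card (P : Subgroup G) = 5 := fun P =>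
    (o983_data 756 (h.trans (by norm_num)) (by norm_num) (by norm_num) P).1
  obtain ⟨P⟩ : Nonempty (Sylow 7 G) := inferInstance
  obtain ⟨-, e, c, hd, hmod, hne, he, he1, hec, hC, -⟩ :=
    o983_data 540 (h.trans (by norm_num)) (by norm_num) (by norm_num) P
  rcases o3780_arith7 _ e c hd hmod hne he he1 hec with ⟨h1, h3⟩ | ⟨h1, -, h3⟩
  · have hT := o983_ruleT (p := 7) (r := 3) (by norm_num) P
      (by rw [hC]; exact Dvd.dvd.mul_left h3 7) hne
    omega
  · -- `n_7 = 36`, `|C(P_7)| = 35`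
    obtain ⟨Q⟩ : Nonempty (Sylow 5 G) := inferInstance
    have hsw := o983_swap hS5 P (by rw [hC, h3]; norm_num) Q
    rw [hS7 P] at hsw
    obtain ⟨-, e', c', hd', hmod', hne', he', he1', hec', hC', -⟩ :=
      o983_data 756 (h.trans (by norm_num)) (by norm_num) (by norm_num) Q
    rw [hC'] at hsw
    have h7 : 7 ∣ c' := by
      rcases (Nat.Prime.dvd_mul (by norm_num : Nat.Prime 7)).mp hsw with h7 | h7
      · norm_num at h7
      · exact h7
    have h6 := o3780_arith5 _ e' c' hd' hmod' hne' he' he1' hec' h7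
    have := o983_fact (G := G) (p := 5) hne'
    rw [h6, h] at this
    norm_num [Nat.factorial] at this

end Cfsg.Agent.Helper72
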