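import Mathlib
import Cfsg.Agent.Helper72.O983Aux

/-!
# CALL S0983, piece N4620: no simple group of order 4620 (helper72)
-/

set_option autoImplicit false
set_option linter.style.haveILetI false
set_option maxHeartbeats 1000000

namespace Cfsg.Agent.Helper72

open Subgroup

variable {G : Type*} [Group G] [Finite G] [IsSimpleGroup G]

theorem o4620_arith11 : ∀ n e c : ℕ, n ∣ 420 → n % 11 = 1 → n ≠ 1 → e ∣ 10 → 1 < e →
    e * c * n = 420 → (n = 12 ∧ e = 5 ∧ c = 7) ∨ (n = 210 ∧ e = 2 ∧ c = 1) := by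
  intro n e c hn hmod hne he he1 hec
  have hle : n ≤ 420 := Nat.le_of_dvd (by norm_num) hn
  have hele : e ≤ 10 := Nat.le_of_dvd (by norm_num) he
  have key : ∀ n ≤ 420, n ∣ 420 → n % 11 = 1 → n = 1 ∨ n = 12 ∨ n = 210 := by
    decide +kernel
  rcases key n hle hn hmod with h | h | h
  · exact absurd h hne
  · subst h
    interval_cases e <;> omega
  · subst h
    interval_cases e <;> omega

theorem o4620_arith7 : ∀ n e c : ℕ, n ∣ 660 → n % 7 = 1 → n ≠ 1 → e ∣ 6 → 1 < e →
    e * c * n = 660 → (n = 15 ∧ 11 ∣ c) ∨ (n = 22 ∧ 5 ∣ c) ∨ (n = 330 ∧ e = 2 ∧ c = 1) := by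
  intro n e c hn hmod hne he he1 hec
  have hle : n ≤ 660 := Nat.le_of_dvd (by norm_num) hn
  have hele : e ≤ 6 := Nat.le_of_dvd (by norm_num) he
  have key : ∀ n ≤ 660, n ∣ 660 → n % 7 = 1 → n = 1 ∨ n = 15 ∨ n = 22 ∨ n = 330 := by
    decide +kernel
  rcases key n hle hn hmod with h | h | h | h
  · exact absurd h hne
  · subst h
    interval_cases e <;> omega
  · subst h
    interval_cases e <;> omega
  · subst h
    interval_cases e <;> omega

theorem o4620_arith5 : ∀ n e c : ℕ, n ∣ 924 → n % 5 = 1 → n ≠ 1 → e ∣ 4 → 1 < e →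
    e * c * n = 924 → n = 6 ∨ (n = 11 ∧ 3 ∣ c) ∨ (n = 21 ∧ 11 ∣ c) ∨ (n = 66 ∧ 7 ∣ c) ∨
      n = 231 := by
  intro n e c hn hmod hne he he1 hec
  have hle : n ≤ 924 := Nat.le_of_dvd (by norm_num) hn
  have hele : e ≤ 4 := Nat.le_of_dvd (by norm_num) he
  have key : ∀ n ≤ 924, n ∣ 924 → n % 5 = 1 →
      n = 1 ∨ n = 6 ∨ n = 11 ∨ n = 21 ∨ n = 66 ∨ n = 231 := by
    decide +kernel
  rcases key n hle hn hmod with h | h | h | h | h | h
  · exact absurd h hne
  · exact Or.inl h
  · subst h
    interval_cases e <;> omega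
  · subst h
    interval_cases e <;> omega
  · subst h
    interval_cases e <;> omega
  · right; right; right; right; exact h

/-- piece N4620 -/
theorem o4620 : Nat.card G ≠ 4620 := by
  intro h
  haveI : Fact (Nat.Prime 11) := ⟨by norm_num⟩
  haveI : Fact (Nat.Prime 7) := ⟨by norm_num⟩
  haveI : Fact (Nat.Prime 5) := ⟨by norm_num⟩
  haveI : Fact (Nat.Prime 3) := ⟨by norm_num⟩
  have hS11 : ∀ P : Sylow 11 G, Nat.card (P : Subgroup G) = 11 := fun P =>
    (o983_data 420 (h.trans (by norm_num)) (by norm_num) (by norm_num) P).1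
  have hS7 : ∀ P : Sylow 7 G, Nat.card (P : Subgroup G) = 7 := fun P =>
    (o983_data 660 (h.trans (by norm_num)) (by norm_num) (by norm_num) P).1
  have hS5 : ∀ P : Sylow 5 G, Nat.card (P : Subgroup G) = 5 := fun P =>
    (o983_data 924 (h.trans (by norm_num)) (by norm_num) (by norm_num) P).1
  -- `n_11 = 210`
  have hn11 : Nat.card (Sylow 11 G) = 210 := by
    obtain ⟨P⟩ : Nonempty (Sylow 11 G) := inferInstance
    obtain ⟨-, e, c, hd, hmod, hne, he, he1, hec, hC, -⟩ :=
      o983_data 420 (h.trans (by norm_num)) (by norm_num) (by norm_num) P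
    rcases o4620_arith11 _ e c hd hmod hne he he1 hec with ⟨h1, -, h3⟩ | ⟨h1, -, -⟩
    · exfalso
      have hT := o983_ruleT (p := 11) (r := 7) (by norm_num) P
        (by rw [hC, h3]; norm_num) hne
      omega
    · exact h1
  -- `n_7 = 330` and `|C(P_7)| = 7`
  have hn7 : Nat.card (Sylow 7 G) = 330 ∧
      ∀ P : Sylow 7 G, Nat.card (centralizer ((P : Subgroup G) : Set G)) = 7 := by
    have key : ∀ P : Sylow 7 G, Nat.card (Sylow 7 G) = 330 ∧
        Nat.card (centralizer ((P : Subgroup G) : Set G)) = 7 := by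
      intro P
      obtain ⟨-, e, c, hd, hmod, hne, he, he1, hec, hC, -⟩ :=
        o983_data 660 (h.trans (by norm_num)) (by norm_num) (by norm_num) P
      rcases o4620_arith7 _ e c hd hmod hne he he1 hec with ⟨h1, h3⟩ | ⟨h1, h3⟩ | ⟨h1, -, h3⟩
      · exfalso
        have hT := o983_ruleT (p := 7) (r := 11) (by norm_num) P
          (by rw [hC]; exact Dvd.dvd.mul_left h3 7) hne
        omega
      · exfalso
        have hT := o983_ruleT (p := 7) (r := 5) (by norm_num) P
          (by rw [hC]; exact Dvd.dvd.mul_left h3 7) hne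
        omega
      · exact ⟨h1, by rw [hC, h3]⟩
    obtain ⟨P⟩ : Nonempty (Sylow 7 G) := inferInstance
    exact ⟨(key P).1, fun Q => (key Q).2⟩
  -- `n_5 = 231`
  have hn5 : Nat.card (Sylow 5 G) = 231 := by
    obtain ⟨P⟩ : Nonempty (Sylow 5 G) := inferInstance
    obtain ⟨-, e, c, hd, hmod, hne, he, he1, hec, hC, hN⟩ :=
      o983_data 924 (h.trans (by norm_num)) (by norm_num) (by norm_num) P
    rcases o4620_arith5 _ e c hd hmod hne he he1 hec with h1 | ⟨h1, h3⟩ | ⟨h1, h3⟩ | ⟨h1, h3⟩ | h1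
    · exfalso
      have hidx : (normalizer ((P : Subgroup G) : Set G)).index = 6 := by
        rw [← h1]
        exact (Sylow.card_eq_index_normalizer P).symm
      have htop : normalizer ((P : Subgroup G) : Set G) ≠ ⊤ := by
        intro hh
        rw [hh, Subgroup.index_top] at hidx
        omega
      have := Cfsg.Agent.Helper9.OrdTools.card_dvd_factorial_index _ htop
      rw [hidx, h] at this
      norm_num [Nat.factorial] at this
    · exfalso
      have hT := o983_ruleT (p := 5) (r := 3) (by norm_num) P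
        (by rw [hC]; exact Dvd.dvd.mul_left h3 5) hne
      omega
    · exfalso
      have hT := o983_ruleT (p := 5) (r := 11) (by norm_num) P
        (by rw [hC]; exact Dvd.dvd.mul_left h3 5) hne
      omega
    · exfalso
      obtain ⟨Q⟩ : Nonempty (Sylow 7 G) := inferInstance
      have := o983_swap hS7 P (by rw [hC]; exact Dvd.dvd.mul_left h3 5) Q
      rw [hS5 P, hn7.2 Q] at this
      omega
    · exact h1
  -- count the elements of orders `11`, `7`, `5`
  have c11 := o983_count hS11
  have c7 := o983_count hS7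
  have c5 := o983_count hS5
  rw [hn11] at c11
  rw [hn7.1] at c7
  rw [hn5] at c5
  have hsum := o983_sum_le (G := G) {11, 7, 5}
  rw [Finset.sum_insert (by decide), Finset.sum_insert (by decide), Finset.sum_singleton, h]
    at hsum
  omega

end Cfsg.Agent.Helper72
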