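import Mathlib

/-!
# S1906 (CALL of helper14), piece SPLIT (helper72, double): position of the invariant line `L`
and its invariant complement `W` with respect to the sign basis.
-/

set_option autoImplicit false

namespace Cfsg.Agent.Helper72.S1906P

theorem fin3_aux72 {V : Type*} [AddCommMonoid V] (i : Fin 3) :
    ∃ j k : Fin 3, j ≠ i ∧ k ≠ i ∧ k ≠ j ∧ ∀ f : Fin 3 → V, ∑ m, f m = f i + f j + f k := by
  fin_cases i
  · exact ⟨1, 2, by decide, by decide, by decide, fun f => by rw [Fin.sum_univ_three]; rfl⟩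
  · exact ⟨0, 2, by decide, by decide, by decide, fun f => by
      rw [Fin.sum_univ_three]
      show f 0 + f 1 + f 2 = f 1 + f 0 + f 2
      abel⟩
  · exact ⟨0, 1, by decide, by decide, by decide, fun f => by
      rw [Fin.sum_univ_three]
      show f 0 + f 1 + f 2 = f 2 + f 0 + f 1
      abel⟩

section lin

variable {F : Type*} [Field F] {V : Type*} [AddCommGroup V] [Module F V] {P : Type*} [Group P]

/-- SPLIT. -/
theorem s1906_split (h2 : (2 : F) ≠ 0) (hV : Module.finrank F V = 3) (ρ : Representation F P V)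
    (E : Subgroup P) (b : Module.Basis (Fin 3) F V)
    (hfull : ∀ i : Fin 3, ∃ a ∈ E, ∀ j, ρ a (b j) = if j = i then -b j else b j)
    (L W : Submodule F V) (hL1 : Module.finrank F L = 1) (hLW : IsCompl L W)
    (hL : ∀ a ∈ E, ∀ v ∈ L, ρ a v ∈ L) (hW : ∀ a ∈ E, ∀ v ∈ W, ρ a v ∈ W) :
    ∃ u ∈ E, ∃ d ∈ E, (∀ v ∈ L, ρ u v = -v) ∧ (∀ v ∈ W, ρ u v = v) ∧
      ∃ v₁ ∈ W, ∃ v₂ ∈ W, v₁ ≠ 0 ∧ v₂ ≠ 0 ∧ ρ d v₁ = -v₁ ∧ ρ d v₂ = v₂ ∧
        ∀ v ∈ W, ∃ c₁ c₂ : F, v = c₁ • v₁ + c₂ • v₂ := by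
  classical
  choose e heE he using hfull
  have hcoord : ∀ i j : Fin 3, b.coord i (b j) = if j = i then 1 else 0 := by
    intro i j
    rw [Module.Basis.coord_apply, Module.Basis.repr_self, Finsupp.single_apply]
  have hform : ∀ (i : Fin 3) (v : V), ρ (e i) v = v - ((2 : F) * b.coord i v) • b i := by
    intro i v
    have hlin : ρ (e i) = LinearMap.id - (2 : F) • ((b.coord i).smulRight (b i)) := by
      apply b.ext
      intro j
      rw [he i j, LinearMap.sub_apply, LinearMap.id_apply, LinearMap.smul_apply,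
        LinearMap.smulRight_apply, hcoord]
      by_cases hji : j = i
      · subst hji
        rw [if_pos rfl, if_pos rfl, one_smul, two_smul]
        abel
      · rw [if_neg hji, if_neg hji, zero_smul, smul_zero, sub_zero]
    rw [hlin, LinearMap.sub_apply, LinearMap.id_apply, LinearMap.smul_apply,
      LinearMap.smulRight_apply, smul_smul]
  obtain ⟨ℓ, hℓL, hℓ0, hℓspan⟩ : ∃ ℓ ∈ L, ℓ ≠ 0 ∧ ∀ w ∈ L, ∃ c : F, c • ℓ = w := by
    obtain ⟨ℓ, hℓ0, hℓ⟩ := finrank_eq_one_iff'.mp hL1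
    refine ⟨ℓ, ℓ.2, fun h => hℓ0 (Subtype.ext h), fun w hw => ?_⟩
    obtain ⟨c, hc⟩ := hℓ ⟨w, hw⟩
    exact ⟨c, congrArg Subtype.val hc⟩
  obtain ⟨i₀, hi₀⟩ : ∃ i₀, b.coord i₀ ℓ ≠ 0 := by
    by_contra hcon
    push Not at hcon
    apply hℓ0
    rw [← b.sum_repr ℓ]
    apply Finset.sum_eq_zero
    intro i _
    have h := hcon i
    rw [Module.Basis.coord_apply] at h
    rw [h, zero_smul]
  have hbL : b i₀ ∈ L := by
    obtain ⟨c, hc⟩ := hℓspan _ (hL (e i₀) (heE i₀) ℓ hℓL)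
    rw [hform] at hc
    have h3 : ((2 : F) * b.coord i₀ ℓ) • b i₀ = (1 - c) • ℓ := by
      rw [sub_smul, one_smul, hc]
      abel
    have h4 : (2 : F) * b.coord i₀ ℓ ≠ 0 := mul_ne_zero h2 hi₀
    have h5 : b i₀ = ((2 : F) * b.coord i₀ ℓ)⁻¹ • ((1 - c) • ℓ) := by
      rw [← h3, smul_smul, inv_mul_cancel₀ h4, one_smul]
    rw [h5]
    exact L.smul_mem _ (L.smul_mem _ hℓL)
  have hLspan : ∀ v ∈ L, ∃ c : F, v = c • b i₀ := by
    intro v hv
    obtain ⟨c₀, hc₀⟩ := hℓspan _ hbL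
    have hc₀0 : c₀ ≠ 0 := by
      rintro rfl
      rw [zero_smul] at hc₀
      exact b.ne_zero i₀ hc₀.symm
    obtain ⟨c, hc⟩ := hℓspan v hv
    refine ⟨c * c₀⁻¹, ?_⟩
    rw [← hc₀, smul_smul, mul_assoc, inv_mul_cancel₀ hc₀0, mul_one, hc]
  have hcoordW : ∀ w ∈ W, b.coord i₀ w = 0 := by
    intro w hw
    have h3 := hW (e i₀) (heE i₀) w hw
    rw [hform] at h3
    have h4 : ((2 : F) * b.coord i₀ w) • b i₀ ∈ W := by
      have h := W.sub_mem hw h3
      rwa [sub_sub_cancel] at h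
    have h5 : ((2 : F) * b.coord i₀ w) • b i₀ ∈ L := L.smul_mem _ hbL
    have h6 : ((2 : F) * b.coord i₀ w) • b i₀ = 0 := by
      have h : ((2 : F) * b.coord i₀ w) • b i₀ ∈ L ⊓ W := ⟨h5, h4⟩
      rw [hLW.inf_eq_bot] at h
      exact (Submodule.mem_bot F).mp h
    rcases smul_eq_zero.mp h6 with h7 | h7
    · rcases mul_eq_zero.mp h7 with h8 | h8
      · exact absurd h8 h2
      · exact h8
    · exact absurd h7 (b.ne_zero i₀)
  have hbW : ∀ j, j ≠ i₀ → b j ∈ W := by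
    intro j hj
    have hmem : b j ∈ L ⊔ W := by
      rw [hLW.sup_eq_top]
      trivial
    obtain ⟨l, hl, w, hw, hlw⟩ := Submodule.mem_sup.mp hmem
    obtain ⟨c, hc⟩ := hLspan l hl
    have h3 := hcoordW w hw
    have h4 : w = b j - c • b i₀ := by
      rw [← hlw, hc]
      abel
    rw [h4, map_sub, map_smul, hcoord, hcoord, if_neg hj, if_pos rfl, smul_eq_mul, mul_one,
      zero_sub, neg_eq_zero] at h3
    rw [h3, zero_smul, sub_zero] at h4
    rw [← h4]
    exact hw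
  obtain ⟨j, k, hj, hk, hkj, hsum⟩ := fin3_aux72 (V := V) i₀
  refine ⟨e i₀, heE i₀, e j, heE j, ?_, ?_, b j, hbW j hj, b k, hbW k hk, b.ne_zero j,
    b.ne_zero k, ?_, ?_, ?_⟩
  · intro v hv
    obtain ⟨c, rfl⟩ := hLspan v hv
    rw [map_smul, he, if_pos rfl, smul_neg]
  · intro v hv
    rw [hform, hcoordW v hv, mul_zero, zero_smul, sub_zero]
  · rw [he, if_pos rfl]
  · rw [he, if_neg hkj]
  · intro v hv
    refine ⟨b.coord j v, b.coord k v, ?_⟩
    have h3 := b.sum_repr v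
    rw [hsum] at h3
    have h4 := hcoordW v hv
    rw [Module.Basis.coord_apply] at h4
    rw [h4, zero_smul, zero_add] at h3
    rw [Module.Basis.coord_apply, Module.Basis.coord_apply]
    exact h3.symm

end lin

end Cfsg.Agent.Helper72.S1906P
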