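import Mathlib

/-!
# S1906 (CALL of helper14), piece T1A (helper72, double): the transfer of an involution
-/

set_option autoImplicit false

namespace Cfsg.Agent.Helper72.S1906P

section transfer

variable {G : Type*} [Group G] [Finite G] {A : Type*} [CommGroup A]

open scoped Classical in
/-- T1A. The transfer of an involution. -/
theorem s1906_t1a (H : Subgroup G) (ϕ : ↥H →* A) (u : G) (hu2 : u * u = 1) :
    MonoidHom.transfer ϕ u =
      ∏ᶠ q : G ⧸ H, (if h : q.out⁻¹ * u * q.out ∈ H then ϕ ⟨q.out⁻¹ * u * q.out, h⟩ else 1) := by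
  classical
  let _ := H.fintypeQuotientOfFiniteIndex
  obtain ⟨Φ, hΦ⟩ : ∃ Φ : G → A, Φ = fun x => if h : x ∈ H then ϕ ⟨x, h⟩ else 1 := ⟨_, rfl⟩
  have hΦpos : ∀ (x : G) (h : x ∈ H), ϕ ⟨x, h⟩ = Φ x := by
    intro x h
    rw [hΦ]
    simp only
    rw [dif_pos h]
  have hΦneg : ∀ x : G, x ∉ H → Φ x = 1 := by
    intro x h
    rw [hΦ]
    simp only
    rw [dif_neg h]
  have hΦmul : ∀ x y : G, x ∈ H → y ∈ H → Φ x * Φ y = Φ (x * y) := by
    intro x y hx hy
    rw [← hΦpos x hx, ← hΦpos y hy, ← hΦpos (x * y) (H.mul_mem hx hy), ← map_mul]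
    rfl
  have hΦone : Φ 1 = 1 := by
    rw [← hΦpos 1 H.one_mem]
    exact map_one ϕ
  have huinv : u⁻¹ = u := inv_eq_of_mul_eq_one_right hu2
  -- the transversal `q ↦ q.out`
  obtain ⟨T₀, hT₀⟩ : ∃ T₀ : H.LeftTransversal,
      ∀ q : G ⧸ H, (T₀.2.leftQuotientEquiv q : G) = q.out :=
    ⟨⟨Set.range Quotient.out, Subgroup.isComplement_range_left Quotient.out_eq'⟩,
      fun q => Subgroup.IsComplement.leftQuotientEquiv_apply Quotient.out_eq' q⟩
  have hmk : ∀ q : G ⧸ H, ((q.out : G) : G ⧸ H) = q := fun q => Quotient.out_eq' q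
  have hsm : ∀ (g : G) (q : G ⧸ H), ((g * q.out : G) : G ⧸ H) = g • q := by
    intro g q
    conv_rhs => rw [← hmk q]
    rfl
  have h1 : MonoidHom.transfer ϕ u = ∏ q : G ⧸ H, Φ (q.out⁻¹ * (u * (u • q).out)) := by
    rw [MonoidHom.transfer_def ϕ T₀ u]
    unfold Subgroup.leftTransversals.diff
    apply Finset.prod_congr rfl
    intro q _
    rw [hΦpos]
    congr 1
    rw [hT₀, Subgroup.smul_apply_eq_smul_apply_inv_smul, hT₀, huinv]
    rfl
  have h2 : (∏ᶠ q : G ⧸ H,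
      (if h : q.out⁻¹ * u * q.out ∈ H then ϕ ⟨q.out⁻¹ * u * q.out, h⟩ else 1)) =
      ∏ q : G ⧸ H, Φ (q.out⁻¹ * u * q.out) := by
    rw [finprod_eq_prod_of_fintype]
    apply Finset.prod_congr rfl
    intro q _
    rw [hΦ]
  rw [h1, h2]
  -- the involution `q ↦ u • q`
  have hσσ : ∀ q : G ⧸ H, u • (u • q) = q := by
    intro q
    rw [← mul_smul, hu2, one_smul]
  have hfix : ∀ q : G ⧸ H, q.out⁻¹ * u * q.out ∈ H ↔ u • q = q := by
    intro q
    rw [mul_assoc, ← QuotientGroup.eq, hsm, hmk]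
    exact eq_comm
  have hmemH : ∀ q : G ⧸ H, q.out⁻¹ * (u * (u • q).out) ∈ H := by
    intro q
    rw [← QuotientGroup.eq, hsm, hmk, hσσ]
  have hgF : ∀ q : G ⧸ H, u • q = q →
      Φ (q.out⁻¹ * (u * (u • q).out)) = Φ (q.out⁻¹ * u * q.out) := by
    intro q hq
    rw [hq, mul_assoc]
  have hF1 : ∀ q : G ⧸ H, u • q ≠ q → Φ (q.out⁻¹ * u * q.out) = 1 :=
    fun q hq => hΦneg _ (fun h => hq ((hfix q).mp h))
  have hgg : ∀ q : G ⧸ H,
      Φ (q.out⁻¹ * (u * (u • q).out)) * Φ ((u • q).out⁻¹ * (u * (u • (u • q)).out)) = 1 := by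
    intro q
    rw [hΦmul _ _ (hmemH q) (hmemH (u • q)), hσσ]
    have h3 : q.out⁻¹ * (u * (u • q).out) * ((u • q).out⁻¹ * (u * q.out)) =
        q.out⁻¹ * (u * u) * q.out := by group
    rw [h3, hu2, mul_one, inv_mul_cancel, hΦone]
  have key : ∏ q : G ⧸ H,
      (Φ (q.out⁻¹ * (u * (u • q).out)) * (Φ (q.out⁻¹ * u * q.out))⁻¹) = 1 := by
    apply Finset.prod_ninvolution (fun q : G ⧸ H => u • q)
    · intro q
      by_cases hq : u • q = q
      · rw [hgF q hq, mul_inv_cancel, one_mul, hq, hgF q hq, mul_inv_cancel]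
      · have hq' : u • (u • q) ≠ u • q := by
          rw [hσσ]
          exact fun h => hq h.symm
        rw [hF1 q hq, hF1 (u • q) hq', inv_one, mul_one, mul_one]
        exact hgg q
    · intro q hne hq
      apply hne
      rw [hgF q hq, mul_inv_cancel]
    · intro q
      exact Finset.mem_univ _
    · intro q
      exact hσσ q
  rw [Finset.prod_mul_distrib, Finset.prod_inv_distrib, mul_inv_eq_one] at key
  exact key

end transfer

end Cfsg.Agent.Helper72.S1906P
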