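import Mathlib
import Cfsg.Agent.Helper72.ClassPrimePow
import Cfsg.Agent.Helper72.CaminaHerzog
import Cfsg.Agent.Helper73.ConjCover
import Cfsg.Agent.Helper67.Conj

/-!
# Groups with squarefree conjugacy class sizes: basic tools (helper72)

`SqfCls G`: every conjugacy class of `G` has squarefree size.  Inherited by quotients and normal
subgroups.  A centralizer meets a normal `p`-subgroup in a subgroup of index dividing `p`; every
element centralizes a subgroup of index dividing `r` of some Sylow `r`-subgroup; and if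
`Z(G) = 1` every Sylow subgroup is abelian of prime exponent.
-/

set_option autoImplicit false

namespace Cfsg.Agent.Helper72

open Pointwise

universe u

section
variable {G : Type u} [Group G]

/-- All conjugacy class sizes are squarefree. -/
def SqfCls (G : Type u) [Group G] : Prop :=
  ∀ x : G, Squarefree (Subgroup.centralizer ({x} : Set G)).index

theorem SqfCls.map (h : SqfCls G) {H : Type u} [Group H] (f : G →* H)
    (hf : Function.Surjective f) : SqfCls H := by
  intro y
  obtain ⟨x, rfl⟩ := hf y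
  exact Squarefree.squarefree_of_dvd (index_centralizer_map_dvd f hf x) (h x)

theorem SqfCls.quotient (h : SqfCls G) (N : Subgroup G) [N.Normal] : SqfCls (G ⧸ N) :=
  h.map (QuotientGroup.mk' N) (QuotientGroup.mk'_surjective N)

theorem SqfCls.subgroup [Finite G] (h : SqfCls G) (N : Subgroup G) [N.Normal] : SqfCls N := by
  intro x
  have h1 : Subgroup.centralizer ({x} : Set N)
      = (Subgroup.centralizer ({(x : G)} : Set G)).subgroupOf N := by
    ext c
    rw [Subgroup.mem_centralizer_singleton_iff, Subgroup.mem_subgroupOf,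
      Subgroup.mem_centralizer_singleton_iff, Subtype.ext_iff]
    rfl
  rw [h1]
  exact Squarefree.squarefree_of_dvd (relIndex_dvd_index_of_normal_right _ N) (h x)

theorem sqf_prime_pow_dvd {p : ℕ} (hp : p.Prime) {m n : ℕ} (hsq : Squarefree m)
    (hd : m ∣ p ^ n) : m ∣ p := by
  obtain ⟨b, -, hb⟩ := (Nat.dvd_prime_pow hp).mp hd
  rw [hb] at hsq ⊢
  rcases Nat.lt_or_ge b 2 with hb2 | hb2
  · interval_cases b
    · simp
    · simp
  · exfalso
    have h2 : p * p ∣ p ^ b := by
      calc p * p = p ^ 2 := (sq p).symm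
        _ ∣ p ^ b := pow_dvd_pow p hb2
    exact hp.one_lt.ne' (Nat.isUnit_iff.mp (hsq p h2))

/-- **F1.** A centralizer meets a normal `p`-subgroup in a subgroup of index dividing `p`. -/
theorem SqfCls.relIndex_dvd_prime [Finite G] (h : SqfCls G) {p : ℕ} [Fact p.Prime]
    (V : Subgroup G) [V.Normal] (hV : IsPGroup p V) (x : G) :
    (Subgroup.centralizer ({x} : Set G)).relIndex V ∣ p := by
  have hp : p.Prime := Fact.out
  have h1 : Squarefree ((Subgroup.centralizer ({x} : Set G)).relIndex V) :=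
    Squarefree.squarefree_of_dvd (relIndex_dvd_index_of_normal_right _ V) (h x)
  have h2 : (Subgroup.centralizer ({x} : Set G)).relIndex V ∣ Nat.card V :=
    Subgroup.relIndex_dvd_card _ _
  obtain ⟨n, hn⟩ := hV.exists_card_eq
  rw [hn] at h2
  exact sqf_prime_pow_dvd hp h1 h2

/-- **A3'.** Every element centralizes a subgroup of index dividing `r` in some Sylow
`r`-subgroup. -/
theorem SqfCls.exists_sylow_centralizer [Finite G] (h : SqfCls G) (x : G) (r : ℕ)
    [Fact r.Prime] :
    ∃ (R : Sylow r G) (D : Subgroup G), D ≤ (R : Subgroup G) ∧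
      D ≤ Subgroup.centralizer ({x} : Set G) ∧ D.relIndex (R : Subgroup G) ∣ r := by
  have hr : r.Prime := Fact.out
  obtain ⟨C, hC⟩ : ∃ C : Subgroup G, C = Subgroup.centralizer ({x} : Set G) := ⟨_, rfl⟩
  obtain ⟨Q⟩ : Nonempty (Sylow r C) := inferInstance
  obtain ⟨D, hD⟩ : ∃ D : Subgroup G, D = (Q : Subgroup C).map C.subtype := ⟨_, rfl⟩
  have hDC : D ≤ C := by
    rw [hD]
    rintro _ ⟨c, -, rfl⟩
    exact c.2
  have hDcard : Nat.card D = Nat.card (Q : Subgroup C) := by
    rw [hD]
    exact Subgroup.card_map_of_injective C.subtype_injective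
  have hDp : IsPGroup r D := by
    rw [hD]
    exact Q.2.map _
  obtain ⟨R, hR⟩ := hDp.exists_le_sylow
  refine ⟨R, D, hR, hC ▸ hDC, ?_⟩
  have h1 : Nat.card D * D.relIndex (R : Subgroup G) = Nat.card (R : Subgroup G) := by
    have := Subgroup.relIndex_mul_relIndex (⊥ : Subgroup G) D (R : Subgroup G) bot_le hR
    rwa [Subgroup.relIndex_bot_left, Subgroup.relIndex_bot_left] at this
  rw [hDcard, Q.card_eq_multiplicity, R.card_eq_multiplicity] at h1
  have h2 : Nat.card G = Nat.card C * C.index := (Subgroup.card_mul_index C).symm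
  have h3 : (Nat.card G).factorization r ≤ (Nat.card C).factorization r + 1 := by
    rw [h2, Nat.factorization_mul Nat.card_pos.ne' (Subgroup.index_ne_zero_of_finite)]
    have := Squarefree.natFactorization_le_one r (hC ▸ h x)
    simp only [Finsupp.coe_add, Pi.add_apply]
    omega
  have h4 : r ^ (Nat.card C).factorization r * D.relIndex (R : Subgroup G) ∣
      r ^ (Nat.card C).factorization r * r := by
    rw [h1, ← pow_succ]
    exact pow_dvd_pow r h3
  exact Nat.dvd_of_mul_dvd_mul_left (pow_pos hr.pos _) h4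

/-- If `D` has index dividing `r` in the `r`-group `R`, then `D` contains all commutators and
all `r`-th powers of `R`. -/
theorem comm_pow_mem_of_relIndex_dvd [Finite G] {r : ℕ} [Fact r.Prime] (R D : Subgroup G)
    (hR : IsPGroup r R) (hDR : D ≤ R) (hidx : D.relIndex R ∣ r) {a b : G} (ha : a ∈ R)
    (hb : b ∈ R) : a * b * a⁻¹ * b⁻¹ ∈ D ∧ a ^ r ∈ D := by
  have hr : r.Prime := Fact.out
  rcases (Nat.dvd_prime hr).mp hidx with h1 | h1
  · have hRD : R ≤ D := Subgroup.relIndex_eq_one.mp h1
    exact ⟨D.mul_mem (D.mul_mem (D.mul_mem (hRD ha) (hRD hb)) (D.inv_mem (hRD ha)))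
      (D.inv_mem (hRD hb)), D.pow_mem (hRD ha) r⟩
  · obtain ⟨n, hn⟩ := hR.exists_card_eq
    have hn0 : n ≠ 0 := by
      rintro rfl
      rw [pow_zero] at hn
      have h2 : D.relIndex R ∣ Nat.card R := Subgroup.relIndex_dvd_card _ _
      rw [h1, hn] at h2
      exact hr.one_lt.ne' (Nat.dvd_one.mp h2)
    have hmf : (Nat.card R).minFac = r := by
      rw [hn]
      exact hr.pow_minFac hn0
    have hnorm : (D.subgroupOf R).Normal := by
      apply Subgroup.normal_of_index_eq_minFac_card
      rw [hmf]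
      exact h1
    have hcard : Nat.card (↥R ⧸ D.subgroupOf R) = r := by
      rw [← Subgroup.index_eq_card]
      exact h1
    haveI : IsCyclic (↥R ⧸ D.subgroupOf R) := isCyclic_of_prime_card hcard
    have hcomm : ∀ u v : ↥R ⧸ D.subgroupOf R, u * v = v * u := fun u v =>
      (IsCyclic.commGroup.mul_comm u v)
    constructor
    · have h3 : ((⟨a, ha⟩ * ⟨b, hb⟩ * ⟨a, ha⟩⁻¹ * ⟨b, hb⟩⁻¹ : R) : ↥R ⧸ D.subgroupOf R) = 1 := by
        rw [QuotientGroup.mk_mul, QuotientGroup.mk_mul, QuotientGroup.mk_mul,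
          QuotientGroup.mk_inv, QuotientGroup.mk_inv,
          hcomm ((⟨a, ha⟩ : R) : ↥R ⧸ D.subgroupOf R) _]
        group
      rw [QuotientGroup.eq_one_iff] at h3
      exact Subgroup.mem_subgroupOf.mp h3
    · have h3 : (((⟨a, ha⟩ : R) ^ r : R) : ↥R ⧸ D.subgroupOf R) = 1 := by
        rw [QuotientGroup.mk_pow]
        conv_lhs => rw [← hcard]
        exact pow_card_eq_one'
      rw [QuotientGroup.eq_one_iff] at h3
      exact Subgroup.mem_subgroupOf.mp h3

/-- **B2.** If `Z(G) = 1` then every Sylow subgroup of `G` is abelian of prime exponent. -/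
theorem SqfCls.sylow_comm_exp [Finite G] (h : SqfCls G) (hZ : Subgroup.center G = ⊥)
    {r : ℕ} [Fact r.Prime] (R : Sylow r G) {a b : G} (ha : a ∈ (R : Subgroup G))
    (hb : b ∈ (R : Subgroup G)) : a * b = b * a ∧ a ^ r = 1 := by
  -- every element `c` obtained as a commutator or `r`-th power in `R` is central
  have key : ∀ c : G, (∀ (R' : Sylow r G) (D : Subgroup G), D ≤ (R' : Subgroup G) →
      D.relIndex (R' : Subgroup G) ∣ r → ∃ k : G, k * c * k⁻¹ ∈ D) → c = 1 := by
    intro c hc
    have hcen : c ∈ Subgroup.center G := by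
      by_contra hcon
      have hne : Subgroup.centralizer ({c} : Set G) ≠ ⊤ := by
        intro htop
        apply hcon
        rw [Subgroup.mem_center_iff]
        intro g
        have : g ∈ Subgroup.centralizer ({c} : Set G) := htop ▸ Subgroup.mem_top g
        exact Subgroup.mem_centralizer_singleton_iff.mp this
      obtain ⟨g, hg⟩ := Helper73.exists_not_mem_conj _ hne
      obtain ⟨R', D, hDR, hDC, hidx⟩ := h.exists_sylow_centralizer g r
      obtain ⟨k, hk⟩ := hc R' D hDR hidx
      apply hg k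
      rw [Helper67.mem_conj_smul_iff, Subgroup.mem_centralizer_singleton_iff]
      have h1 := Subgroup.mem_centralizer_singleton_iff.mp (hDC hk)
      -- h1 : k * c * k⁻¹ * g = g * (k * c * k⁻¹)
      calc k⁻¹ * g * k * c = k⁻¹ * (g * (k * c * k⁻¹)) * k := by group
        _ = k⁻¹ * (k * c * k⁻¹ * g) * k := by rw [h1]
        _ = c * (k⁻¹ * g * k) := by group
    rw [hZ] at hcen
    exact Subgroup.mem_bot.mp hcen
  have hconj : ∀ R' : Sylow r G, ∃ k : G, ∀ v ∈ (R : Subgroup G),
      k * v * k⁻¹ ∈ (R' : Subgroup G) := by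
    intro R'
    obtain ⟨k, hk⟩ := MulAction.exists_smul_eq G R R'
    refine ⟨k, fun v hv => ?_⟩
    rw [← hk, mem_smul_sylow_iff]
    have : k⁻¹ * (k * v * k⁻¹) * k = v := by group
    rw [this]
    exact hv
  constructor
  · have h1 : a * b * a⁻¹ * b⁻¹ = 1 := by
      apply key
      intro R' D hDR hidx
      obtain ⟨k, hk⟩ := hconj R'
      refine ⟨k, ?_⟩
      have h2 := (comm_pow_mem_of_relIndex_dvd (R' : Subgroup G) D R'.2 hDR hidx
        (hk a ha) (hk b hb)).1
      have h3 : k * (a * b * a⁻¹ * b⁻¹) * k⁻¹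
          = k * a * k⁻¹ * (k * b * k⁻¹) * (k * a * k⁻¹)⁻¹ * (k * b * k⁻¹)⁻¹ := by group
      rw [h3]
      exact h2
    calc a * b = a * b * a⁻¹ * b⁻¹ * (b * a) := by group
      _ = b * a := by rw [h1, one_mul]
  · apply key
    intro R' D hDR hidx
    obtain ⟨k, hk⟩ := hconj R'
    refine ⟨k, ?_⟩
    have h2 := (comm_pow_mem_of_relIndex_dvd (R' : Subgroup G) D R'.2 hDR hidx
      (hk a ha) (hk a ha)).2
    have h3 : k * a ^ r * k⁻¹ = (k * a * k⁻¹) ^ r := by
      rw [conj_pow]
    rw [h3]
    exact h2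

end

end Cfsg.Agent.Helper72
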