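import Mathlib
import Cfsg.Agent.Helper72.Sqf1

/-!
# Groups with squarefree conjugacy class sizes are solvable (helper72)

An elementary proof (Burnside's counting lemma + transfer into an abelian Sylow subgroup): a
finite group with squarefree class sizes and no proper nontrivial normal subgroup is abelian.
-/

set_option autoImplicit false

namespace Cfsg.Agent.Helper72

open Pointwise

universe u

section
variable {G : Type u} [Group G]

/-- The nontrivial elements with `v ^ p = 1`, as a `G`-set under conjugation. -/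
def ordSub (G : Type u) [Group G] (p : ℕ) : SubMulAction (ConjAct G) G where
  carrier := {v | v ≠ 1 ∧ v ^ p = 1}
  smul_mem' := by
    intro c v hv
    change v ≠ 1 ∧ v ^ p = 1 at hv
    change c • v ≠ 1 ∧ (c • v) ^ p = 1
    rw [ConjAct.smul_def]
    refine ⟨fun h => hv.1 ?_, ?_⟩
    · have h2 : v = (ConjAct.ofConjAct c)⁻¹ *
          (ConjAct.ofConjAct c * v * (ConjAct.ofConjAct c)⁻¹) * ConjAct.ofConjAct c := by group
      rw [h2, h]; group
    · rw [conj_pow, hv.2]; group

theorem mem_ordSub {p : ℕ} {v : G} : v ∈ ordSub G p ↔ v ≠ 1 ∧ v ^ p = 1 := Iff.rfl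

theorem card_le_card_succ_of_range [Finite G] (D : Subgroup G) {Y : Type*} [Finite Y]
    (f : Y → G) (h : ∀ d ∈ D, d ≠ 1 → d ∈ Set.range f) : Nat.card D ≤ Nat.card Y + 1 := by
  have h1 : (D : Set G) ⊆ insert 1 (Set.range f) := by
    intro d hd
    by_cases h1 : d = 1
    · exact Or.inl h1
    · exact Or.inr (h d hd h1)
  have h2 : (Set.range f).ncard ≤ Nat.card Y := by
    rw [← Set.image_univ, ← Set.ncard_univ]
    exact Set.ncard_image_le
  calc Nat.card D = (D : Set G).ncard := (Nat.card_coe_set_eq _)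
    _ ≤ (insert 1 (Set.range f)).ncard := Set.ncard_le_ncard h1 (Set.toFinite _)
    _ ≤ (Set.range f).ncard + 1 := Set.ncard_insert_le 1 _
    _ ≤ Nat.card Y + 1 := by omega

/-- Burnside count: if every element centralizes a subgroup of order `≥ m` consisting of
elements with `d ^ p = 1`, and some such subgroup has order `> m`, then there are at least `m`
classes of nontrivial elements with `v ^ p = 1`. -/
theorem card_orbits_ordSub_ge [Finite G] (p m : ℕ)
    (h1 : ∀ g : G, ∃ D : Subgroup G, m ≤ Nat.card D ∧ ∀ d ∈ D, d ^ p = 1 ∧ g * d = d * g)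
    (h2 : ∃ P : Subgroup G, m < Nat.card P ∧ ∀ d ∈ P, d ^ p = 1) :
    m ≤ Nat.card (Quotient (MulAction.orbitRel (ConjAct G) (ordSub G p))) := by
  classical
  have : Fintype G := Fintype.ofFinite _
  have : Fintype (ConjAct G) := inferInstanceAs (Fintype G)
  obtain ⟨X, hX⟩ : ∃ X : SubMulAction (ConjAct G) G, X = ordSub G p := ⟨_, rfl⟩
  rw [← hX]
  have : Fintype X := Fintype.ofFinite X
  have : ∀ g : ConjAct G, Fintype (MulAction.fixedBy X g) := fun g => Fintype.ofFinite _
  have : Fintype (Quotient (MulAction.orbitRel (ConjAct G) X)) := Fintype.ofFinite _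
  have hB := MulAction.sum_card_fixedBy_eq_card_orbits_mul_card_group (ConjAct G) X
  have hfixD : ∀ (g : ConjAct G) (D : Subgroup G),
      (∀ d ∈ D, d ^ p = 1 ∧ ConjAct.ofConjAct g * d = d * ConjAct.ofConjAct g) →
      Nat.card D ≤ Fintype.card (MulAction.fixedBy X g) + 1 := by
    intro g D hD
    rw [← Nat.card_eq_fintype_card]
    apply card_le_card_succ_of_range D (fun y : MulAction.fixedBy X g => ((y : X) : G))
    intro d hd hd1
    have hdX : d ∈ X := by
      rw [hX]
      exact ⟨hd1, (hD d hd).1⟩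
    refine ⟨⟨⟨d, hdX⟩, ?_⟩, rfl⟩
    rw [MulAction.mem_fixedBy]
    apply Subtype.ext
    show g • d = d
    rw [ConjAct.smul_def, (hD d hd).2]
    group
  have hfix : ∀ g : ConjAct G, m ≤ Fintype.card (MulAction.fixedBy X g) + 1 := by
    intro g
    obtain ⟨D, hmD, hD⟩ := h1 (ConjAct.ofConjAct g)
    exact hmD.trans (hfixD g D hD)
  have hfix1 : m + 1 ≤ Fintype.card (MulAction.fixedBy X (1 : ConjAct G)) + 1 := by
    obtain ⟨P, hmP, hP⟩ := h2
    have := hfixD 1 P (fun d hd => ⟨hP d hd, by simp⟩)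
    omega
  have hsum : m * Fintype.card (ConjAct G) + 1 ≤
      ∑ g : ConjAct G, (Fintype.card (MulAction.fixedBy X g) + 1) := by
    rw [← Finset.add_sum_erase Finset.univ _ (Finset.mem_univ (1 : ConjAct G))]
    have h3 : ∑ g ∈ Finset.univ.erase (1 : ConjAct G), m ≤
        ∑ g ∈ Finset.univ.erase (1 : ConjAct G), (Fintype.card (MulAction.fixedBy X g) + 1) :=
      Finset.sum_le_sum (fun g _ => hfix g)
    rw [Finset.sum_const, Finset.card_erase_of_mem (Finset.mem_univ _), Finset.card_univ,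
      smul_eq_mul] at h3
    obtain ⟨c', hc'⟩ : ∃ c', Fintype.card (ConjAct G) = c' + 1 :=
      ⟨_, (Nat.succ_pred_eq_of_pos Fintype.card_pos).symm⟩
    rw [hc'] at h3 ⊢
    have h5 : m * (c' + 1) = c' * m + m := by ring
    rw [Nat.add_sub_cancel] at h3
    omega
  rw [Finset.sum_add_distrib, Finset.sum_const, Finset.card_univ, smul_eq_mul, mul_one, hB]
    at hsum
  rw [Nat.card_eq_fintype_card]
  have h6 : m * Fintype.card (ConjAct G) <
      (Fintype.card (Quotient (MulAction.orbitRel (ConjAct G) X)) + 1) *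
        Fintype.card (ConjAct G) := by
    rw [add_mul, one_mul]
    omega
  have := Nat.lt_of_mul_lt_mul_right h6
  omega

/-- The classes of nontrivial elements with `v ^ p = 1` inject into `ConjClasses G`. -/
theorem card_orbits_ordSub_le [Finite G] (p : ℕ) :
    Nat.card (Quotient (MulAction.orbitRel (ConjAct G) (ordSub G p))) ≤
      (ConjClasses.mk '' {v : G | v ≠ 1 ∧ v ^ p = 1}).ncard := by
  obtain ⟨φ, hφ⟩ : ∃ φ : Quotient (MulAction.orbitRel (ConjAct G) (ordSub G p)) → ConjClasses G,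
      ∀ x : ordSub G p, φ (Quotient.mk _ x) = ConjClasses.mk (x : G) := by
    refine ⟨Quotient.lift (fun x : ordSub G p => ConjClasses.mk (x : G)) ?_, fun x => rfl⟩
    intro a b hab
    obtain ⟨c, hc⟩ := hab
    apply ConjClasses.mk_eq_mk_iff_isConj.mpr
    rw [isConj_iff]
    refine ⟨(ConjAct.ofConjAct c)⁻¹, ?_⟩
    have h1 : (a : G) = ConjAct.ofConjAct c * (b : G) * (ConjAct.ofConjAct c)⁻¹ := by
      rw [← hc]; rfl
    rw [h1]; group
  have hinj : Function.Injective φ := by
    intro q₁ q₂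
    induction q₁ using Quotient.inductionOn with | _ a
    induction q₂ using Quotient.inductionOn with | _ b
    intro h
    apply Quotient.sound
    rw [hφ, hφ, ConjClasses.mk_eq_mk_iff_isConj, isConj_iff] at h
    obtain ⟨c, hc⟩ := h
    refine ⟨ConjAct.toConjAct c⁻¹, ?_⟩
    apply Subtype.ext
    show ConjAct.toConjAct c⁻¹ • (b : G) = a
    rw [ConjAct.smul_def, ConjAct.ofConjAct_toConjAct, ← hc]; group
  have hrange : Set.range φ ⊆ ConjClasses.mk '' {v : G | v ≠ 1 ∧ v ^ p = 1} := by
    rintro _ ⟨q, rfl⟩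
    induction q using Quotient.inductionOn with | _ a
    exact ⟨a, a.2, (hφ a).symm⟩
  calc Nat.card _ = (Set.range φ).ncard := by
        rw [← Set.image_univ, Set.ncard_image_of_injective _ hinj, Set.ncard_univ]
    _ ≤ _ := Set.ncard_le_ncard hrange (Set.toFinite _)

/-- A finite group with squarefree class sizes and no proper nontrivial normal subgroup is
abelian. -/
theorem SqfCls.comm_of_simple [Finite G] (h : SqfCls G)
    (hs : ∀ N : Subgroup G, N.Normal → N = ⊥ ∨ N = ⊤) (a b : G) : a * b = b * a := by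
  classical
  by_contra hab
  have hnt : Nontrivial G := ⟨⟨a * b, b * a, hab⟩⟩
  have hZ : Subgroup.center G = ⊥ := by
    refine (hs _ inferInstance).resolve_right (fun htop => hab ?_)
    have hb : b ∈ Subgroup.center G := htop ▸ Subgroup.mem_top b
    exact (Subgroup.mem_center_iff.mp hb a)
  have hcard : Nat.card G ≠ 1 := (Finite.one_lt_card (α := G)).ne'
  obtain ⟨p, hpdef⟩ : ∃ p, p = (Nat.card G).minFac := ⟨_, rfl⟩
  have hp : p.Prime := hpdef ▸ Nat.minFac_prime hcard
  have : Fact p.Prime := ⟨hp⟩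
  have hpG : p ∣ Nat.card G := hpdef ▸ Nat.minFac_dvd _
  obtain ⟨P⟩ : Nonempty (Sylow p G) := inferInstance
  have hPab : ∀ {a b : G}, a ∈ (P : Subgroup G) → b ∈ (P : Subgroup G) →
      a * b = b * a ∧ a ^ p = 1 :=
    fun ha hb => h.sylow_comm_exp hZ P ha hb
  obtain ⟨k, hk⟩ : ∃ k, k = (Nat.card G).factorization p := ⟨_, rfl⟩
  have hk1 : 1 ≤ k := hk ▸ hp.factorization_pos_of_dvd Nat.card_pos.ne' hpG
  have hPcard : Nat.card (P : Subgroup G) = p ^ k := hk ▸ P.card_eq_multiplicity
  obtain ⟨k', rfl⟩ : ∃ k', k = k' + 1 := ⟨k - 1, by omega⟩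
  -- Burnside count
  have hcount : p ^ k' ≤ (ConjClasses.mk '' {v : G | v ≠ 1 ∧ v ^ p = 1}).ncard := by
    refine le_trans (card_orbits_ordSub_ge p (p ^ k') ?_ ?_) (card_orbits_ordSub_le p)
    · intro g
      obtain ⟨R, D, hDR, hDC, hidx⟩ := h.exists_sylow_centralizer g p
      refine ⟨D, ?_, fun d hd => ⟨(h.sylow_comm_exp hZ R (hDR hd) (hDR hd)).2,
        (Subgroup.mem_centralizer_singleton_iff.mp (hDC hd)).symm⟩⟩
      have h1 : Nat.card D * D.relIndex (R : Subgroup G) = Nat.card (R : Subgroup G) := by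
        have := Subgroup.relIndex_mul_relIndex (⊥ : Subgroup G) D (R : Subgroup G) bot_le hDR
        rwa [Subgroup.relIndex_bot_left, Subgroup.relIndex_bot_left] at this
      rw [R.card_eq_multiplicity, ← hk, pow_succ] at h1
      have h2 : D.relIndex (R : Subgroup G) ≤ p := Nat.le_of_dvd hp.pos hidx
      have h3 : p ^ k' * p ≤ Nat.card D * p := by
        rw [← h1]; exact Nat.mul_le_mul_left _ h2
      exact Nat.le_of_mul_le_mul_right h3 hp.pos
    · refine ⟨P, ?_, fun d hd => (hPab hd hd).2⟩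
      rw [hPcard, pow_succ]
      have := hp.one_lt
      have h4 : 0 < p ^ k' := pow_pos hp.pos _
      nlinarith
  -- pigeonhole
  obtain ⟨S, hSdef⟩ : ∃ S : Finset G, S = (Set.toFinite ((P : Set G) \ {1})).toFinset :=
    ⟨_, rfl⟩
  obtain ⟨t, htdef⟩ : ∃ t : Finset (ConjClasses G),
      t = (Set.toFinite (ConjClasses.mk '' {v : G | v ≠ 1 ∧ v ^ p = 1})).toFinset := ⟨_, rfl⟩
  have hPn : (P : Set G).ncard = p ^ (k' + 1) := by
    rw [← hPcard]; exact (Nat.card_coe_set_eq _).symm
  have hscard : S.card = p ^ (k' + 1) - 1 := by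
    rw [hSdef, ← Set.ncard_eq_toFinset_card,
      Set.ncard_sdiff_singleton_of_mem (show (1 : G) ∈ (P : Set G) from Subgroup.one_mem _),
      hPn]
  have htcard : p ^ k' ≤ t.card := by
    rw [htdef, ← Set.ncard_eq_toFinset_card]; exact hcount
  have hn : S.card < t.card * p := by
    rw [hscard, pow_succ]
    have h4 : 0 < p ^ k' := pow_pos hp.pos _
    have := Nat.mul_le_mul_right p htcard
    have h5 : 0 < p ^ k' * p := Nat.mul_pos h4 hp.pos
    omega
  obtain ⟨y, hyt, hy⟩ := Finset.exists_card_fiber_lt_of_card_lt_mul (f := ConjClasses.mk) hn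
  -- a representative in `P`
  rw [htdef, Set.Finite.mem_toFinset] at hyt
  obtain ⟨x, ⟨hx1, hxp⟩, hxy⟩ := hyt
  have hxo : orderOf x = p ^ 1 := by rw [pow_one]; exact orderOf_eq_prime hxp hx1
  obtain ⟨Q, hQ⟩ := (isPGroup_zpowers hxo).exists_le_sylow
  obtain ⟨c, hc⟩ := MulAction.exists_smul_eq G Q P
  obtain ⟨u₀, hu₀⟩ : ∃ u₀, u₀ = c * x * c⁻¹ := ⟨_, rfl⟩
  have hu₀P : u₀ ∈ (P : Subgroup G) := by
    rw [← hc, mem_smul_sylow_iff, hu₀]
    have h1 : c⁻¹ * (c * x * c⁻¹) * c = x := by group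
    rw [h1]
    exact hQ (Subgroup.mem_zpowers x)
  have hu₀1 : u₀ ≠ 1 := by
    intro h1
    apply hx1
    have h2 : x = c⁻¹ * u₀ * c := by rw [hu₀]; group
    rw [h2, h1]; group
  have hu₀y : ConjClasses.mk u₀ = y := by
    rw [← hxy, ConjClasses.mk_eq_mk_iff_isConj, isConj_iff]
    exact ⟨c⁻¹, by rw [hu₀]; group⟩
  -- `u₀` is central in `N(P)`
  obtain ⟨N, hN⟩ : ∃ N : Subgroup G, N = Subgroup.normalizer ((P : Subgroup G) : Set G) :=
    ⟨_, rfl⟩
  have hPN : (P : Subgroup G) ≤ N := hN ▸ Subgroup.le_normalizer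
  have hcen : ∀ n ∈ N, n * u₀ = u₀ * n := by
    obtain ⟨x₀, hx₀⟩ : ∃ x₀ : N, x₀ = ⟨u₀, hPN hu₀P⟩ := ⟨_, rfl⟩
    have hidx_lt : (Subgroup.centralizer ({x₀} : Set N)).index < p := by
      rw [← Helper67.ncard_conjClass_eq_index,
        ← Set.ncard_image_of_injective _ Subtype.val_injective]
      refine lt_of_le_of_lt ?_ hy
      rw [← Set.ncard_coe_finset]
      apply Set.ncard_le_ncard _ (Set.toFinite _)
      rintro _ ⟨w, hw, rfl⟩
      rw [ConjClasses.mem_carrier_iff_mk_eq, ConjClasses.mk_eq_mk_iff_isConj, isConj_iff] at hw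
      obtain ⟨n, hn⟩ := hw
      have hn' : (n : G) * (w : G) * (n : G)⁻¹ = u₀ := by
        have h1 := congrArg Subtype.val hn
        rw [hx₀] at h1
        exact h1
      have hwP : (w : G) ∈ (P : Subgroup G) := by
        have hnN : (n : G) ∈ Subgroup.normalizer ((P : Subgroup G) : Set G) := hN ▸ n.2
        rw [Subgroup.mem_normalizer_iff.mp hnN (w : G), hn']
        exact hu₀P
      have hw1 : (w : G) ≠ 1 := by
        intro h1
        apply hu₀1
        rw [← hn', h1]; group
      rw [Finset.mem_coe, Finset.mem_filter]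
      refine ⟨?_, ?_⟩
      · rw [hSdef, Set.Finite.mem_toFinset]
        exact ⟨hwP, hw1⟩
      · rw [← hu₀y, ConjClasses.mk_eq_mk_iff_isConj, isConj_iff]
        exact ⟨n, hn'⟩
    have hidx_dvd : (Subgroup.centralizer ({x₀} : Set N)).index ∣ Nat.card G :=
      (Subgroup.index_dvd_card _).trans (Subgroup.card_subgroup_dvd_card N)
    have hidx1 : (Subgroup.centralizer ({x₀} : Set N)).index = 1 := by
      by_contra hne
      have hq := Nat.minFac_prime hne
      have h1 : p ≤ (Subgroup.centralizer ({x₀} : Set N)).index.minFac := by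
        rw [hpdef]
        exact Nat.minFac_le_of_dvd hq.two_le ((Nat.minFac_dvd _).trans hidx_dvd)
      have h2 : (Subgroup.centralizer ({x₀} : Set N)).index.minFac ≤
          (Subgroup.centralizer ({x₀} : Set N)).index :=
        Nat.minFac_le (Nat.pos_of_ne_zero Subgroup.index_ne_zero_of_finite)
      omega
    rw [Subgroup.index_eq_one] at hidx1
    intro n hn
    have h1 : (⟨n, hn⟩ : N) ∈ Subgroup.centralizer ({x₀} : Set N) :=
      hidx1 ▸ Subgroup.mem_top _
    rw [Subgroup.mem_centralizer_singleton_iff] at h1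
    have h2 := congrArg Subtype.val h1
    rw [hx₀] at h2
    exact h2
  -- transfer
  letI : CommGroup (P : Subgroup G) :=
    { (inferInstance : Group (P : Subgroup G)) with
      mul_comm := fun a b => Subtype.ext (hPab a.2 b.2).1 }
  have : IsMulCommutative (P : Subgroup G) :=
    ⟨⟨fun a b => Subtype.ext (hPab a.2 b.2).1⟩⟩
  obtain ⟨T, hT⟩ : ∃ T : G →* (P : Subgroup G),
      T = MonoidHom.transfer (MonoidHom.id (P : Subgroup G)) := ⟨_, rfl⟩
  have key : ∀ (k : ℕ) (g₀ : G), g₀⁻¹ * u₀ ^ k * g₀ ∈ (P : Subgroup G) →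
      g₀⁻¹ * u₀ ^ k * g₀ = u₀ ^ k := by
    intro k g₀ hmem
    obtain ⟨n, hn, hn'⟩ :=
      P.conj_eq_normalizer_conj_of_mem (u₀ ^ k) g₀ (Subgroup.pow_mem _ hu₀P k) hmem
    rw [hn']
    have h1 : n * u₀ = u₀ * n := hcen n (hN ▸ hn)
    have h2 : n * u₀ ^ k = u₀ ^ k * n := (Commute.pow_right (show Commute n u₀ from h1) k).eq
    rw [mul_assoc, ← h2]; group
  have hTu : T u₀ = ⟨u₀ ^ (P : Subgroup G).index, MonoidHom.transfer_eq_pow_aux u₀ key⟩ := by
    rw [hT]
    exact MonoidHom.transfer_eq_pow _ u₀ key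
  have hTu1 : T u₀ ≠ 1 := by
    intro h1
    rw [hTu] at h1
    have h2 : u₀ ^ (P : Subgroup G).index = 1 := congrArg Subtype.val h1
    have h3 : orderOf u₀ = p := orderOf_eq_prime (hPab hu₀P hu₀P).2 hu₀1
    have h4 : orderOf u₀ ∣ (P : Subgroup G).index := orderOf_dvd_of_pow_eq_one h2
    rw [h3] at h4
    exact P.not_dvd_index h4
  have hker : T.ker = ⊥ := by
    refine (hs T.ker inferInstance).resolve_right (fun htop => hTu1 ?_)
    have h1 : u₀ ∈ T.ker := htop ▸ Subgroup.mem_top _
    exact MonoidHom.mem_ker.mp h1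
  apply hab
  apply (MonoidHom.ker_eq_bot_iff T).mp hker
  rw [map_mul, map_mul]
  exact Subtype.ext (hPab (T a).2 (T b).2).1

/-- **Solvability.** A finite group with squarefree class sizes is solvable. -/
theorem SqfCls.isSolvable_aux (n : ℕ) : ∀ (G : Type u) [Group G] [Finite G],
    Nat.card G = n → SqfCls G → Group.IsSolvable G := by
  induction n using Nat.strong_induction_on with
  | _ n ih =>
    intro G _ _ hcard h
    by_cases hN : ∃ N : Subgroup G, N.Normal ∧ N ≠ ⊥ ∧ N ≠ ⊤
    · obtain ⟨N, hNn, hNb, hNt⟩ := hN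
      have hlt1 : Nat.card N < Nat.card G :=
        lt_of_le_of_ne (Subgroup.card_le_card_group N)
          (fun h => hNt ((Subgroup.card_eq_iff_eq_top N).mp h))
      have hlt2 : Nat.card (G ⧸ N) < Nat.card G := by
        have h1 := Subgroup.card_mul_index N
        rw [Subgroup.index_eq_card] at h1
        have h2 : 1 < Nat.card N := by
          rw [Subgroup.one_lt_card_iff_ne_bot]; exact hNb
        have h3 := Nat.card_pos (α := G ⧸ N)
        nlinarith
      have : Group.IsSolvable N := ih _ (hcard ▸ hlt1) N rfl (h.subgroup N)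
      have : Group.IsSolvable (G ⧸ N) := ih _ (hcard ▸ hlt2) (G ⧸ N) rfl (h.quotient N)
      refine Group.isSolvable_of_ker_le_range N.subtype (QuotientGroup.mk' N) ?_
      rw [QuotientGroup.ker_mk', Subgroup.range_subtype]
    · push Not at hN
      refine Group.isSolvable_of_comm (h.comm_of_simple (fun N hNn => ?_))
      by_cases hb : N = ⊥
      · exact Or.inl hb
      · exact Or.inr (hN N hNn hb)

theorem SqfCls.isSolvable [Finite G] (h : SqfCls G) : Group.IsSolvable G :=
  SqfCls.isSolvable_aux _ G rfl h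

end

end Cfsg.Agent.Helper72
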