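import Mathlib
import Cfsg.Agent.Helper72.Sqf2
import Cfsg.Agent.Helper9.Supersolvable

/-!
# Squarefree class sizes: a trichotomy for actions with small fixed-point index, and
supersolvability (helper72)

`apl_trichotomy`: if a group `Γ` acts on a finite group `A` such that each commutator map
`δ_g : a ↦ g(a) a⁻¹` is a homomorphism whose kernel has index dividing the prime `p`, then either
the action is trivial, or all nontrivial `δ_g` have the same kernel, or all `δ_g` have image in
one subgroup of order `p`.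
-/

set_option autoImplicit false

namespace Cfsg.Agent.Helper72

universe u

section apl
variable {Γ A : Type*} [Group Γ] [Group A] [Finite A]

theorem eq_zpowers_of_card_dvd_prime {p : ℕ} (hp : p.Prime) {L : Subgroup A}
    (hL : Nat.card L ∣ p) {u : A} (hu : u ∈ L) (hu1 : u ≠ 1) : L = Subgroup.zpowers u := by
  symm
  apply Subgroup.eq_of_le_of_card_ge (by rwa [Subgroup.zpowers_le])
  rw [Nat.card_zpowers]
  have h1 : orderOf u ∣ Nat.card L := by
    have h := orderOf_dvd_natCard (⟨u, hu⟩ : L)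
    rwa [Subgroup.orderOf_mk] at h
  have h2 : orderOf u ≠ 1 := fun h => hu1 (orderOf_eq_one_iff.mp h)
  have h3 : orderOf u = p := ((Nat.dvd_prime hp).mp (h1.trans hL)).resolve_left h2
  rw [h3]
  exact Nat.le_of_dvd hp.pos hL

variable {p : ℕ} (hp : p.Prime) (ρ : Γ →* MulAut A) (δ : Γ → (A →* A))
  (hδ : ∀ g a, δ g a = ρ g a * a⁻¹) (hidx : ∀ g, (δ g).ker.index ∣ p)
include hp hδ hidx

set_option linter.unusedSectionVars false in
theorem apl_card_range (g : Γ) : Nat.card (δ g).range ∣ p := by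
  rw [← Subgroup.index_ker]; exact hidx g

set_option linter.unusedSectionVars false in
theorem apl_index_eq (g : Γ) (hg : (δ g).ker ≠ ⊤) : (δ g).ker.index = p := by
  rcases (Nat.dvd_prime hp).mp (hidx g) with h1 | h1
  · exact absurd (Subgroup.index_eq_one.mp h1) hg
  · exact h1

/-- Two maps `δ_g`, `δ_h` whose images share a nontrivial element have the same image. -/
theorem apl_range_eq_of_common (g h : Γ) {u : A} (hu1 : u ≠ 1) (hug : u ∈ (δ g).range)
    (huh : u ∈ (δ h).range) : (δ g).range = (δ h).range := by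
  rw [eq_zpowers_of_card_dvd_prime hp (apl_card_range hp ρ δ hδ hidx g) hug hu1,
    eq_zpowers_of_card_dvd_prime hp (apl_card_range hp ρ δ hδ hidx h) huh hu1]

theorem apl_claim (g h : Γ) (hg : (δ g).ker ≠ ⊤) (hh : (δ h).ker ≠ ⊤)
    (hne : (δ g).ker ≠ (δ h).ker) : (δ g).range = (δ h).range := by
  have hfix : ∀ g a, a ∈ (δ g).ker ↔ ρ g a = a := by
    intro g a; rw [MonoidHom.mem_ker, hδ, mul_inv_eq_one]
  have hnle : ∀ g h, (δ g).ker ≠ ⊤ → (δ h).ker ≠ ⊤ → (δ g).ker ≠ (δ h).ker →
      ∃ a, a ∈ (δ h).ker ∧ a ∉ (δ g).ker := by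
    intro g h hg hh hne
    by_contra hcon
    push Not at hcon
    apply hne
    symm
    apply Subgroup.eq_of_le_of_card_ge hcon
    have h1 := Subgroup.card_mul_index (δ g).ker
    have h2 := Subgroup.card_mul_index (δ h).ker
    rw [apl_index_eq hp ρ δ hδ hidx g hg] at h1
    rw [apl_index_eq hp ρ δ hδ hidx h hh] at h2
    exact le_of_eq (Nat.eq_of_mul_eq_mul_right hp.pos (h1.trans h2.symm))
  obtain ⟨a, hah, hag⟩ := hnle g h hg hh hne
  obtain ⟨b, hbg, hbh⟩ := hnle h g hh hg (Ne.symm hne)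
  have hu1 : δ g a ≠ 1 := fun h1 => hag (MonoidHom.mem_ker.mpr h1)
  have hu2 : δ (g * h) a = δ g a := by
    rw [hδ, hδ, map_mul, MulAut.mul_apply, (hfix h a).mp hah]
  obtain ⟨c, hc⟩ : ∃ c, c = ρ h⁻¹ b := ⟨_, rfl⟩
  have hhc : ρ h c = b := by
    rw [hc, ← MulAut.mul_apply, ← map_mul, mul_inv_cancel, map_one, MulAut.one_apply]
  have hv1 : δ h c ≠ 1 := by
    intro h1
    have h2 : ρ h c = c := (hfix h c).mp (MonoidHom.mem_ker.mpr h1)
    apply hbh
    rw [hfix]
    rw [hhc] at h2
    rw [h2, hhc, ← h2]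
  have hv2 : δ (g * h) c = δ h c := by
    rw [hδ, hδ, map_mul, MulAut.mul_apply, hhc, (hfix g b).mp hbg]
  rw [apl_range_eq_of_common hp ρ δ hδ hidx g (g * h) hu1 ⟨a, rfl⟩ ⟨a, hu2⟩,
    apl_range_eq_of_common hp ρ δ hδ hidx (g * h) h hv1 ⟨c, hv2⟩ ⟨c, rfl⟩]

/-- **Trichotomy.** -/
theorem apl_trichotomy :
    (∀ g, (δ g).ker = ⊤) ∨
    (∃ g₀, (δ g₀).ker ≠ ⊤ ∧ ∀ g, (δ g).ker = ⊤ ∨ (δ g).ker = (δ g₀).ker) ∨
    (∃ g₀, Nat.card (δ g₀).range = p ∧ ∀ g, (δ g).range ≤ (δ g₀).range) := by
  by_cases h1 : ∀ g, (δ g).ker = ⊤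
  · exact Or.inl h1
  right
  push Not at h1
  obtain ⟨g₀, hg₀⟩ := h1
  by_cases h2 : ∀ g, (δ g).ker = ⊤ ∨ (δ g).ker = (δ g₀).ker
  · left
    exact ⟨g₀, hg₀, h2⟩
  right
  push Not at h2
  obtain ⟨g₁, hg₁, hne⟩ := h2
  have e01 : (δ g₁).range = (δ g₀).range := apl_claim hp ρ δ hδ hidx g₁ g₀ hg₁ hg₀ hne
  refine ⟨g₀, ?_, ?_⟩
  · rw [← Subgroup.index_ker]; exact apl_index_eq hp ρ δ hδ hidx g₀ hg₀
  · intro g
    by_cases hg : (δ g).ker = ⊤
    · rintro _ ⟨a, rfl⟩
      have h3 : a ∈ (δ g).ker := hg ▸ Subgroup.mem_top a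
      rw [MonoidHom.mem_ker.mp h3]
      exact Subgroup.one_mem _
    · by_cases hg0 : (δ g).ker = (δ g₀).ker
      · have h3 : (δ g).ker ≠ (δ g₁).ker := fun h => hne (h.symm.trans hg0)
        exact (apl_claim hp ρ δ hδ hidx g g₁ hg hg₁ h3).le.trans e01.le
      · exact (apl_claim hp ρ δ hδ hidx g g₀ hg hg₀ hg0).le

end apl

section comm
variable {G : Type u} [Group G]

/-- The commutator map `a ↦ g a g⁻¹ a⁻¹` on an abelian normal subgroup `V`. -/
noncomputable def commHom (V : Subgroup G) [V.Normal] (hab : ∀ a b : V, a * b = b * a) (g : G) :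
    V →* V :=
  MonoidHom.mk' (fun a => MulAut.conjNormal g a * a⁻¹) (by
    intro a b
    rw [map_mul, mul_inv_rev]
    calc MulAut.conjNormal g a * MulAut.conjNormal g b * (b⁻¹ * a⁻¹)
        = MulAut.conjNormal g a * ((MulAut.conjNormal g b * b⁻¹) * a⁻¹) := by group
      _ = MulAut.conjNormal g a * (a⁻¹ * (MulAut.conjNormal g b * b⁻¹)) := by
          rw [hab (MulAut.conjNormal g b * b⁻¹) a⁻¹]
      _ = _ := by group)

variable (V : Subgroup G) [V.Normal] (hab : ∀ a b : V, a * b = b * a)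

theorem commHom_apply (g : G) (a : V) :
    commHom V hab g a = MulAut.conjNormal g a * a⁻¹ := rfl

theorem commHom_coe (g : G) (a : V) :
    ((commHom V hab g a : V) : G) = g * a * g⁻¹ * (a : G)⁻¹ := by
  rw [commHom_apply, Subgroup.coe_mul, MulAut.conjNormal_apply, Subgroup.coe_inv]

theorem commHom_conj (x g : G) (a : V) :
    commHom V hab (x * g * x⁻¹) (MulAut.conjNormal x a)
      = MulAut.conjNormal x (commHom V hab g a) := by
  apply Subtype.ext
  rw [commHom_coe, MulAut.conjNormal_apply, MulAut.conjNormal_apply, commHom_coe]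
  group

theorem mem_commHom_ker {g : G} {a : V} : a ∈ (commHom V hab g).ker ↔ g * a = a * g := by
  rw [MonoidHom.mem_ker, ← Subtype.coe_inj, commHom_coe, Subgroup.coe_one]
  constructor
  · intro h
    calc g * a = g * a * g⁻¹ * (a : G)⁻¹ * (a * g) := by group
      _ = a * g := by rw [h, one_mul]
  · intro h
    rw [h]; group

theorem commHom_ker_eq (g : G) :
    (commHom V hab g).ker = (Subgroup.centralizer ({g} : Set G)).subgroupOf V := by
  ext a
  rw [mem_commHom_ker, Subgroup.mem_subgroupOf, Subgroup.mem_centralizer_singleton_iff]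
  exact eq_comm

theorem SqfCls.commHom_index [Finite G] (h : SqfCls G) {p : ℕ} [Fact p.Prime]
    (hV : IsPGroup p V) (g : G) : (commHom V hab g).ker.index ∣ p := by
  rw [commHom_ker_eq]
  exact h.relIndex_dvd_prime V hV g

theorem commHom_range_normal (g₀ : G)
    (hall : ∀ g, (commHom V hab g).range ≤ (commHom V hab g₀).range) :
    ((commHom V hab g₀).range.map V.subtype).Normal := by
  constructor
  intro n hn x
  obtain ⟨l, ⟨a, rfl⟩, rfl⟩ := hn
  refine ⟨MulAut.conjNormal x (commHom V hab g₀ a), ?_, ?_⟩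
  · rw [← commHom_conj]
    exact hall _ ⟨_, rfl⟩
  · rw [Subgroup.coe_subtype, MulAut.conjNormal_apply]

theorem commHom_ker_normal (g₀ : G) (hne : (commHom V hab g₀).ker ≠ ⊤)
    (hall : ∀ g, (commHom V hab g).ker = ⊤ ∨ (commHom V hab g).ker = (commHom V hab g₀).ker) :
    ((commHom V hab g₀).ker.map V.subtype).Normal := by
  constructor
  intro n hn x
  obtain ⟨a, ha, rfl⟩ := hn
  have h1 : MulAut.conjNormal x a ∈ (commHom V hab (x * g₀ * x⁻¹)).ker := by
    rw [MonoidHom.mem_ker, commHom_conj, MonoidHom.mem_ker.mp ha, map_one]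
  rcases hall (x * g₀ * x⁻¹) with h2 | h2
  · exfalso
    apply hne
    rw [eq_top_iff]
    intro c _
    have h3 : MulAut.conjNormal x c ∈ (commHom V hab (x * g₀ * x⁻¹)).ker :=
      h2 ▸ Subgroup.mem_top _
    rw [MonoidHom.mem_ker, commHom_conj] at h3
    rw [MonoidHom.mem_ker]
    exact (map_eq_one_iff (MulAut.conjNormal x : MulAut V) (MulEquiv.injective _)).mp h3
  · rw [h2] at h1
    exact ⟨MulAut.conjNormal x a, h1, by rw [Subgroup.coe_subtype, MulAut.conjNormal_apply]⟩

end comm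

section ss
variable {G : Type u} [Group G]

/-- A nontrivial finite group with squarefree class sizes has a nontrivial cyclic normal
subgroup. -/
theorem SqfCls.exists_normal_cyclic [Finite G] [Nontrivial G] (h : SqfCls G) :
    ∃ N : Subgroup G, N.Normal ∧ IsCyclic N ∧ N ≠ ⊥ := by
  classical
  have hsol := h.isSolvable
  have hex : ∃ n, ∃ N : Subgroup G, N.Normal ∧ N ≠ ⊥ ∧ Nat.card N = n :=
    ⟨_, ⊤, inferInstance, top_ne_bot, rfl⟩
  obtain ⟨N, hNn, hNb, hNc⟩ := Nat.find_spec hex
  have hmin : ∀ M : Subgroup G, M.Normal → M ≤ N → M ≠ N → M = ⊥ := by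
    intro M hMn hMN hne
    by_contra hMb
    have h1 := Nat.find_min' hex ⟨M, hMn, hMb, rfl⟩
    rw [← hNc] at h1
    exact hne (Subgroup.eq_of_le_of_card_ge hMN h1)
  -- abelian
  have hcomm : ∀ a b : G, a ∈ N → b ∈ N → a * b = b * a := by
    have h1 : ⁅N, N⁆ = ⊥ := by
      have := hNn
      exact hmin _ inferInstance (Group.IsSolvable.commutator_lt_of_ne_bot hNb).le
        (Group.IsSolvable.commutator_lt_of_ne_bot hNb).ne
    rw [Subgroup.commutator_eq_bot_iff_le_centralizer] at h1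
    intro a b ha hb
    exact (Subgroup.mem_centralizer_iff.mp (h1 ha) b hb).symm
  -- exponent p
  have hNcard : Nat.card N ≠ 1 := fun h1 => hNb (Subgroup.card_eq_one.mp h1)
  obtain ⟨p, hpdef⟩ : ∃ p, p = (Nat.card N).minFac := ⟨_, rfl⟩
  have hp : p.Prime := hpdef ▸ Nat.minFac_prime hNcard
  have : Fact p.Prime := ⟨hp⟩
  have hpN : p ∣ Nat.card N := hpdef ▸ Nat.minFac_dvd _
  have hexp : ∀ a ∈ N, a ^ p = 1 := by
    obtain ⟨Ω, hΩ⟩ : ∃ Ω : Subgroup G, ∀ a, a ∈ Ω ↔ a ∈ N ∧ a ^ p = 1 :=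
      ⟨{ carrier := {a | a ∈ N ∧ a ^ p = 1}
         mul_mem' := by
           rintro a b ⟨ha, hap⟩ ⟨hb, hbp⟩
           exact ⟨N.mul_mem ha hb, by
             rw [(show Commute a b from hcomm a b ha hb).mul_pow, hap, hbp, one_mul]⟩
         one_mem' := ⟨N.one_mem, one_pow _⟩
         inv_mem' := by
           rintro a ⟨ha, hap⟩
           exact ⟨N.inv_mem ha, by rw [inv_pow, hap, inv_one]⟩ }, fun a => Iff.rfl⟩
    have hΩn : Ω.Normal := by
      constructor
      intro a ha x
      rw [hΩ] at ha ⊢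
      exact ⟨hNn.conj_mem a ha.1 x, by rw [conj_pow, ha.2]; group⟩
    have hΩN : Ω ≤ N := fun a ha => ((hΩ a).mp ha).1
    have hΩb : Ω ≠ ⊥ := by
      obtain ⟨x, hx⟩ := exists_prime_orderOf_dvd_card' (G := N) p hpN
      intro hbot
      have h1 : (x : G) ∈ Ω := by
        rw [hΩ]
        refine ⟨x.2, ?_⟩
        rw [← hx, ← Subgroup.orderOf_coe]
        exact pow_orderOf_eq_one _
      rw [hbot, Subgroup.mem_bot] at h1
      have h2 : x = 1 := Subtype.ext h1
      rw [h2, orderOf_one] at hx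
      exact hp.one_lt.ne hx
    have hΩeq : Ω = N := by
      by_contra hne
      exact hΩb (hmin Ω hΩn hΩN hne)
    intro a ha
    exact ((hΩ a).mp (hΩeq ▸ ha)).2
  have hNp : IsPGroup p N := by
    intro a
    refine ⟨1, ?_⟩
    rw [pow_one]
    exact Subtype.ext (by rw [Subgroup.coe_pow]; exact hexp a a.2)
  have hab : ∀ a b : N, a * b = b * a := fun a b => Subtype.ext (hcomm a b a.2 b.2)
  have := hNn
  rcases apl_trichotomy hp (MulAut.conjNormal (H := N)) (commHom N hab) (fun g a => rfl)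
    (fun g => h.commHom_index N hab hNp g) with h1 | ⟨g₀, hg₀, h1⟩ | ⟨g₀, hg₀, h1⟩
  · -- central
    obtain ⟨z, hzN, hz1⟩ : ∃ z ∈ N, z ≠ 1 := by
      by_contra hcon
      push Not at hcon
      exact hNb ((Subgroup.eq_bot_iff_forall N).mpr hcon)
    have hzc : ∀ g : G, g * z = z * g := by
      intro g
      have h2 : (⟨z, hzN⟩ : N) ∈ (commHom N hab g).ker := h1 g ▸ Subgroup.mem_top _
      exact (mem_commHom_ker N hab).mp h2
    refine ⟨Subgroup.zpowers z, ?_, inferInstance, ?_⟩
    · constructor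
      intro n hn x
      obtain ⟨k, rfl⟩ := Subgroup.mem_zpowers_iff.mp hn
      have h2 : x * z ^ k * x⁻¹ = z ^ k := by
        have h3 : Commute x (z ^ k) := (show Commute x z from hzc x).zpow_right k
        rw [h3.eq]; group
      rw [h2]
      exact Subgroup.zpow_mem_zpowers z k
    · rw [Ne, Subgroup.zpowers_eq_bot]; exact hz1
  · -- common kernel
    have hKn := commHom_ker_normal N hab g₀ hg₀ h1
    have hKb : (commHom N hab g₀).ker.map N.subtype = ⊥ := by
      apply hmin _ hKn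
      · rintro _ ⟨a, -, rfl⟩; exact a.2
      · intro heq
        apply hg₀
        rw [eq_top_iff]
        intro c _
        have h2 : (c : G) ∈ (commHom N hab g₀).ker.map N.subtype := by
          rw [heq]; exact c.2
        obtain ⟨a, ha, hac⟩ := h2
        have h3 : a = c := Subtype.ext hac
        exact h3 ▸ ha
    have hker : (commHom N hab g₀).ker = ⊥ := by
      rw [eq_bot_iff]
      intro a ha
      have h2 : (a : G) ∈ (commHom N hab g₀).ker.map N.subtype := ⟨a, ha, rfl⟩
      rw [hKb, Subgroup.mem_bot] at h2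
      exact Subgroup.mem_bot.mpr (Subtype.ext h2)
    have hcard : Nat.card N = p := by
      have h2 := apl_index_eq hp (MulAut.conjNormal (H := N)) (commHom N hab) (fun g a => rfl)
        (fun g => h.commHom_index N hab hNp g) g₀ hg₀
      rwa [hker, Subgroup.index_bot] at h2
    exact ⟨N, hNn, isCyclic_of_prime_card hcard, hNb⟩
  · -- common image
    have hLn := commHom_range_normal N hab g₀ h1
    have hLcard : Nat.card ((commHom N hab g₀).range.map N.subtype) = p := by
      rw [Subgroup.card_map_of_injective N.subtype_injective]; exact hg₀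
    refine ⟨_, hLn, isCyclic_of_prime_card hLcard, ?_⟩
    intro hbot
    rw [hbot, Subgroup.card_bot] at hLcard
    exact hp.one_lt.ne hLcard

/-- **Supersolvability.** -/
theorem SqfCls.isSupersolvable_aux (n : ℕ) : ∀ (G : Type u) [Group G] [Finite G],
    Nat.card G = n → SqfCls G → Cfsg.IsSupersolvable G := by
  induction n using Nat.strong_induction_on with
  | _ n ih =>
    intro G _ _ hcard h
    by_cases hnt : Nontrivial G
    · obtain ⟨N, hNn, hNc, hNb⟩ := h.exists_normal_cyclic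
      have hlt : Nat.card (G ⧸ N) < Nat.card G := by
        have h1 := Subgroup.card_mul_index N
        rw [Subgroup.index_eq_card] at h1
        have h2 : 1 < Nat.card N := by
          rw [Subgroup.one_lt_card_iff_ne_bot]; exact hNb
        have h3 := Nat.card_pos (α := G ⧸ N)
        nlinarith
      exact Helper9.ss_of_cyclic_of_quotient N (ih _ (hcard ▸ hlt) (G ⧸ N) rfl (h.quotient N))
    · rw [not_nontrivial_iff_subsingleton] at hnt
      exact ⟨0, fun _ => ⊥, rfl, (Subgroup.eq_bot_of_subsingleton ⊤).symm,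
        fun _ => inferInstance, fun i => i.elim0⟩

theorem SqfCls.isSupersolvable [Finite G] (h : SqfCls G) : Cfsg.IsSupersolvable G :=
  SqfCls.isSupersolvable_aux _ G rfl h

end ss

end Cfsg.Agent.Helper72
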