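import Mathlib
import Cfsg.Agent.Helper72.Sqf3

/-!
# Squarefree class sizes: tools for the commutator subgroup (helper72)

* `knoche`: a finite `p`-group all of whose class sizes divide `p` has all commutators in a
  subgroup of order dividing `p`.
* `SqfCls.comm_of_not_centralized`: a normal `p`-subgroup not centralized by some `p'`-element is
  abelian.
* `commutator_le_of_central_mod`: if `V ⊇ G'` is a normal Sylow `p`-subgroup and `[G, V] ≤ D`
  with `D` normal, then `G' ≤ D`.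
-/

set_option autoImplicit false

namespace Cfsg.Agent.Helper72

universe u

section tools
variable {G : Type u} [Group G]

/-- If `y` commutes with `u` and `y v = u v y` then `y^k v = u^k v y^k`. -/
theorem pow_mul_eq_of_comm {y u v : G} (h1 : y * u = u * y) (h2 : y * v = u * v * y) (k : ℕ) :
    y ^ k * v = u ^ k * v * y ^ k := by
  induction k with
  | zero => simp
  | succ k ih =>
    have h3 : y * u ^ k = u ^ k * y := (Commute.pow_right (show Commute y u from h1) k).eq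
    calc y ^ (k + 1) * v = y * (y ^ k * v) := by rw [pow_succ', mul_assoc]
      _ = y * (u ^ k * v * y ^ k) := by rw [ih]
      _ = (y * u ^ k) * v * y ^ k := by simp only [mul_assoc]
      _ = u ^ k * (y * v) * y ^ k := by rw [h3]; simp only [mul_assoc]
      _ = u ^ k * (u * v * y) * y ^ k := by rw [h2]
      _ = u ^ (k + 1) * v * y ^ (k + 1) := by rw [pow_succ, pow_succ']; simp only [mul_assoc]

theorem eq_one_of_pow_eq_one_of_isPGroup {p n : ℕ} (V : Subgroup G) (hV : IsPGroup p V)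
    (hn : n.Coprime p) {u : G} (hu : u ∈ V) (h : u ^ n = 1) : u = 1 := by
  obtain ⟨k, hk⟩ := hV ⟨u, hu⟩
  have hk' : u ^ p ^ k = 1 := by
    have := congrArg Subtype.val hk
    simpa using this
  have h1 : orderOf u ∣ n := orderOf_dvd_of_pow_eq_one h
  have h2 : orderOf u ∣ p ^ k := orderOf_dvd_of_pow_eq_one hk'
  have h3 : orderOf u ∣ Nat.gcd n (p ^ k) := Nat.dvd_gcd h1 h2
  rw [show Nat.gcd n (p ^ k) = 1 from Nat.Coprime.pow_right k hn] at h3
  exact orderOf_eq_one_iff.mp (Nat.dvd_one.mp h3)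

/-- A subgroup of index dividing `r` in an `r`-group `R` is normalized by `R`. -/
theorem conj_mem_of_relIndex_dvd [Finite G] {r : ℕ} [Fact r.Prime] (R D : Subgroup G)
    (hR : IsPGroup r R) (hDR : D ≤ R) (hidx : D.relIndex R ∣ r) {v c : G} (hv : v ∈ R)
    (hc : c ∈ D) : v * c * v⁻¹ ∈ D := by
  have h1 := (comm_pow_mem_of_relIndex_dvd R D hR hDR hidx hv (hDR hc)).1
  have h2 : v * c * v⁻¹ = v * c * v⁻¹ * c⁻¹ * c := by group
  rw [h2]
  exact D.mul_mem h1 hc

/-- If `C` has index dividing `p` in `V` and `Z ⊇ C` contains an element of `V \ C`, then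
`V ≤ Z`. -/
theorem le_of_relIndex_dvd_prime {p : ℕ} (hp : p.Prime) {C V Z : Subgroup G} (hCV : C ≤ V)
    (hidx : C.relIndex V ∣ p) (hCZ : C ≤ Z) {w : G} (hwZ : w ∈ Z) (hwV : w ∈ V) (hwC : w ∉ C) :
    V ≤ Z := by
  have h1 := Subgroup.relIndex_mul_relIndex C (Z ⊓ V) V (le_inf hCZ hCV) inf_le_right
  have h2 : C.relIndex (Z ⊓ V) ≠ 1 := by
    intro h
    exact hwC (Subgroup.relIndex_eq_one.mp h ⟨hwZ, hwV⟩)
  have h3 : C.relIndex (Z ⊓ V) ∣ p := (Dvd.intro _ h1).trans hidx
  have h4 : C.relIndex (Z ⊓ V) = p := ((Nat.dvd_prime hp).mp h3).resolve_left h2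
  rw [h4] at h1
  have h5 : p * (Z ⊓ V).relIndex V ∣ p * 1 := by rw [h1, mul_one]; exact hidx
  have h6 : (Z ⊓ V).relIndex V = 1 := Nat.dvd_one.mp (Nat.dvd_of_mul_dvd_mul_left hp.pos h5)
  exact (Subgroup.relIndex_eq_one.mp h6).trans inf_le_left

end tools

section knoche
variable {P : Type u} [Group P] [Finite P]

/-- **Knoche.** A finite `p`-group all of whose class sizes divide `p` has all its commutators
in a subgroup of order dividing `p`. -/
theorem knoche {p : ℕ} [Fact p.Prime] (hP : IsPGroup p P)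
    (hidx : ∀ x : P, (Subgroup.centralizer ({x} : Set P)).index ∣ p) :
    ∃ L : Subgroup P, Nat.card L ∣ p ∧ ∀ a b : P, a * b * a⁻¹ * b⁻¹ ∈ L := by
  have hp : p.Prime := Fact.out
  have hcen : ∀ a b x : P, x * (a * b * a⁻¹ * b⁻¹) = (a * b * a⁻¹ * b⁻¹) * x := by
    intro a b x
    have h1 := (comm_pow_mem_of_relIndex_dvd (⊤ : Subgroup P)
      (Subgroup.centralizer ({x} : Set P)) (hP.to_subgroup ⊤) le_top
      (by rw [Subgroup.relIndex_top_right]; exact hidx x) (Subgroup.mem_top a)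
      (Subgroup.mem_top b)).1
    exact (Subgroup.mem_centralizer_singleton_iff.mp h1).symm
  obtain ⟨δ, hδ⟩ : ∃ δ : P → (P →* P), ∀ g a, δ g a = MulAut.conj g a * a⁻¹ := by
    refine ⟨fun g => MonoidHom.mk' (fun a => MulAut.conj g a * a⁻¹) ?_, fun g a => rfl⟩
    intro a b
    simp only [MulAut.conj_apply]
    have h1 := hcen g b a⁻¹
    calc g * (a * b) * g⁻¹ * (a * b)⁻¹
        = g * a * g⁻¹ * ((g * b * g⁻¹ * b⁻¹) * a⁻¹) := by group
      _ = g * a * g⁻¹ * (a⁻¹ * (g * b * g⁻¹ * b⁻¹)) := by rw [h1]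
      _ = _ := by group
  have hker : ∀ g a, a ∈ (δ g).ker ↔ g * a = a * g := by
    intro g a
    rw [MonoidHom.mem_ker, hδ, MulAut.conj_apply]
    constructor
    · intro h
      calc g * a = g * a * g⁻¹ * a⁻¹ * (a * g) := by group
        _ = a * g := by rw [h, one_mul]
    · intro h
      rw [h]; group
  have hidx' : ∀ g, (δ g).ker.index ∣ p := by
    intro g
    have h1 : (δ g).ker = Subgroup.centralizer ({g} : Set P) := by
      ext a
      rw [hker, Subgroup.mem_centralizer_singleton_iff]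
      exact eq_comm
    rw [h1]; exact hidx g
  have hcomm_mem : ∀ a b, a * b * a⁻¹ * b⁻¹ ∈ (δ a).range :=
    fun a b => ⟨b, by rw [hδ, MulAut.conj_apply]⟩
  rcases apl_trichotomy hp MulAut.conj δ hδ hidx' with h1 | ⟨g₀, hg₀, h1⟩ | ⟨g₀, hg₀, h1⟩
  · refine ⟨⊥, by simp, fun a b => ?_⟩
    have h2 : b ∈ (δ a).ker := h1 a ▸ Subgroup.mem_top b
    rw [Subgroup.mem_bot]
    have h3 := MonoidHom.mem_ker.mp h2
    rwa [hδ, MulAut.conj_apply] at h3
  · exfalso
    obtain ⟨a, ha⟩ : ∃ a, a ∉ (δ g₀).ker := by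
      by_contra hcon
      push Not at hcon
      exact hg₀ (eq_top_iff.mpr (fun a _ => hcon a))
    have h2 : (δ a).ker ≠ ⊤ := by
      intro htop
      have h3 : g₀ ∈ (δ a).ker := htop ▸ Subgroup.mem_top g₀
      rw [hker] at h3 ha
      exact ha h3.symm
    have h3 : (δ a).ker = (δ g₀).ker := (h1 a).resolve_left h2
    apply ha
    rw [← h3, hker]
  · exact ⟨(δ g₀).range, by rw [hg₀], fun a b => h1 a (hcomm_mem a b)⟩

end knoche

section ls
variable {G : Type u} [Group G]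

/-- **LS1.** A normal `p`-subgroup which is not centralized by some `p'`-element is abelian. -/
theorem SqfCls.comm_of_not_centralized [Finite G] (h : SqfCls G) {p : ℕ} [Fact p.Prime]
    (V : Subgroup G) [hVn : V.Normal] (hV : IsPGroup p V) (y : G) (n : ℕ) (hn : n.Coprime p)
    (hyn : y ^ n = 1) (hnc : ¬ V ≤ Subgroup.centralizer ({y} : Set G)) :
    ∀ a b : G, a ∈ V → b ∈ V → a * b = b * a := by
  have hp : p.Prime := Fact.out
  obtain ⟨C, hCdef⟩ : ∃ C : Subgroup G, C = V ⊓ Subgroup.centralizer ({y} : Set G) := ⟨_, rfl⟩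
  have hCV : C ≤ V := hCdef ▸ inf_le_left
  have hCy : ∀ c ∈ C, c * y = y * c := by
    intro c hc
    rw [hCdef] at hc
    exact Subgroup.mem_centralizer_singleton_iff.mp hc.2
  have hCmem : ∀ c, c ∈ V → c * y = y * c → c ∈ C := by
    intro c hcV hcy
    rw [hCdef]
    exact ⟨hcV, Subgroup.mem_centralizer_singleton_iff.mpr hcy⟩
  have hCidx : C.relIndex V = p := by
    rw [hCdef, Subgroup.inf_relIndex_left]
    refine ((Nat.dvd_prime hp).mp (h.relIndex_dvd_prime V hV y)).resolve_left ?_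
    intro h1
    exact hnc (Subgroup.relIndex_eq_one.mp h1)
  -- `C` is abelian
  have hCab : ∀ z c : G, z ∈ C → c ∈ C → c * z = z * c := by
    intro z c hz hc
    obtain ⟨Dz, hDz⟩ : ∃ Dz : Subgroup G,
        Dz = V ⊓ Subgroup.centralizer ({z * y} : Set G) := ⟨_, rfl⟩
    obtain ⟨k, hk⟩ := hV ⟨z, hCV hz⟩
    have hk' : z ^ p ^ k = 1 := by
      have := congrArg Subtype.val hk
      simpa using this
    have hcop : Nat.Coprime n (p ^ k) := Nat.Coprime.pow_right k hn
    have hzy : Commute z y := hCy z hz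
    have hpow : (z * y) ^ ((n : ℤ) * Nat.gcdA n (p ^ k)) = z := by
      rw [hzy.mul_zpow]
      have h1 : (1 : ℤ) = n * Nat.gcdA n (p ^ k) + (p ^ k : ℕ) * Nat.gcdB n (p ^ k) := by
        rw [← Nat.gcd_eq_gcd_ab, hcop]; rfl
      have h2 : y ^ ((n : ℤ) * Nat.gcdA n (p ^ k)) = 1 := by
        rw [zpow_mul, zpow_natCast, hyn, one_zpow]
      have h3 : z ^ ((n : ℤ) * Nat.gcdA n (p ^ k)) = z := by
        have h4 : (n : ℤ) * Nat.gcdA n (p ^ k) = 1 - (p ^ k : ℕ) * Nat.gcdB n (p ^ k) := by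
          linarith
        rw [h4, zpow_sub, zpow_one, zpow_mul, zpow_natCast, hk', one_zpow, inv_one, mul_one]
      rw [h2, h3, mul_one]
    have hDzC : Dz ≤ C := by
      intro x hx
      rw [hDz] at hx
      have hx1 : Commute x (z * y) := Subgroup.mem_centralizer_singleton_iff.mp hx.2
      have hx2 : Commute x z := by
        have := hx1.zpow_right ((n : ℤ) * Nat.gcdA n (p ^ k))
        rwa [hpow] at this
      apply hCmem x hx.1
      have hx3 : Commute x (z⁻¹ * (z * y)) := hx2.inv_right.mul_right hx1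
      rw [inv_mul_cancel_left] at hx3
      exact hx3.eq
    have hDzV : Dz.relIndex V ∣ p := by
      rw [hDz, Subgroup.inf_relIndex_left]
      exact h.relIndex_dvd_prime V hV (z * y)
    have h1 := Subgroup.relIndex_mul_relIndex Dz C V hDzC hCV
    rw [hCidx] at h1
    have h2 : Dz.relIndex C * p ∣ 1 * p := by rw [h1, one_mul]; exact hDzV
    have h3 : Dz.relIndex C = 1 := Nat.dvd_one.mp (Nat.dvd_of_mul_dvd_mul_right hp.pos h2)
    have h4 : c ∈ Dz := Subgroup.relIndex_eq_one.mp h3 hc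
    rw [hDz] at h4
    have h5 : Commute c (z * y) := Subgroup.mem_centralizer_singleton_iff.mp h4.2
    have h6 := h5.zpow_right ((n : ℤ) * Nat.gcdA n (p ^ k))
    rw [hpow] at h6
    exact h6.eq
  -- `C` is normal in `V`
  have hCn : ∀ v c : G, v ∈ V → c ∈ C → v * c * v⁻¹ ∈ C := fun v c hv hc =>
    conj_mem_of_relIndex_dvd V C hV hCV (dvd_of_eq hCidx) hv hc
  -- commutators with `y` centralize `C`
  have hw : ∀ v : G, v ∈ V → ∀ c ∈ C,
      (v * y * v⁻¹ * y⁻¹) * c = c * (v * y * v⁻¹ * y⁻¹) := by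
    intro v hv c hc
    have hcy : y⁻¹ * c = c * y⁻¹ := by
      have h1 := hCy c hc
      calc y⁻¹ * c = y⁻¹ * (c * y) * y⁻¹ := by group
        _ = y⁻¹ * (y * c) * y⁻¹ := by rw [h1]
        _ = c * y⁻¹ := by group
    have hc' : y * (v⁻¹ * c * v) = (v⁻¹ * c * v) * y := by
      have h1 := hCn v⁻¹ c (V.inv_mem hv) hc
      rw [inv_inv] at h1
      exact (hCy _ h1).symm
    calc v * y * v⁻¹ * y⁻¹ * c = v * y * v⁻¹ * (y⁻¹ * c) := by group
      _ = v * y * v⁻¹ * (c * y⁻¹) := by rw [hcy]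
      _ = v * (y * (v⁻¹ * c * v)) * v⁻¹ * y⁻¹ := by group
      _ = v * ((v⁻¹ * c * v) * y) * v⁻¹ * y⁻¹ := by rw [hc']
      _ = c * (v * y * v⁻¹ * y⁻¹) := by group
  have hwV : ∀ v : G, v ∈ V → v * y * v⁻¹ * y⁻¹ ∈ V := by
    intro v hv
    have h1 : v * y * v⁻¹ * y⁻¹ = v * (y * v⁻¹ * y⁻¹) := by group
    rw [h1]
    exact V.mul_mem hv (hVn.conj_mem _ (V.inv_mem hv) y)
  -- some commutator is outside `C`
  obtain ⟨v₀, hv₀, hv₀C⟩ : ∃ v₀ ∈ V, v₀ * y * v₀⁻¹ * y⁻¹ ∉ C := by
    by_contra hcon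
    push Not at hcon
    apply hnc
    intro v hv
    rw [Subgroup.mem_centralizer_singleton_iff]
    obtain ⟨u, hu⟩ : ∃ u, u = y * v * y⁻¹ * v⁻¹ := ⟨_, rfl⟩
    have huC : u ∈ C := by
      have h1 := C.inv_mem (hcon v hv)
      have h2 : (v * y * v⁻¹ * y⁻¹)⁻¹ = u := by rw [hu]; group
      rwa [h2] at h1
    have h1 : y * u = u * y := (hCy u huC).symm
    have h2 : y * v = u * v * y := by rw [hu]; group
    have h3 := pow_mul_eq_of_comm h1 h2 n
    rw [hyn, one_mul, mul_one] at h3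
    have h4 : u ^ n = 1 := by
      calc u ^ n = u ^ n * v * v⁻¹ := by group
        _ = 1 := by rw [← h3, mul_inv_cancel]
    have h5 : u = 1 := eq_one_of_pow_eq_one_of_isPGroup V hV hn (hCV huC) h4
    rw [h5, one_mul] at h2
    exact h2.symm
  -- `V` centralizes `C`
  have hVC : ∀ v c : G, v ∈ V → c ∈ C → c * v = v * c := by
    intro v c hv hc
    have h1 : V ≤ Subgroup.centralizer (C : Set G) := by
      refine le_of_relIndex_dvd_prime hp hCV (dvd_of_eq hCidx) ?_
        (w := v₀ * y * v₀⁻¹ * y⁻¹) ?_ (hwV v₀ hv₀) hv₀C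
      · intro z hz
        rw [Subgroup.mem_centralizer_iff]
        intro c' hc'
        exact hCab z c' hz hc'
      · rw [Subgroup.mem_centralizer_iff]
        intro c' hc'
        exact (hw v₀ hv₀ c' hc').symm
    exact Subgroup.mem_centralizer_iff.mp (h1 hv) c hc
  intro a b ha hb
  by_cases haC : a ∈ C
  · exact hVC b a hb haC
  · have h1 : V ≤ Subgroup.centralizer ({a} : Set G) := by
      refine le_of_relIndex_dvd_prime hp hCV (dvd_of_eq hCidx) ?_ (w := a) ?_ ha haC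
      · intro c hc
        rw [Subgroup.mem_centralizer_singleton_iff]
        exact hVC a c ha hc
      · rw [Subgroup.mem_centralizer_singleton_iff]
    have h2 := Subgroup.mem_centralizer_singleton_iff.mp (h1 hb)
    exact h2.symm

/-- **Lemma Z.** If `V ⊇ G'` is a normal `p`-subgroup of index prime to `p`, and `D` is a normal
subgroup containing all `[g, a]` with `a ∈ V`, then `G' ≤ D`. -/
theorem commutator_le_of_central_mod [Finite G] {p : ℕ} (V : Subgroup G)
    [V.Normal] (hV : IsPGroup p V) (hcop : V.index.Coprime p) (hGV : commutator G ≤ V)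
    (D : Subgroup G) [D.Normal] (hD : ∀ g : G, ∀ a ∈ V, g * a * g⁻¹ * a⁻¹ ∈ D) :
    commutator G ≤ D := by
  rw [commutator_def, Subgroup.commutator_le]
  intro g _ h _
  rw [commutatorElement_def]
  obtain ⟨c, hc⟩ : ∃ c, c = g * h * g⁻¹ * h⁻¹ := ⟨_, rfl⟩
  rw [← hc]
  have hcV : c ∈ V := by
    apply hGV
    rw [hc, commutator_def, ← commutatorElement_def]
    exact Subgroup.commutator_mem_commutator (Subgroup.mem_top g) (Subgroup.mem_top h)
  have hcentral : ∀ a ∈ V, ∀ x : G,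
      (x : G ⧸ D) * (a : G ⧸ D) = (a : G ⧸ D) * (x : G ⧸ D) := by
    intro a ha x
    have h1 : ((x * a * x⁻¹ * a⁻¹ : G) : G ⧸ D) = 1 :=
      (QuotientGroup.eq_one_iff _).mpr (hD x a ha)
    rw [QuotientGroup.mk_mul, QuotientGroup.mk_mul, QuotientGroup.mk_mul,
      QuotientGroup.mk_inv, QuotientGroup.mk_inv] at h1
    calc (x : G ⧸ D) * (a : G ⧸ D)
        = (x : G ⧸ D) * a * (x : G ⧸ D)⁻¹ * (a : G ⧸ D)⁻¹ * (a * x) := by group
      _ = a * x := by rw [h1, one_mul]
  have h1 : (g : G ⧸ D) * (c : G ⧸ D) = (c : G ⧸ D) * (g : G ⧸ D) := hcentral c hcV g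
  have h2 : (g : G ⧸ D) * (h : G ⧸ D) = (c : G ⧸ D) * (h : G ⧸ D) * (g : G ⧸ D) := by
    rw [hc, QuotientGroup.mk_mul, QuotientGroup.mk_mul, QuotientGroup.mk_mul,
      QuotientGroup.mk_inv, QuotientGroup.mk_inv]; group
  have h3 := pow_mul_eq_of_comm h1 h2 V.index
  have h4 : (g : G ⧸ D) ^ V.index * (h : G ⧸ D) = (h : G ⧸ D) * (g : G ⧸ D) ^ V.index := by
    rw [← QuotientGroup.mk_pow]
    exact (hcentral _ (V.pow_index_mem g) h).symm
  have h5 : (c : G ⧸ D) ^ V.index = 1 := by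
    have h6 : (c : G ⧸ D) ^ V.index * (h : G ⧸ D) * (g : G ⧸ D) ^ V.index
        = (h : G ⧸ D) * (g : G ⧸ D) ^ V.index := by rw [← h3, h4]
    calc (c : G ⧸ D) ^ V.index
        = (c : G ⧸ D) ^ V.index * (h : G ⧸ D) * (g : G ⧸ D) ^ V.index
            * ((h : G ⧸ D) * (g : G ⧸ D) ^ V.index)⁻¹ := by group
      _ = 1 := by rw [h6, mul_inv_cancel]
  have h7 : c ^ V.index ∈ D := by
    rw [← QuotientGroup.mk_pow] at h5
    exact (QuotientGroup.eq_one_iff _).mp h5
  obtain ⟨k, hk⟩ := hV ⟨c, hcV⟩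
  have hk' : c ^ p ^ k = 1 := by
    have := congrArg Subtype.val hk
    simpa using this
  refine Helper67.mem_of_coprime_pow_mem D c (Nat.Coprime.pow_right k hcop) h7 ?_
  rw [hk']; exact D.one_mem

end ls

end Cfsg.Agent.Helper72
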