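import Mathlib
import Cfsg.Agent.Helper72.Sqf4
import Cfsg.Agent.Helper9.Supersolvable2

/-!
# Squarefree class sizes: the commutator subgroup is cyclic of squarefree order (helper72)
-/

set_option autoImplicit false

namespace Cfsg.Agent.Helper72

universe u

section
variable {G : Type u} [Group G]

/-- **LS3'.** If `V` is abelian of index prime to `p` and `g` fixes `[g, a]`, then
`[g, a] = 1`. -/
theorem commHom_eq_one_of_fixed {p : ℕ} (V : Subgroup G) [V.Normal]
    (hV : IsPGroup p V) (hab : ∀ a b : V, a * b = b * a) (hcop : V.index.Coprime p) (g : G)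
    (a : V) (hfix : commHom V hab g a ∈ (commHom V hab g).ker) : commHom V hab g a = 1 := by
  obtain ⟨x, hx⟩ : ∃ x : G, x = g * a * g⁻¹ * (a : G)⁻¹ := ⟨_, rfl⟩
  have hxV : x ∈ V := by rw [hx, ← commHom_coe V hab]; exact (commHom V hab g a).2
  have h1 : g * x = x * g := by
    have := (mem_commHom_ker V hab).mp hfix
    rwa [commHom_coe, ← hx] at this
  have h2 : g * (a : G) = x * a * g := by rw [hx]; group
  have h3 := pow_mul_eq_of_comm h1 h2 V.index
  have h4 : g ^ V.index * (a : G) = a * g ^ V.index := by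
    have := hab ⟨g ^ V.index, V.pow_index_mem g⟩ a
    exact congrArg Subtype.val this
  have h5 : x ^ V.index = 1 := by
    have h6 : x ^ V.index * ((a : G) * g ^ V.index) = a * g ^ V.index := by
      rw [← mul_assoc, ← h3, h4]
    calc x ^ V.index = x ^ V.index * ((a : G) * g ^ V.index) * ((a : G) * g ^ V.index)⁻¹ := by
          group
      _ = 1 := by rw [h6, mul_inv_cancel]
  have h7 : x = 1 := eq_one_of_pow_eq_one_of_isPGroup V hV hcop hxV h5
  apply Subtype.ext
  rw [commHom_coe, ← hx, h7]; rfl

/-- Case of an abelian normal Sylow `p`-subgroup `V ⊇ G'`. -/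
theorem SqfCls.exists_normal_of_comm [Finite G] (h : SqfCls G) {p : ℕ} [Fact p.Prime]
    (V : Subgroup G) [hVn : V.Normal] (hV : IsPGroup p V) (hcop : V.index.Coprime p)
    (hGV : commutator G ≤ V) (hab : ∀ a b : V, a * b = b * a) :
    ∃ L : Subgroup G, L.Normal ∧ Nat.card L ∣ p ∧
      ∀ g : G, ∀ a ∈ V, g * a * g⁻¹ * a⁻¹ ∈ L := by
  have hp : p.Prime := Fact.out
  have hidx := fun g => h.commHom_index V hab hV g
  have key : ∀ g₀, (∀ g, (commHom V hab g).range ≤ (commHom V hab g₀).range) →
      Nat.card (commHom V hab g₀).range ∣ p →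
      ∃ L : Subgroup G, L.Normal ∧ Nat.card L ∣ p ∧
        ∀ g : G, ∀ a ∈ V, g * a * g⁻¹ * a⁻¹ ∈ L := by
    intro g₀ hall hcard
    refine ⟨_, commHom_range_normal V hab g₀ hall, ?_, ?_⟩
    · rw [Subgroup.card_map_of_injective V.subtype_injective]; exact hcard
    · intro g a ha
      refine ⟨commHom V hab g ⟨a, ha⟩, hall g ⟨_, rfl⟩, ?_⟩
      rw [Subgroup.coe_subtype, commHom_coe]
  rcases apl_trichotomy hp (MulAut.conjNormal (H := V)) (commHom V hab) (fun g a => rfl) hidx
    with h1 | ⟨g₀, hg₀, h1⟩ | ⟨g₀, hg₀, h1⟩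
  · refine ⟨⊥, inferInstance, by simp, fun g a ha => ?_⟩
    have h2 : (⟨a, ha⟩ : V) ∈ (commHom V hab g).ker := h1 g ▸ Subgroup.mem_top _
    have h3 := congrArg Subtype.val (MonoidHom.mem_ker.mp h2)
    rw [commHom_coe] at h3
    rw [Subgroup.mem_bot]; exact h3
  · apply key g₀ _ (apl_card_range hp _ _ (fun g a => rfl) hidx g₀)
    intro g
    by_cases hg : (commHom V hab g).ker = ⊤
    · rintro _ ⟨a, rfl⟩
      have h3 : a ∈ (commHom V hab g).ker := hg ▸ Subgroup.mem_top a
      rw [MonoidHom.mem_ker.mp h3]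
      exact Subgroup.one_mem _
    · have hgk : (commHom V hab g).ker = (commHom V hab g₀).ker := (h1 g).resolve_left hg
      obtain ⟨a, ha⟩ : ∃ a, a ∉ (commHom V hab g₀).ker := by
        by_contra hcon
        push Not at hcon
        exact hg₀ (eq_top_iff.mpr (fun a _ => hcon a))
      obtain ⟨x, hx⟩ : ∃ x, x = commHom V hab g₀ a := ⟨_, rfl⟩
      have hx1 : x ≠ 1 := by
        intro h2
        rw [hx] at h2
        exact ha (MonoidHom.mem_ker.mpr h2)
      have hxk : x ∉ (commHom V hab g₀).ker := by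
        intro hmem
        rw [hx] at hmem
        apply hx1
        rw [hx]
        exact commHom_eq_one_of_fixed V hV hab hcop g₀ a hmem
      have hxg : commHom V hab g x ≠ 1 := by
        intro h2
        apply hxk
        rw [← hgk]
        exact MonoidHom.mem_ker.mpr h2
      have hmem : commHom V hab g x ∈ (commHom V hab g₀).range := by
        have h2 : MulAut.conjNormal g x = commHom V hab g₀ (MulAut.conjNormal g a) := by
          rw [hx, ← commHom_conj]
          apply Subtype.ext
          rw [commHom_coe, commHom_coe]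
          obtain ⟨b, hb⟩ : ∃ b : V, b = MulAut.conjNormal g a := ⟨_, rfl⟩
          rw [← hb]
          have hw : g * g₀ * g⁻¹ * g₀⁻¹ ∈ V := by
            apply hGV
            rw [commutator_def, ← commutatorElement_def]
            exact Subgroup.commutator_mem_commutator (Subgroup.mem_top g) (Subgroup.mem_top g₀)
          have hb' : g₀ * (b : G) * g₀⁻¹ ∈ V := hVn.conj_mem _ b.2 g₀
          have hcm : (g * g₀ * g⁻¹ * g₀⁻¹) * (g₀ * (b : G) * g₀⁻¹)
              = (g₀ * (b : G) * g₀⁻¹) * (g * g₀ * g⁻¹ * g₀⁻¹) :=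
            congrArg Subtype.val (hab ⟨_, hw⟩ ⟨_, hb'⟩)
          calc g * g₀ * g⁻¹ * (b : G) * (g * g₀ * g⁻¹)⁻¹ * (b : G)⁻¹
              = (g * g₀ * g⁻¹ * g₀⁻¹) * (g₀ * (b : G) * g₀⁻¹) * (g * g₀ * g⁻¹ * g₀⁻¹)⁻¹
                  * (b : G)⁻¹ := by group
            _ = (g₀ * (b : G) * g₀⁻¹) * (g * g₀ * g⁻¹ * g₀⁻¹) * (g * g₀ * g⁻¹ * g₀⁻¹)⁻¹
                  * (b : G)⁻¹ := by rw [hcm]
            _ = g₀ * (b : G) * g₀⁻¹ * (b : G)⁻¹ := by group
        rw [commHom_apply, h2]
        exact Subgroup.mul_mem _ ⟨_, rfl⟩ (Subgroup.inv_mem _ ⟨a, hx.symm⟩)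
      exact (apl_range_eq_of_common hp _ _ (fun g a => rfl) hidx g g₀ hxg ⟨x, rfl⟩ hmem).le
  · exact key g₀ h1 (dvd_of_eq hg₀)

/-- Case of a nonabelian normal Sylow `p`-subgroup `V`. -/
theorem SqfCls.exists_normal_of_not_comm [Finite G] (h : SqfCls G) {p : ℕ} [Fact p.Prime]
    (V : Subgroup G) [V.Normal] (hV : IsPGroup p V) (hcop : V.index.Coprime p)
    (hnab : ¬ ∀ a b : G, a ∈ V → b ∈ V → a * b = b * a) :
    ∃ L : Subgroup G, L.Normal ∧ Nat.card L ∣ p ∧
      ∀ g : G, ∀ a ∈ V, g * a * g⁻¹ * a⁻¹ ∈ L := by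
  have hp : p.Prime := Fact.out
  have hcent : ∀ y : G, y ^ V.index = 1 → ∀ a ∈ V, a * y = y * a := by
    intro y hy a ha
    by_contra hne
    apply hnab
    apply h.comm_of_not_centralized V hV y V.index hcop hy
    intro hle
    exact hne (Subgroup.mem_centralizer_singleton_iff.mp (hle ha))
  obtain ⟨k, hk⟩ := hV.exists_card_eq
  have hVidx : ∀ x : V, (Subgroup.centralizer ({x} : Set V)).index ∣ p := by
    intro x
    refine sqf_prime_pow_dvd hp (h.subgroup V x) (n := k) ?_
    rw [← hk]; exact Subgroup.index_dvd_card _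
  obtain ⟨L, hLcard, hL⟩ := knoche hV hVidx
  refine ⟨⁅V, V⁆, inferInstance, ?_, ?_⟩
  · have hle : ⁅V, V⁆ ≤ L.map V.subtype := by
      rw [Subgroup.commutator_le]
      intro a ha b hb
      rw [commutatorElement_def]
      exact ⟨⟨a, ha⟩ * ⟨b, hb⟩ * ⟨a, ha⟩⁻¹ * ⟨b, hb⟩⁻¹, hL _ _, rfl⟩
    have h1 := Subgroup.card_dvd_of_le hle
    rw [Subgroup.card_map_of_injective V.subtype_injective] at h1
    exact h1.trans hLcard
  · intro g a ha
    have hcop' : Nat.Coprime V.index (Nat.card V) := by
      rw [hk]; exact Nat.Coprime.pow_right k hcop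
    have hbez : (1 : ℤ) = V.index * Nat.gcdA V.index (Nat.card V)
        + (Nat.card V : ℕ) * Nat.gcdB V.index (Nat.card V) := by
      rw [← Nat.gcd_eq_gcd_ab, hcop']; rfl
    obtain ⟨u, hu⟩ : ∃ u, u = (g ^ V.index) ^ (Nat.gcdA V.index (Nat.card V)) := ⟨_, rfl⟩
    obtain ⟨y, hy⟩ : ∃ y, y = (g ^ Nat.card V) ^ (Nat.gcdB V.index (Nat.card V)) := ⟨_, rfl⟩
    have huV : u ∈ V := by rw [hu]; exact V.zpow_mem (V.pow_index_mem g) _
    have hgy : g = u * y := by
      have e1 : (g ^ V.index) ^ (Nat.gcdA V.index (Nat.card V))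
          = g ^ ((V.index : ℤ) * Nat.gcdA V.index (Nat.card V)) := by
        rw [zpow_mul, zpow_natCast]
      have e2 : (g ^ Nat.card V) ^ (Nat.gcdB V.index (Nat.card V))
          = g ^ ((Nat.card V : ℤ) * Nat.gcdB V.index (Nat.card V)) := by
        rw [zpow_mul, zpow_natCast]
      rw [hu, hy, e1, e2, ← zpow_add, ← hbez, zpow_one]
    have hyn : y ^ V.index = 1 := by
      calc y ^ V.index
          = ((g ^ Nat.card V) ^ (Nat.gcdB V.index (Nat.card V))) ^ (V.index : ℤ) := by
            rw [hy, zpow_natCast]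
        _ = ((g ^ Nat.card V) ^ (V.index : ℤ)) ^ (Nat.gcdB V.index (Nat.card V)) := by
            rw [← zpow_mul, ← zpow_mul, mul_comm]
        _ = ((g ^ Nat.card V) ^ V.index) ^ (Nat.gcdB V.index (Nat.card V)) := by
            rw [zpow_natCast]
        _ = (g ^ (Nat.card V * V.index)) ^ (Nat.gcdB V.index (Nat.card V)) := by
            rw [← pow_mul]
        _ = 1 := by rw [Subgroup.card_mul_index, pow_card_eq_one', one_zpow]
    have hya := hcent y hyn a ha
    have h1 : g * a * g⁻¹ * a⁻¹ = u * a * u⁻¹ * a⁻¹ := by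
      rw [hgy]
      calc u * y * a * (u * y)⁻¹ * a⁻¹ = u * (y * a) * y⁻¹ * u⁻¹ * a⁻¹ := by group
        _ = u * (a * y) * y⁻¹ * u⁻¹ * a⁻¹ := by rw [hya]
        _ = u * a * u⁻¹ * a⁻¹ := by group
    rw [h1, ← commutatorElement_def]
    exact Subgroup.commutator_mem_commutator huV ha

/-- If `G'` lies in a normal Sylow `p`-subgroup, then `|G'|` divides `p`. -/
theorem SqfCls.card_commutator_dvd_prime [Finite G] (h : SqfCls G) {p : ℕ} [Fact p.Prime]
    (V : Subgroup G) [V.Normal] (hV : IsPGroup p V) (hcop : V.index.Coprime p)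
    (hGV : commutator G ≤ V) : Nat.card (commutator G) ∣ p := by
  have hex : ∃ L : Subgroup G, L.Normal ∧ Nat.card L ∣ p ∧
      ∀ g : G, ∀ a ∈ V, g * a * g⁻¹ * a⁻¹ ∈ L := by
    by_cases hab : ∀ a b : G, a ∈ V → b ∈ V → a * b = b * a
    · exact h.exists_normal_of_comm V hV hcop hGV (fun a b => Subtype.ext (hab a b a.2 b.2))
    · exact h.exists_normal_of_not_comm V hV hcop hab
  obtain ⟨L, hLn, hLcard, hL⟩ := hex
  have := hLn
  exact (Subgroup.card_dvd_of_le (commutator_le_of_central_mod V hV hcop hGV L hL)).trans hLcard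

theorem SqfCls.not_sq_dvd_card_commutator_aux (n : ℕ) : ∀ (G : Type u) [Group G] [Finite G],
    Nat.card G = n → SqfCls G → ∀ p : ℕ, p.Prime → ¬ p * p ∣ Nat.card (commutator G) := by
  induction n using Nat.strong_induction_on with
  | _ n ih =>
    intro G _ _ hcard h p hp hdvd
    have : Fact p.Prime := ⟨hp⟩
    by_cases hpg : IsPGroup p (commutator G)
    · obtain ⟨Q, hQ⟩ := hpg.exists_le_sylow
      have hQn : (Q : Subgroup G).Normal := by
        constructor
        intro a ha x
        have h1 : x * a * x⁻¹ = (x * a * x⁻¹ * a⁻¹) * a := by group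
        rw [h1]
        refine Subgroup.mul_mem _ (hQ ?_) ha
        rw [commutator_def, ← commutatorElement_def]
        exact Subgroup.commutator_mem_commutator (Subgroup.mem_top x) (Subgroup.mem_top a)
      have hcop : (Q : Subgroup G).index.Coprime p := by
        rw [Nat.coprime_comm]
        exact (Nat.Prime.coprime_iff_not_dvd hp).mpr Q.not_dvd_index
      have h1 := h.card_commutator_dvd_prime (Q : Subgroup G) Q.2 hcop hQ
      have h2 := Nat.le_of_dvd hp.pos (hdvd.trans h1)
      have := hp.one_lt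
      nlinarith
    · obtain ⟨r, hr, hrd, hrp⟩ : ∃ r : ℕ, r.Prime ∧ r ∣ Nat.card (commutator G) ∧ r ≠ p := by
        by_contra hcon
        push Not at hcon
        apply hpg
        exact IsPGroup.of_card (Nat.eq_prime_pow_of_unique_prime_dvd Nat.card_pos.ne'
          (fun {d} hd hdd => hcon d hd hdd))
      have : Fact r.Prime := ⟨hr⟩
      have hnil : Group.IsNilpotent (commutator G) :=
        Helper9.commutator_nilpotent_of_ss h.isSupersolvable
      obtain ⟨R⟩ : Nonempty (Sylow r (commutator G)) := inferInstance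
      have hRn : (R : Subgroup (commutator G)).Normal :=
        R.normal_of_normalizerCondition Group.normalizerCondition_of_isNilpotent
      have hRc : (R : Subgroup (commutator G)).Characteristic := R.characteristic_of_normal hRn
      obtain ⟨M, hM⟩ : ∃ M : Subgroup G,
          M = (R : Subgroup (commutator G)).map (commutator G).subtype := ⟨_, rfl⟩
      have hMn : M.Normal := by rw [hM]; exact ConjAct.normal_of_characteristic_of_normal
      have hMG' : M ≤ commutator G := by
        rw [hM]; rintro _ ⟨x, -, rfl⟩; exact x.2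
      have hMcard : Nat.card M = r ^ (Nat.card (commutator G)).factorization r := by
        rw [hM, Subgroup.card_map_of_injective (Subgroup.subtype_injective _)]
        exact R.card_eq_multiplicity
      have hMb : M ≠ ⊥ := by
        intro hbot
        rw [hbot, Subgroup.card_bot] at hMcard
        have h1 : 0 < (Nat.card (commutator G)).factorization r :=
          hr.factorization_pos_of_dvd Nat.card_pos.ne' hrd
        have h2 : 1 < r ^ (Nat.card (commutator G)).factorization r :=
          Nat.one_lt_pow h1.ne' hr.one_lt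
        omega
      have hlt : Nat.card (G ⧸ M) < Nat.card G := by
        have h1 := Subgroup.card_mul_index M
        rw [Subgroup.index_eq_card] at h1
        have h2 : 1 < Nat.card M := by
          rw [Subgroup.one_lt_card_iff_ne_bot]; exact hMb
        have h3 := Nat.card_pos (α := G ⧸ M)
        nlinarith
      have hIH := ih _ (hcard ▸ hlt) (G ⧸ M) rfl (h.quotient M) p hp
      apply hIH
      have hmap : commutator (G ⧸ M) = (commutator G).map (QuotientGroup.mk' M) := by
        rw [map_commutator_eq, MonoidHom.range_eq_top.mpr (QuotientGroup.mk'_surjective M),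
          commutator_def]
      have hc1 : Nat.card (commutator (G ⧸ M)) = M.relIndex (commutator G) := by
        rw [hmap]
        have h1 := Subgroup.relIndex_map_map (QuotientGroup.mk' M) ⊥ (commutator G)
        rw [Subgroup.map_bot, Subgroup.relIndex_bot_left, QuotientGroup.ker_mk', bot_sup_eq,
          sup_eq_left.mpr hMG'] at h1
        exact h1
      have hc2 : Nat.card M * M.relIndex (commutator G) = Nat.card (commutator G) := by
        have := Subgroup.relIndex_mul_relIndex (⊥ : Subgroup G) M (commutator G) bot_le hMG'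
        rwa [Subgroup.relIndex_bot_left, Subgroup.relIndex_bot_left] at this
      rw [hc1]
      rw [← hc2, hMcard] at hdvd
      have hcop : Nat.Coprime (p * p) (r ^ (Nat.card (commutator G)).factorization r) := by
        apply Nat.Coprime.pow_right
        have h1 : Nat.Coprime p r := (Nat.coprime_primes hp hr).mpr (Ne.symm hrp)
        exact Nat.Coprime.mul_left h1 h1
      exact hcop.dvd_of_dvd_mul_left hdvd

/-- `|G'|` is squarefree. -/
theorem SqfCls.squarefree_card_commutator [Finite G] (h : SqfCls G) :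
    Squarefree (Nat.card (commutator G)) := by
  rw [Nat.squarefree_iff_prime_squarefree]
  intro p hp hdvd
  exact SqfCls.not_sq_dvd_card_commutator_aux _ G rfl h p hp hdvd

/-- `G'` is cyclic. -/
theorem SqfCls.isCyclic_commutator [Finite G] (h : SqfCls G) : IsCyclic (commutator G) := by
  have : Group.IsNilpotent (commutator G) :=
    Helper9.commutator_nilpotent_of_ss h.isSupersolvable
  have : IsZGroup (commutator G) := IsZGroup.of_squarefree h.squarefree_card_commutator
  infer_instance

end

end Cfsg.Agent.Helper72
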