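import Mathlib
import Cfsg.Agent.Helper72.Sqf5
import Cfsg.Agent.Helper71.Fitting

/-!
# Squarefree class sizes: the Fitting subgroup (helper72)

For a finite group `G` with squarefree class sizes, `G' = ⟨c⟩` and `F(G) = C_G(c)`; hence
`G / F(G)` is cyclic of squarefree order and `F(G)` has class at most `2`.
-/

set_option autoImplicit false

namespace Cfsg.Agent.Helper72

open scoped commutatorElement

universe u

section
variable {G : Type u} [Group G]

theorem SqfCls.exists_commutator_generator [Finite G] (h : SqfCls G) :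
    ∃ c : G, commutator G = Subgroup.zpowers c := by
  have := h.isCyclic_commutator
  obtain ⟨g, hg⟩ := IsCyclic.exists_generator (α := commutator G)
  refine ⟨g, le_antisymm ?_ ?_⟩
  · intro x hx
    obtain ⟨k, hk⟩ := Subgroup.mem_zpowers_iff.mp (hg ⟨x, hx⟩)
    rw [Subgroup.mem_zpowers_iff]
    exact ⟨k, by have := congrArg Subtype.val hk; simpa using this⟩
  · rw [Subgroup.zpowers_le]; exact g.2

/-- `F(G) = C_G(c)` where `c` generates `G'`. -/
theorem SqfCls.fittingSubgroup_eq [Finite G] (h : SqfCls G) {c : G}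
    (hc : commutator G = Subgroup.zpowers c) :
    Cfsg.fittingSubgroup G = Subgroup.centralizer ({c} : Set G) := by
  have hcG' : c ∈ commutator G := hc ▸ Subgroup.mem_zpowers c
  have hcent : Subgroup.centralizer ({c} : Set G)
      = Subgroup.centralizer (commutator G : Set G) := by
    apply le_antisymm
    · intro x hx
      rw [Subgroup.mem_centralizer_iff]
      intro y hy
      rw [SetLike.mem_coe, hc] at hy
      obtain ⟨k, rfl⟩ := Subgroup.mem_zpowers_iff.mp hy
      have h1 : Commute x c := Subgroup.mem_centralizer_singleton_iff.mp hx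
      exact (h1.zpow_right k).eq.symm
    · exact Subgroup.centralizer_le (Set.singleton_subset_iff.mpr hcG')
  apply le_antisymm
  · intro f hf
    rw [Subgroup.mem_centralizer_singleton_iff]
    obtain ⟨F, hF⟩ : ∃ F, F = Cfsg.fittingSubgroup G := ⟨_, rfl⟩
    rw [← hF] at hf
    have hFnil : Group.IsNilpotent F := hF ▸ Helper71.fittingSubgroup_isNilpotent G
    have hG'F : commutator G ≤ F := by
      rw [hF]
      apply Helper71.le_fittingSubgroup _ inferInstance
      exact Helper9.commutator_nilpotent_of_ss h.isSupersolvable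
    have hcF : c ∈ F := hG'F hcG'
    have hnorm : f * c * f⁻¹ ∈ commutator G :=
      (inferInstance : (commutator G).Normal).conj_mem c hcG' f
    rw [hc] at hnorm
    obtain ⟨k, hk⟩ := Subgroup.mem_zpowers_iff.mp hnorm
    obtain ⟨n, hn⟩ := (Subgroup.isNilpotent_iff_lowerCentralSeries F).mp hFnil
    have hlcs : ∀ j : ℕ, c ^ ((1 - k) ^ j) ∈ F.lowerCentralSeries j := by
      intro j
      induction j with
      | zero => simpa using hcF
      | succ j ih =>
        rw [Subgroup.lowerCentralSeries_succ]
        have h1 : c ^ ((1 - k) ^ (j + 1)) = ⁅c ^ ((1 - k) ^ j), f⁆ := by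
          rw [commutatorElement_def]
          have h2 : f * c ^ ((1 - k) ^ j) * f⁻¹ = (c ^ k) ^ ((1 - k) ^ j) := by
            rw [hk, conj_zpow]
          calc c ^ ((1 - k) ^ (j + 1))
              = c ^ ((1 - k) ^ j) * ((c ^ k) ^ ((1 - k) ^ j))⁻¹ := by
                rw [← zpow_mul, ← zpow_neg, ← zpow_add]; congr 1; ring
            _ = c ^ ((1 - k) ^ j) * (f * c ^ ((1 - k) ^ j) * f⁻¹)⁻¹ := by rw [h2]
            _ = c ^ ((1 - k) ^ j) * f * (c ^ ((1 - k) ^ j))⁻¹ * f⁻¹ := by group
        rw [h1]
        exact Subgroup.commutator_mem_commutator ih hf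
    have h1 := hlcs n
    rw [hn, Subgroup.mem_bot] at h1
    have h2 : (orderOf c : ℤ) ∣ (1 - k) ^ n := orderOf_dvd_iff_zpow_eq_one.mpr h1
    have hsq : Squarefree (orderOf c : ℤ) := by
      rw [Int.squarefree_natCast, ← Nat.card_zpowers, ← hc]
      exact h.squarefree_card_commutator
    have h3 : (orderOf c : ℤ) ∣ 1 - k := by
      by_cases hn0 : n = 0
      · rw [hn0, pow_zero] at h2
        exact h2.trans (one_dvd _)
      · exact (hsq.dvd_pow_iff_dvd hn0).mp h2
    have h4 : c ^ (1 - k) = 1 := orderOf_dvd_iff_zpow_eq_one.mp h3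
    have h5 : c ^ k = c := by
      have h6 : c ^ k = c ^ (1 : ℤ) * (c ^ (1 - k))⁻¹ := by
        rw [← zpow_neg, ← zpow_add]; congr 1; ring
      rw [h6, h4, inv_one, mul_one, zpow_one]
    rw [h5] at hk
    calc f * c = f * c * f⁻¹ * f := by group
      _ = c * f := by rw [← hk]
  · rw [hcent]
    apply Helper71.le_fittingSubgroup _ inferInstance
    obtain ⟨C, hC⟩ : ∃ C : Subgroup G, C = Subgroup.centralizer (commutator G : Set G) :=
      ⟨_, rfl⟩
    rw [← hC]
    refine Subgroup.isNilpotent_of_ker_le_center ((Abelianization.of (G := G)).comp C.subtype) ?_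
    intro x hx
    rw [MonoidHom.mem_ker, MonoidHom.comp_apply, ← MonoidHom.mem_ker, Abelianization.ker_of]
      at hx
    rw [Subgroup.mem_center_iff]
    intro y
    have hy : (y : G) ∈ Subgroup.centralizer (commutator G : Set G) := hC ▸ y.2
    exact Subtype.ext ((Subgroup.mem_centralizer_iff.mp hy) x hx).symm

/-- The statements about the Fitting subgroup. -/
theorem SqfCls.fitting_facts [Finite G] (h : SqfCls G) :
    (∀ _h : (Cfsg.fittingSubgroup G).Normal,
      IsCyclic (G ⧸ Cfsg.fittingSubgroup G) ∧ Squarefree (Cfsg.fittingSubgroup G).index) ∧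
    Subgroup.upperCentralSeries ↥(Cfsg.fittingSubgroup G) 2 = ⊤ := by
  obtain ⟨c, hc⟩ := h.exists_commutator_generator
  have hF := h.fittingSubgroup_eq hc
  have hG'F : commutator G ≤ Cfsg.fittingSubgroup G := by
    rw [hF, hc, Subgroup.zpowers_le, Subgroup.mem_centralizer_singleton_iff]
  have hFG' : ∀ f ∈ Cfsg.fittingSubgroup G, ∀ x ∈ commutator G, f * x = x * f := by
    intro f hf x hx
    rw [hF] at hf
    rw [hc] at hx
    obtain ⟨k, rfl⟩ := Subgroup.mem_zpowers_iff.mp hx
    have h1 : Commute f c := Subgroup.mem_centralizer_singleton_iff.mp hf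
    exact (h1.zpow_right k).eq
  have hsqF : Squarefree (Cfsg.fittingSubgroup G).index := by rw [hF]; exact h c
  refine ⟨fun hn => ⟨?_, hsqF⟩, ?_⟩
  · have hcommQ : ∀ a b : G ⧸ Cfsg.fittingSubgroup G, a * b = b * a := by
      intro a b
      obtain ⟨x, rfl⟩ := QuotientGroup.mk_surjective a
      obtain ⟨y, rfl⟩ := QuotientGroup.mk_surjective b
      rw [← QuotientGroup.mk_mul, ← QuotientGroup.mk_mul, QuotientGroup.eq]
      apply hG'F
      have h1 : (x * y)⁻¹ * (y * x) = ⁅y⁻¹, x⁻¹⁆ := by rw [commutatorElement_def]; group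
      rw [h1, commutator_def]
      exact Subgroup.commutator_mem_commutator (Subgroup.mem_top _) (Subgroup.mem_top _)
    have hnil : Group.IsNilpotent (G ⧸ Cfsg.fittingSubgroup G) := by
      letI : CommGroup (G ⧸ Cfsg.fittingSubgroup G) :=
        { (inferInstance : Group (G ⧸ Cfsg.fittingSubgroup G)) with mul_comm := hcommQ }
      exact CommGroup.isNilpotent
    have hz : IsZGroup (G ⧸ Cfsg.fittingSubgroup G) := by
      apply IsZGroup.of_squarefree
      rw [← Subgroup.index_eq_card]; exact hsqF
    infer_instance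
  · rw [eq_top_iff]
    intro x _
    rw [Subgroup.mem_upperCentralSeries_succ_iff]
    intro y
    rw [Subgroup.upperCentralSeries_one, Subgroup.mem_center_iff]
    intro z
    have h0 : ((⁅x, y⁆ : ↥(Cfsg.fittingSubgroup G)) : G) = ⁅(x : G), (y : G)⁆ := rfl
    have h1 : ((⁅x, y⁆ : ↥(Cfsg.fittingSubgroup G)) : G) ∈ commutator G := by
      rw [h0, commutator_def]
      exact Subgroup.commutator_mem_commutator (Subgroup.mem_top _) (Subgroup.mem_top _)
    exact Subtype.ext (hFG' z z.2 _ h1)

/-- `G'` is abelian. -/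
theorem SqfCls.commutator_commutator_eq_bot [Finite G] (h : SqfCls G) :
    commutator ↥(commutator G) = ⊥ := by
  have := h.isCyclic_commutator
  rw [commutator_eq_bot_iff_center_eq_top, eq_top_iff]
  intro z _
  rw [Subgroup.mem_center_iff]
  intro g
  exact IsCyclic.commGroup.mul_comm g z

end

end Cfsg.Agent.Helper72
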