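import Cfsg.Agent.Helper72.SylowCount

/-!
# Sylow subgroups of normal subgroups (helper72)
-/

set_option autoImplicit false

namespace Cfsg.Agent.Helper72

open scoped Pointwise

section
variable {G : Type*} [Group G] [Finite G] {p : ℕ} [Fact p.Prime]

/-- A Sylow subgroup of `G` meets a normal subgroup `N` in a subgroup of index prime to `p`. -/
theorem not_dvd_relIndex_of_normal (P : Sylow p G) (N : Subgroup G) [N.Normal] :
    ¬ p ∣ (P : Subgroup G).relIndex N := by
  obtain ⟨Q, hQ⟩ := Sylow.exists_comap_subtype_eq (default : Sylow p N)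
  obtain ⟨g, rfl⟩ := MulAction.exists_smul_eq G Q P
  have h1 : ((g • Q : Sylow p G) : Subgroup G).relIndex N = (Q : Subgroup G).relIndex N := by
    rw [Sylow.coe_subgroup_smul]
    conv_lhs => rw [← Subgroup.Normal.conj_smul_eq_self g N]
    exact Subgroup.relIndex_pointwise_smul _ _ _
  rw [h1]
  have h2 : (Q : Subgroup G).relIndex N = ((default : Sylow p N) : Subgroup N).index := by
    rw [← hQ]; rfl
  rw [h2]
  exact Sylow.not_dvd_index _

/-- The Sylow subgroup `P ∩ N` of a normal subgroup `N`. -/
noncomputable def sylowOfNormal (P : Sylow p G) (N : Subgroup G) [N.Normal] : Sylow p N :=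
  (P.isPGroup'.comap_subtype (K := N)).toSylow (not_dvd_relIndex_of_normal P N)

theorem coe_sylowOfNormal (P : Sylow p G) (N : Subgroup G) [N.Normal] :
    ((sylowOfNormal P N : Sylow p N) : Subgroup N) = (P : Subgroup G).subgroupOf N := rfl

/-- `n_p(N) = |N : N_N(P ∩ N)|` for `N` normal. -/
theorem card_sylow_normal_eq_relIndex (P : Sylow p G) (N : Subgroup G) [N.Normal] :
    Nat.card (Sylow p N) =
      (Subgroup.normalizer (((P : Subgroup G) ⊓ N : Subgroup G) : Set G)).relIndex N := by
  have h1 : Subgroup.normalizer ((sylowOfNormal P N : Sylow p N) : Set N) =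
      Subgroup.normalizer (((P : Subgroup G).subgroupOf N : Subgroup N) : Set N) := rfl
  rw [(sylowOfNormal P N).card_eq_index_normalizer, h1, Subgroup.relIndex,
    Subgroup.subgroupOf_normalizer_eq inf_le_right, Subgroup.inf_subgroupOf_right]

omit [Finite G] in
/-- The normalizer of a subgroup normalizes its intersection with a normal subgroup. -/
theorem normalizer_le_normalizer_inf (P N : Subgroup G) [hN : N.Normal] :
    Subgroup.normalizer (P : Set G) ≤ Subgroup.normalizer ((P ⊓ N : Subgroup G) : Set G) := by
  intro g hg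
  rw [Subgroup.mem_normalizer_iff] at hg ⊢
  intro y
  constructor
  · intro hy
    exact ⟨(hg y).mp hy.1, hN.conj_mem y hy.2 g⟩
  · intro hy
    refine ⟨(hg y).mpr hy.1, ?_⟩
    have := hN.conj_mem _ hy.2 g⁻¹
    simpa [mul_assoc] using this

end

end Cfsg.Agent.Helper72
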