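import Cfsg.Agent.Helper72.ClassGraph4

/-!
# Groups whose two largest class sizes are coprime (helper72)

`TL m n G` : `m > n > 1` are coprime, every class has size `≤ m`, every class of size `< m` has
size `≤ n`, and both sizes occur.  With `K = tlK n G` the subgroup generated by the elements of
class size `n`:

* `TL.cent_eq_K` : `C(a) = K` for every `a` of class size `n` (`K` is abelian, `TL.pre.K_comm`);
* `TL.cs_eq_m` : a noncentral element with a power coprime to `|N|` in the centre has class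
  size `m`;
* `TL.exists_mul` : `G = K C(b)` for `b` of class size `m`;
* `TL.K_inf_cent'` : `K ∩ C(b) = Z(G)`;
* `TL.cent_comm` : `C(b)` is abelian; `TL.cs_of_cent` : its noncentral elements have class
  size `m`;
* `TL.psi_eq_one` : `k⁻¹ b k b⁻¹` (`k ∈ K`) is trivial as soon as it commutes with `b`.
-/

set_option autoImplicit false

namespace Cfsg.Agent.Helper72

universe u

section TwoLargest
variable {G : Type u} [Group G]

/-- The two largest class sizes `m > n > 1` of `G` are coprime. -/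
structure TL (m n : ℕ) (G : Type u) [Group G] : Prop where
  hmn : n < m
  hn : 1 < n
  hcop : Nat.Coprime m n
  htop : ∀ z : G, cgCs z ≤ m
  hsecond : ∀ z : G, cgCs z < m → cgCs z ≤ n
  exn : ∃ x : G, cgCs x = n
  exm : ∃ y : G, cgCs y = m

/-- The elements of class size `n`. -/
def tlX (n : ℕ) (G : Type u) [Group G] : Set G := {a : G | cgCs a = n}

/-- The subgroup generated by the elements of class size `n`. -/
abbrev tlK (n : ℕ) (G : Type u) [Group G] : Subgroup G := cgpK (tlX n G)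

/-- The subgroup generated by the `a⁻¹ a^g`, `a` of class size `n`. -/
abbrev tlN (n : ℕ) (G : Type u) [Group G] : Subgroup G := cgpN (tlX n G)

variable {m n : ℕ}

theorem tl_mem_K {a : G} (ha : cgCs a = n) : a ∈ tlK n G := Subgroup.subset_closure ha

theorem TL.le_n (h : TL m n G) {g : G} (hg : cgCs g ≠ m) : cgCs g ≤ n :=
  h.hsecond g (lt_of_le_of_ne (h.htop g) hg)

theorem TL.pre [Finite G] (h : TL m n G) : CgPre (tlX n G) (fun b : G => cgCs b = m) where
  conjX := fun x hx g => by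
    show cgCs (g * x * g⁻¹) = n
    rw [cgCs_conj]; exact hx
  invX := fun x hx => by
    show cgCs x⁻¹ = n
    rw [cgCs_inv]; exact hx
  conjY := fun y hy g => by
    show cgCs (g * y * g⁻¹) = m
    rw [cgCs_conj]; exact hy
  mulXY := fun x hx y hy => by
    have hx' : cgCs x = n := hx
    have hy' : cgCs y = m := hy
    have hc : Nat.Coprime (cgCs x) (cgCs y) := by rw [hx', hy']; exact h.hcop.symm
    have h1 := cg_le_mul_right x y hc
    have h2 : cgCs (x * y) = m := le_antisymm (h.htop _) (by rw [← hy']; exact h1)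
    exact ⟨hc, h2, by rw [h2, hy']⟩
  exY := h.exm

variable [Finite G]

theorem TL.cop_e (h : TL m n G) : Nat.Coprime n (Nat.card (tlN n G)) := by
  by_contra hcon
  obtain ⟨p, hp, hp1, hp2⟩ := Nat.Prime.not_coprime_iff_dvd.mp hcon
  obtain ⟨y, hy⟩ := h.exm
  have h1 : p ∣ cgCs y := h.pre.N_prime_dvd hp hp2 (y := y) hy
  rw [hy] at h1
  exact hp.one_lt.ne' (Nat.eq_one_of_dvd_coprimes h.hcop h1 hp1)

theorem TL.K_le (h : TL m n G) {k : G} (hk : k ∈ tlK n G) : cgCs k ≤ n := by
  apply h.le_n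
  intro hkm
  have h1 : cgCs (k⁻¹ * k) = m := h.pre.K_mul_Y ((tlK n G).inv_mem hk) k hkm
  rw [inv_mul_cancel] at h1
  have h2 : cgCs (1 : G) = 1 := (cgCs_eq_one_iff 1).mpr (Subgroup.one_mem _)
  rw [h2] at h1
  have := h.hn
  have := h.hmn
  omega

theorem TL.K_mul_le (h : TL m n G) {k w : G} (hk : k ∈ tlK n G) (hw : cgCs w ≤ n) :
    cgCs (k * w) ≤ n := by
  apply h.le_n
  intro hkm
  have h1 : cgCs (k⁻¹ * (k * w)) = m := h.pre.K_mul_Y ((tlK n G).inv_mem hk) (k * w) hkm
  rw [inv_mul_cancel_left] at h1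
  have := h.hmn
  omega

/-- An element whose class size is at most `n` and coprime to `n` lies in `K`. -/
theorem TL.mem_K_of_coprime (h : TL m n G) {g : G} (hg : cgCs g ≤ n)
    (hc : Nat.Coprime (cgCs g) n) : g ∈ tlK n G := by
  obtain ⟨a, ha⟩ := h.exn
  have hcop : Nat.Coprime (cgCs a) (cgCs g) := by rw [ha]; exact hc.symm
  have hd := cg_mul_dvd a g hcop
  have hl := cg_le_mul_left a g hcop
  rw [ha] at hd hl
  have hle : cgCs (a * g) ≤ n := by
    apply h.le_n
    intro hm
    rw [hm] at hd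
    have h1 : m ∣ cgCs g := h.hcop.dvd_of_dvd_mul_left hd
    have h2 := Nat.le_of_dvd (cgCs_pos g) h1
    have := h.hmn
    omega
  have heq : cgCs (a * g) = n := le_antisymm hle hl
  have h3 : a * g ∈ tlK n G := tl_mem_K heq
  have h4 : a ∈ tlK n G := tl_mem_K ha
  have h5 := (tlK n G).mul_mem ((tlK n G).inv_mem h4) h3
  rw [inv_mul_cancel_left] at h5
  exact h5

theorem TL.center_le_K (h : TL m n G) : Subgroup.center G ≤ tlK n G := by
  intro z hz
  have h1 : cgCs z = 1 := (cgCs_eq_one_iff z).mpr hz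
  apply h.mem_K_of_coprime
  · rw [h1]; exact h.hn.le
  · rw [h1]; exact Nat.coprime_one_left n

/-- An element commuting with an element of class size `n`, with a power coprime to `|N|` in the
centre, is central. -/
theorem TL.central_of_comm (h : TL m n G) {a w : G} (ha : cgCs a = n) (hc : Commute w a)
    {j : ℕ} (hj : Nat.Coprime j (Nat.card (tlN n G))) (hw : w ^ j ∈ Subgroup.center G) :
    w ∈ Subgroup.center G := by
  have haK : a ∈ tlK n G := tl_mem_K ha
  have hae := h.pre.pow_mem_center haK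
  have hle : Subgroup.centralizer ({a * w} : Set G) ≤ Subgroup.centralizer ({a} : Set G) := by
    intro c hc'
    rw [Subgroup.mem_centralizer_singleton_iff] at hc' ⊢
    exact (cg_cent_mul_le hc.symm hj hae hw (c := c) hc').1.eq
  have hd : cgCs a ∣ cgCs (a * w) := Subgroup.index_dvd_of_le hle
  rw [ha] at hd
  have hle' : cgCs (a * w) ≤ n := by
    apply h.le_n
    intro hm
    rw [hm] at hd
    have h1 : n = 1 := Nat.eq_one_of_dvd_coprimes h.hcop hd (dvd_refl n)
    have := h.hn
    omega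
  have heq : cgCs (a * w) = n := le_antisymm hle' (Nat.le_of_dvd (cgCs_pos _) hd)
  have h3 : a * w ∈ tlK n G := tl_mem_K heq
  have h5 := (tlK n G).mul_mem ((tlK n G).inv_mem haK) h3
  rw [inv_mul_cancel_left] at h5
  have hwe := h.pre.pow_mem_center h5
  exact Helper67.mem_of_coprime_pow_mem (Subgroup.center G) w hj hw hwe

/-- A noncentral element with a power coprime to `|N|` in the centre has class size `m`. -/
theorem TL.cs_eq_m (h : TL m n G) {u : G} {j : ℕ} (hu : u ∉ Subgroup.center G)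
    (hj : Nat.Coprime j (Nat.card (tlN n G))) (huj : u ^ j ∈ Subgroup.center G) :
    cgCs u = m := by
  by_contra hne
  have hun : cgCs u ≤ n := h.le_n hne
  obtain ⟨x, hx⟩ := h.exn
  have hK := h.pre.K_normal
  have hab := h.pre.K_comm
  have hxK : x ∈ tlK n G := tl_mem_K hx
  have hfix : ∀ k ∈ tlK n G, Commute (k⁻¹ * u * k * u⁻¹) u → k⁻¹ * u * k * u⁻¹ = 1 :=
    fun k hk hc => cg_psi_eq_one (tlK n G) hab hj (fun k hk => h.pre.pow_mem_center hk) huj hk hc
  obtain ⟨b, hbK, hcomm⟩ := cg_fitting (tlK n G) hab u hfix hxK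
  have hx2K : b⁻¹ * u * b * u⁻¹ ∈ tlK n G := by
    have h1 : u * b * u⁻¹ ∈ tlK n G := hK.conj_mem b hbK u
    have h2 := (tlK n G).mul_mem ((tlK n G).inv_mem hbK) h1
    have h3 : b⁻¹ * (u * b * u⁻¹) = b⁻¹ * u * b * u⁻¹ := by group
    rw [h3] at h2; exact h2
  have hx1K : x * (b⁻¹ * u * b * u⁻¹)⁻¹ ∈ tlK n G :=
    (tlK n G).mul_mem hxK ((tlK n G).inv_mem hx2K)
  have hx2ne : b⁻¹ * u * b * u⁻¹ ≠ 1 := by
    intro h1
    rw [h1, inv_one, mul_one] at hcomm
    exact hu (h.central_of_comm hx hcomm.symm hj huj)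
  have hgle : cgCs (x * (b⁻¹ * u * b * u⁻¹)⁻¹ * u) ≤ n := h.K_mul_le hx1K hun
  have hT : ∀ c : G, Commute c (x * (b⁻¹ * u * b * u⁻¹)⁻¹ * u) →
      Commute c (x * (b⁻¹ * u * b * u⁻¹)⁻¹) ∧ Commute c u :=
    fun c hc => cg_cent_mul_le hcomm hj (h.pre.pow_mem_center hx1K) huj hc
  have hTu : Subgroup.centralizer ({x * (b⁻¹ * u * b * u⁻¹)⁻¹ * u} : Set G)
      ≤ Subgroup.centralizer ({u} : Set G) := by
    intro c hc
    rw [Subgroup.mem_centralizer_singleton_iff] at hc ⊢
    exact (hT c hc).2.eq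
  have horb := cg_orbit_lt (tlK n G) hab u
    (Subgroup.centralizer ({x * (b⁻¹ * u * b * u⁻¹)⁻¹ * u} : Set G)) hTu hbK hx2ne
  have hKA : tlK n G ≤ Subgroup.centralizer ({x} : Set G) := by
    intro k hk
    rw [Subgroup.mem_centralizer_singleton_iff]
    exact hab k hk x hxK
  have h1 : (Subgroup.centralizer ({x} : Set G) ⊓ Subgroup.centralizer ({u} : Set G)).index
      = (Subgroup.centralizer ({u} : Set G)).relIndex (Subgroup.centralizer ({x} : Set G))
        * (Subgroup.centralizer ({x} : Set G)).index := by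
    rw [← Subgroup.relIndex_mul_index (inf_le_left : Subgroup.centralizer ({x} : Set G)
      ⊓ Subgroup.centralizer ({u} : Set G) ≤ Subgroup.centralizer ({x} : Set G)),
      Subgroup.inf_relIndex_left]
  have h2 : (Subgroup.centralizer ({u} : Set G)).relIndex (tlK n G)
      ≤ (Subgroup.centralizer ({u} : Set G)).relIndex (Subgroup.centralizer ({x} : Set G)) :=
    Subgroup.relIndex_le_of_le_right hKA (by
      unfold Subgroup.relIndex; exact Subgroup.index_ne_zero_of_finite)
  have h3 : (Subgroup.centralizer ({x * (b⁻¹ * u * b * u⁻¹)⁻¹ * u} : Set G)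
      ⊓ Subgroup.centralizer ({b⁻¹ * u * b * u⁻¹} : Set G)).index
      = (Subgroup.centralizer ({b⁻¹ * u * b * u⁻¹} : Set G)).relIndex
          (Subgroup.centralizer ({x * (b⁻¹ * u * b * u⁻¹)⁻¹ * u} : Set G))
        * (Subgroup.centralizer ({x * (b⁻¹ * u * b * u⁻¹)⁻¹ * u} : Set G)).index := by
    rw [← Subgroup.relIndex_mul_index (inf_le_left :
      Subgroup.centralizer ({x * (b⁻¹ * u * b * u⁻¹)⁻¹ * u} : Set G)
      ⊓ Subgroup.centralizer ({b⁻¹ * u * b * u⁻¹} : Set G)
      ≤ Subgroup.centralizer ({x * (b⁻¹ * u * b * u⁻¹)⁻¹ * u} : Set G)),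
      Subgroup.inf_relIndex_left]
  have h4 : Subgroup.centralizer ({x * (b⁻¹ * u * b * u⁻¹)⁻¹ * u} : Set G)
      ⊓ Subgroup.centralizer ({b⁻¹ * u * b * u⁻¹} : Set G)
      ≤ Subgroup.centralizer ({x} : Set G) ⊓ Subgroup.centralizer ({u} : Set G) := by
    intro c hc
    obtain ⟨hc1, hc2⟩ := Subgroup.mem_inf.mp hc
    rw [Subgroup.mem_centralizer_singleton_iff] at hc1 hc2
    obtain ⟨hcx1, hcu⟩ := hT c hc1
    have hcx2 : Commute c (b⁻¹ * u * b * u⁻¹) := hc2
    refine Subgroup.mem_inf.mpr ⟨?_, Subgroup.mem_centralizer_singleton_iff.mpr hcu.eq⟩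
    rw [Subgroup.mem_centralizer_singleton_iff]
    have h5 : Commute c (x * (b⁻¹ * u * b * u⁻¹)⁻¹ * (b⁻¹ * u * b * u⁻¹)) := hcx1.mul_right hcx2
    have h6 : x * (b⁻¹ * u * b * u⁻¹)⁻¹ * (b⁻¹ * u * b * u⁻¹) = x := by group
    rw [h6] at h5
    exact h5.eq
  have h5 := Subgroup.index_dvd_of_le h4
  have h6 := Nat.le_of_dvd (Nat.pos_of_ne_zero Subgroup.index_ne_zero_of_finite) h5
  have hTn : (Subgroup.centralizer ({x * (b⁻¹ * u * b * u⁻¹)⁻¹ * u} : Set G)).index ≤ n := hgle
  have hAn : (Subgroup.centralizer ({x} : Set G)).index = n := hx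
  rw [h1, h3, hAn] at h6
  have h7 := Nat.mul_le_mul_right n h2
  have h8 := Nat.mul_le_mul_left ((Subgroup.centralizer ({b⁻¹ * u * b * u⁻¹} : Set G)).relIndex
          (Subgroup.centralizer ({x * (b⁻¹ * u * b * u⁻¹)⁻¹ * u} : Set G))) hTn
  have h9 := Nat.mul_lt_mul_of_pos_right horb (lt_trans Nat.zero_lt_one h.hn)
  exact absurd (le_trans h7 (le_trans h6 h8)) (not_le.mpr h9)

/-- The centralizer of an element of class size `n` is contained in `K`. -/
theorem TL.cent_le_K (h : TL m n G) {a g : G} (ha : cgCs a = n) (hg : Commute g a) :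
    g ∈ tlK n G := by
  have hcopne := h.cop_e
  have hr : ∀ p : ℕ, p.Prime →
      p ∣ (Subgroup.center G).relIndex (Subgroup.centralizer ({a} : Set G)) →
      p ∣ Nat.card (tlN n G) :=
    cg_relIndex_primes a _ (fun w hw p hp hpe hwp =>
      h.central_of_comm ha hw ((Nat.Prime.coprime_iff_not_dvd hp).mpr hpe) hwp)
  have hgr : g ^ (Subgroup.center G).relIndex (Subgroup.centralizer ({a} : Set G))
      ∈ Subgroup.center G := by
    have hgC : g ∈ Subgroup.centralizer ({a} : Set G) :=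
      Subgroup.mem_centralizer_singleton_iff.mpr hg.eq
    have h1 := Subgroup.pow_index_mem
      ((Subgroup.center G).subgroupOf (Subgroup.centralizer ({a} : Set G)))
      (⟨g, hgC⟩ : Subgroup.centralizer ({a} : Set G))
    rw [Subgroup.mem_subgroupOf, Subgroup.coe_pow] at h1
    exact h1
  by_cases hex : ∃ w : G, w ∉ Subgroup.center G ∧ Commute w g ∧
      ∃ j : ℕ, Nat.Coprime j (Nat.card (tlN n G)) ∧ w ^ j ∈ Subgroup.center G
  · obtain ⟨w, hwz, hwg, j, hj, hwj⟩ := hex
    have hwm : cgCs w = m := h.cs_eq_m hwz hj hwj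
    have hrj : Nat.Coprime j
        ((Subgroup.center G).relIndex (Subgroup.centralizer ({a} : Set G))) := by
      by_contra hcon
      obtain ⟨p, hp, hp1, hp2⟩ := Nat.Prime.not_coprime_iff_dvd.mp hcon
      have hpe := hr p hp hp2
      exact hp.one_lt.ne' (Nat.eq_one_of_dvd_coprimes hj hp1 hpe)
    have hT : ∀ c : G, Commute c (g * w) → Commute c g ∧ Commute c w :=
      fun c hc => cg_cent_mul_le hwg.symm hrj hgr hwj hc
    have hle : Subgroup.centralizer ({g * w} : Set G) ≤ Subgroup.centralizer ({w} : Set G) := by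
      intro c hc
      rw [Subgroup.mem_centralizer_singleton_iff] at hc ⊢
      exact (hT c hc).2.eq
    have hd : cgCs w ∣ cgCs (g * w) := Subgroup.index_dvd_of_le hle
    have hgw : cgCs (g * w) = m := by
      rw [hwm] at hd
      exact le_antisymm (h.htop _) (Nat.le_of_dvd (cgCs_pos _) hd)
    have hle2 : Subgroup.centralizer ({w} : Set G) ≤ Subgroup.centralizer ({g * w} : Set G) :=
      cg_le_of_index_eq hle (by
        show cgCs (g * w) = cgCs w
        rw [hgw, hwm])
    have hwg' : Subgroup.centralizer ({w} : Set G) ≤ Subgroup.centralizer ({g} : Set G) := by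
      intro c hc
      have h1 := hle2 hc
      rw [Subgroup.mem_centralizer_singleton_iff] at h1 ⊢
      exact (hT c h1).1.eq
    have hdg : cgCs g ∣ cgCs w := Subgroup.index_dvd_of_le hwg'
    rw [hwm] at hdg
    by_cases hgm : cgCs g = m
    · exfalso
      have hle3 : Subgroup.centralizer ({g} : Set G) ≤ Subgroup.centralizer ({w} : Set G) :=
        cg_le_of_index_eq hwg' (by
          show cgCs w = cgCs g
          rw [hgm, hwm])
      have haC : a ∈ Subgroup.centralizer ({g} : Set G) :=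
        Subgroup.mem_centralizer_singleton_iff.mpr hg.symm.eq
      have h1 := hle3 haC
      rw [Subgroup.mem_centralizer_singleton_iff] at h1
      have h2 : Commute a w := h1
      exact hwz (h.central_of_comm ha h2.symm hj hwj)
    · exact h.mem_K_of_coprime (h.le_n hgm) (Nat.Coprime.coprime_dvd_left hdg h.hcop)
  · have hrg : ∀ p : ℕ, p.Prime →
        p ∣ (Subgroup.center G).relIndex (Subgroup.centralizer ({g} : Set G)) →
        p ∣ Nat.card (tlN n G) :=
      cg_relIndex_primes g _ (fun w hw p hp hpe hwp => by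
        by_contra hwz
        exact hex ⟨w, hwz, hw, p, (Nat.Prime.coprime_iff_not_dvd hp).mpr hpe, hwp⟩)
    have hcop2 : Nat.Coprime n
        ((Subgroup.center G).relIndex (Subgroup.centralizer ({g} : Set G))) := by
      by_contra hcon
      obtain ⟨p, hp, hp1, hp2⟩ := Nat.Prime.not_coprime_iff_dvd.mp hcon
      have hpe := hrg p hp hp2
      exact hp.one_lt.ne' (Nat.eq_one_of_dvd_coprimes hcopne hp1 hpe)
    have h1 := Subgroup.relIndex_mul_index (Subgroup.center_le_centralizer ({g} : Set G))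
    have h2 := Subgroup.relIndex_mul_index (Subgroup.center_le_centralizer ({a} : Set G))
    have han : (Subgroup.centralizer ({a} : Set G)).index = n := ha
    have h3 : n ∣ (Subgroup.center G).relIndex (Subgroup.centralizer ({g} : Set G)) * cgCs g := by
      show n ∣ (Subgroup.center G).relIndex (Subgroup.centralizer ({g} : Set G))
        * (Subgroup.centralizer ({g} : Set G)).index
      rw [h1, ← h2, han]
      exact dvd_mul_left n _
    have h4 : n ∣ cgCs g := hcop2.dvd_of_dvd_mul_left h3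
    have hle : cgCs g ≤ n := by
      apply h.le_n
      intro hm
      rw [hm] at h4
      have h5 : n = 1 := Nat.eq_one_of_dvd_coprimes h.hcop h4 (dvd_refl n)
      have := h.hn
      omega
    have heq : cgCs g = n := le_antisymm hle (Nat.le_of_dvd (cgCs_pos g) h4)
    exact tl_mem_K heq

/-- The centralizer of an element of class size `n` is `K`. -/
theorem TL.cent_eq_K (h : TL m n G) {a : G} (ha : cgCs a = n) :
    Subgroup.centralizer ({a} : Set G) = tlK n G := by
  apply le_antisymm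
  · intro g hg
    rw [Subgroup.mem_centralizer_singleton_iff] at hg
    exact h.cent_le_K ha hg
  · intro k hk
    rw [Subgroup.mem_centralizer_singleton_iff]
    exact h.pre.K_comm k hk a (tl_mem_K ha)

theorem TL.K_index (h : TL m n G) : (tlK n G).index = n := by
  obtain ⟨a, ha⟩ := h.exn
  rw [← h.cent_eq_K ha]
  exact ha

theorem TL.pow_mem_K (h : TL m n G) (g : G) : g ^ n ∈ tlK n G := by
  have hK := h.pre.K_normal
  have h1 := Subgroup.pow_index_mem (tlK n G) g
  rw [h.K_index] at h1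
  exact h1

/-- `G = K C(b)` for `b` of class size `m`. -/
theorem TL.exists_mul (h : TL m n G) {b : G} (hb : cgCs b = m) (g : G) :
    ∃ k ∈ tlK n G, ∃ c : G, Commute c b ∧ g = k * c := by
  have hcop : (Subgroup.centralizer ({b} : Set G)).index.Coprime (tlK n G).index := by
    rw [h.K_index]
    show Nat.Coprime (cgCs b) n
    rw [hb]; exact h.hcop
  obtain ⟨k, hk, hkg⟩ := Helper69.exists_mem_mul_of_coprime_index
    (Subgroup.centralizer ({b} : Set G)) (tlK n G) hcop g
  exact ⟨k, hk, k⁻¹ * g, Subgroup.mem_centralizer_singleton_iff.mp hkg, by group⟩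

/-- `K ∩ C(u) ≤ Z(G)` for `u` of class size `m` with a power coprime to `|N|` in the centre. -/
theorem TL.K_inf_cent (h : TL m n G) {u : G} {j : ℕ} (hu : cgCs u = m)
    (hj : Nat.Coprime j (Nat.card (tlN n G))) (huj : u ^ j ∈ Subgroup.center G)
    {k : G} (hk : k ∈ tlK n G) (hc : Commute k u) : k ∈ Subgroup.center G := by
  have hku : cgCs (k * u) = m := h.pre.K_mul_Y hk u hu
  have hT : ∀ c : G, Commute c (k * u) → Commute c k ∧ Commute c u :=
    fun c hc' => cg_cent_mul_le hc hj (h.pre.pow_mem_center hk) huj hc'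
  have hle : Subgroup.centralizer ({k * u} : Set G) ≤ Subgroup.centralizer ({u} : Set G) := by
    intro c hc'
    rw [Subgroup.mem_centralizer_singleton_iff] at hc' ⊢
    exact (hT c hc').2.eq
  have hle2 : Subgroup.centralizer ({u} : Set G) ≤ Subgroup.centralizer ({k * u} : Set G) :=
    cg_le_of_index_eq hle (by
      show cgCs (k * u) = cgCs u
      rw [hku, hu])
  rw [Subgroup.mem_center_iff]
  intro g
  obtain ⟨k₁, hk₁, c, hcu, rfl⟩ := h.exists_mul hu g
  have hck : Commute c k := by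
    have h1 : c ∈ Subgroup.centralizer ({u} : Set G) :=
      Subgroup.mem_centralizer_singleton_iff.mpr hcu.eq
    have h2 := hle2 h1
    rw [Subgroup.mem_centralizer_singleton_iff] at h2
    exact (hT c h2).1
  have hkk : Commute k₁ k := h.pre.K_comm k₁ hk₁ k hk
  exact (hkk.mul_left hck).eq

/-- `b ^ n` is central for `b` of class size `m`. -/
theorem TL.pow_n_center (h : TL m n G) {b : G} (hb : cgCs b = m) :
    b ^ n ∈ Subgroup.center G := by
  have hbn : b ^ n ∈ tlK n G := h.pow_mem_K b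
  have hun : (b ^ Nat.card (tlN n G)) ^ n ∈ Subgroup.center G := by
    rw [← pow_mul, mul_comm, pow_mul]
    exact h.pre.pow_mem_center hbn
  have huz : b ^ Nat.card (tlN n G) ∉ Subgroup.center G := by
    intro hz
    have hbK : b ∈ tlK n G :=
      Helper67.mem_of_coprime_pow_mem (tlK n G) b h.cop_e hbn (h.center_le_K hz)
    have h1 := h.K_le hbK
    have := h.hmn
    omega
  have hum : cgCs (b ^ Nat.card (tlN n G)) = m := h.cs_eq_m huz h.cop_e hun
  exact h.K_inf_cent hum h.cop_e hun hbn ((Commute.refl b).pow_pow n _)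

/-- `K ∩ C(b) ≤ Z(G)` for `b` of class size `m`. -/
theorem TL.K_inf_cent' (h : TL m n G) {b : G} (hb : cgCs b = m) {k : G} (hk : k ∈ tlK n G)
    (hc : Commute k b) : k ∈ Subgroup.center G :=
  h.K_inf_cent hb h.cop_e (h.pow_n_center hb) hk hc

theorem TL.psi_eq_one (h : TL m n G) {b : G} (hb : cgCs b = m) {k : G} (hk : k ∈ tlK n G)
    (hc : Commute (k⁻¹ * b * k * b⁻¹) b) : k⁻¹ * b * k * b⁻¹ = 1 := by
  have hK := h.pre.K_normal
  exact cg_psi_eq_one (tlK n G) h.pre.K_comm h.cop_e (fun k hk => h.pre.pow_mem_center hk)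
    (h.pow_n_center hb) hk hc

/-- Noncentral elements of `C(b)` (`b` of class size `m`) have class size `m`. -/
theorem TL.cs_of_cent (h : TL m n G) {b c : G} (hb : cgCs b = m) (hc : Commute c b)
    (hcz : c ∉ Subgroup.center G) : cgCs c = m := by
  have hcn : c ^ n ∈ Subgroup.center G := h.K_inf_cent' hb (h.pow_mem_K c) (hc.pow_left n)
  exact h.cs_eq_m hcz h.cop_e hcn

/-- `C(b)` is abelian for `b` of class size `m`. -/
theorem TL.cent_comm (h : TL m n G) {b c g : G} (hb : cgCs b = m) (hc : Commute c b)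
    (hg : Commute g b) : Commute g c := by
  by_cases hcz : c ∈ Subgroup.center G
  · exact Subgroup.mem_center_iff.mp hcz g
  have hcm := h.cs_of_cent hb hc hcz
  have hK := h.pre.K_normal
  obtain ⟨k, hk, c₂, hc₂, rfl⟩ := h.exists_mul hcm g
  have hkinv : k⁻¹ ∈ tlK n G := (tlK n G).inv_mem hk
  have hzK : k⁻¹⁻¹ * c * k⁻¹ * c⁻¹ ∈ tlK n G := by
    have h1 : c * k⁻¹ * c⁻¹ ∈ tlK n G := hK.conj_mem _ hkinv c
    have h2 := (tlK n G).mul_mem hk h1
    have h3 : k * (c * k⁻¹ * c⁻¹) = k⁻¹⁻¹ * c * k⁻¹ * c⁻¹ := by group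
    rw [h3] at h2; exact h2
  have hzb : Commute (k⁻¹⁻¹ * c * k⁻¹ * c⁻¹) b := by
    have h1 : k⁻¹⁻¹ * c * k⁻¹ * c⁻¹ = (k * c₂) * c * (k * c₂)⁻¹ * c⁻¹ := by
      have h2 : c₂ * c * c₂⁻¹ = c := by rw [hc₂.eq]; group
      calc k⁻¹⁻¹ * c * k⁻¹ * c⁻¹ = k * c * k⁻¹ * c⁻¹ := by group
        _ = k * (c₂ * c * c₂⁻¹) * k⁻¹ * c⁻¹ := by rw [h2]
        _ = (k * c₂) * c * (k * c₂)⁻¹ * c⁻¹ := by group
    rw [h1]
    exact ((hg.mul_left hc).mul_left hg.inv_left).mul_left hc.inv_left
  have hzc : k⁻¹⁻¹ * c * k⁻¹ * c⁻¹ ∈ Subgroup.center G := h.K_inf_cent' hb hzK hzb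
  have hzc' : Commute c (k⁻¹⁻¹ * c * k⁻¹ * c⁻¹) := Subgroup.mem_center_iff.mp hzc c
  have hz1 : k⁻¹⁻¹ * c * k⁻¹ * c⁻¹ = 1 := h.psi_eq_one hcm hkinv hzc'.symm
  have hkc : Commute k c := by
    have h2 : k * c * k⁻¹ = c := by
      calc k * c * k⁻¹ = (k⁻¹⁻¹ * c * k⁻¹ * c⁻¹) * c := by group
        _ = c := by rw [hz1, one_mul]
    show k * c = c * k
    calc k * c = (k * c * k⁻¹) * k := by group
      _ = c * k := by rw [h2]
  exact hkc.mul_left hc₂

end TwoLargest

end Cfsg.Agent.Helper72
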